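import Mathlib
import Cfsg.Agent.H4.TnDefs

/-!
# TN-COMPL (helper63, for helper4's S3805 project): a Klein four complement to `T` in `N`
-/

set_option autoImplicit false

namespace Cfsg.Agent.H63.Tn

open Subgroup Cfsg.Agent.H4.Tn

universe u

theorem compl : StCompl.{u} := by
  intro G _ _ T hcard _ hK
  classical
  have hTN : (T : Subgroup G) ≤ normalizer ((T : Subgroup G) : Set G) := Subgroup.le_normalizer
  have hcT' : Nat.card ((T : Subgroup G).subgroupOf (normalizer ((T : Subgroup G) : Set G)))
      = 9 := by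
    rw [← hcard]
    exact Nat.card_congr (Subgroup.subgroupOfEquivOfLe hTN).toEquiv
  have hidx : ((T : Subgroup G).subgroupOf (normalizer ((T : Subgroup G) : Set G))).index
      = 4 := by
    rw [Subgroup.index_eq_card]
    exact hK.card_four
  obtain ⟨H, hH⟩ := Subgroup.exists_right_complement'_of_coprime
    (N := (T : Subgroup G).subgroupOf (normalizer ((T : Subgroup G) : Set G)))
    (by rw [hcT', hidx]; norm_num)
  have hcH : Nat.card H = 4 := by
    have h1 := hH.card_mul_card
    have h2 := Subgroup.card_mul_index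
      ((T : Subgroup G).subgroupOf (normalizer ((T : Subgroup G) : Set G)))
    rw [hcT'] at h1 h2
    rw [hidx] at h2
    omega
  have hdisj : ∀ h : ↥(normalizer ((T : Subgroup G) : Set G)), h ∈ H →
      h ∈ (T : Subgroup G).subgroupOf (normalizer ((T : Subgroup G) : Set G)) → h = 1 := by
    intro h hh ht
    exact Subgroup.disjoint_def.mp hH.disjoint ht hh
  have hsq : ∀ h : ↥(normalizer ((T : Subgroup G) : Set G)), h ∈ H → h * h = 1 := by
    intro h hh
    apply hdisj _ (H.mul_mem hh hh)
    have h1 : ((h : ↥(normalizer ((T : Subgroup G) : Set G))) :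
        ↥(normalizer ((T : Subgroup G) : Set G)) ⧸
          (T : Subgroup G).subgroupOf (normalizer ((T : Subgroup G) : Set G))) ^ 2 = 1 := by
      have h0 := Monoid.pow_exponent_eq_one
        ((h : ↥(normalizer ((T : Subgroup G) : Set G))) :
          ↥(normalizer ((T : Subgroup G) : Set G)) ⧸
            (T : Subgroup G).subgroupOf (normalizer ((T : Subgroup G) : Set G)))
      rwa [hK.exponent_two] at h0
    rw [← QuotientGroup.mk_pow, QuotientGroup.eq_one_iff, pow_two] at h1
    exact h1
  have hcomm : ∀ h k : ↥(normalizer ((T : Subgroup G) : Set G)), h ∈ H → k ∈ H →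
      h * k = k * h := by
    intro h k hh hk
    have h1 := hsq h hh
    have h2 := hsq k hk
    have h3 := hsq (k * h) (H.mul_mem hk hh)
    calc h * k = h * k * ((k * h) * (k * h)) := by rw [h3, mul_one]
      _ = h * (k * k) * h * (k * h) := by simp only [mul_assoc]
      _ = (h * h) * (k * h) := by rw [h2, mul_one]
      _ = k * h := by rw [h1, one_mul]
  haveI : Fintype H := Fintype.ofFinite H
  have hcH' : Fintype.card H = 4 := by
    rw [← Nat.card_eq_fintype_card]
    exact hcH
  let e : H ≃ Fin 4 := Fintype.equivFinOfCardEq hcH'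
  obtain ⟨i, j, hi, hj, hij⟩ : ∃ i j : Fin 4, i ≠ e 1 ∧ j ≠ e 1 ∧ i ≠ j := by
    have hdec : ∀ o : Fin 4, ∃ i j : Fin 4, i ≠ o ∧ j ≠ o ∧ i ≠ j := by decide
    exact hdec (e 1)
  obtain ⟨x, hx⟩ : ∃ x : H, x = e.symm i := ⟨_, rfl⟩
  obtain ⟨y, hy⟩ : ∃ y : H, y = e.symm j := ⟨_, rfl⟩
  have hx1 : x ≠ 1 := by
    intro h
    apply hi
    rw [← h, hx, Equiv.apply_symm_apply]
  have hy1 : y ≠ 1 := by
    intro h
    apply hj
    rw [← h, hy, Equiv.apply_symm_apply]
  have hxy : x ≠ y := by
    intro h
    apply hij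
    rw [hx, hy] at h
    exact e.symm.injective h
  have hxx : x * x = 1 := Subtype.ext (hsq x.1 x.2)
  have hyy : y * y = 1 := Subtype.ext (hsq y.1 y.2)
  have hxyc : x * y = y * x := Subtype.ext (hcomm x.1 y.1 x.2 y.2)
  have hxy1 : x * y ≠ 1 := by
    intro h
    apply hxy
    calc x = x * (y * y) := by rw [hyy, mul_one]
      _ = (x * y) * y := by rw [mul_assoc]
      _ = y := by rw [h, one_mul]
  have hxyx : x * y ≠ x := by
    intro h
    exact hy1 (mul_eq_left.mp h)
  have hxyy : x * y ≠ y := by
    intro h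
    exact hx1 (mul_eq_right.mp h)
  have hall : ∀ h : H, h = 1 ∨ h = x ∨ h = y ∨ h = x * y := by
    intro h
    by_contra hcon
    rw [not_or, not_or, not_or] at hcon
    obtain ⟨c1, c2, c3, c4⟩ := hcon
    have hcard5 : ({h, 1, x, y, x * y} : Finset H).card = 5 := by
      rw [Finset.card_insert_of_notMem, Finset.card_insert_of_notMem,
        Finset.card_insert_of_notMem, Finset.card_insert_of_notMem, Finset.card_singleton]
      · rw [Finset.mem_singleton]
        exact fun h => hxyy h.symm
      · rw [Finset.mem_insert, Finset.mem_singleton, not_or]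
        exact ⟨hxy, fun h => hxyx h.symm⟩
      · rw [Finset.mem_insert, Finset.mem_insert, Finset.mem_singleton, not_or, not_or]
        exact ⟨fun h => hx1 h.symm, fun h => hy1 h.symm, fun h => hxy1 h.symm⟩
      · rw [Finset.mem_insert, Finset.mem_insert, Finset.mem_insert, Finset.mem_singleton,
          not_or, not_or, not_or]
        exact ⟨c1, c2, c3, c4⟩
    have hle := Finset.card_le_univ ({h, 1, x, y, x * y} : Finset H)
    omega
  have hnotT : ∀ h : H, h ≠ 1 → ((h : ↥(normalizer ((T : Subgroup G) : Set G))) : G) ∉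
      (T : Subgroup G) := by
    intro h hh hT
    apply hh
    apply Subtype.ext
    exact hdisj h.1 h.2 (Subgroup.mem_subgroupOf.mpr hT)
  refine ⟨((x : ↥(normalizer ((T : Subgroup G) : Set G))) : G),
    ((y : ↥(normalizer ((T : Subgroup G) : Set G))) : G), x.1.2, y.1.2, ?_, ?_, ?_,
    hnotT x hx1, hnotT y hy1, ?_, ?_⟩
  · have h1 := congrArg (fun h : H => ((h : ↥(normalizer ((T : Subgroup G) : Set G))) : G)) hxx
    exact h1
  · have h1 := congrArg (fun h : H => ((h : ↥(normalizer ((T : Subgroup G) : Set G))) : G)) hyy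
    exact h1
  · have h1 := congrArg (fun h : H => ((h : ↥(normalizer ((T : Subgroup G) : Set G))) : G)) hxyc
    exact h1
  · exact hnotT (x * y) hxy1
  · intro g hg
    obtain ⟨⟨⟨t, ht⟩, ⟨k, hk⟩⟩, hg', -⟩ :=
      (Subgroup.isComplement'_def.mp hH).existsUnique
        (⟨g, hg⟩ : ↥(normalizer ((T : Subgroup G) : Set G)))
    have hg2 : g = (t : G) * (k : G) := by
      have h1 := congrArg (fun h : ↥(normalizer ((T : Subgroup G) : Set G)) => (h : G)) hg'
      exact h1.symm
    refine ⟨(t : G), Subgroup.mem_subgroupOf.mp ht, ?_⟩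
    rcases hall ⟨k, hk⟩ with h1 | h1 | h1 | h1
    · left
      have h2 : k = 1 := congrArg Subtype.val h1
      rw [hg2, h2]
      simp
    · right; left
      have h2 : k = x.1 := congrArg Subtype.val h1
      rw [hg2, h2]
    · right; right; left
      have h2 : k = y.1 := congrArg Subtype.val h1
      rw [hg2, h2]
    · right; right; right
      have h2 : k = (x * y).1 := congrArg Subtype.val h1
      rw [hg2, h2]
      rfl

end Cfsg.Agent.H63.Tn

universe u
example : Cfsg.Agent.H4.Tn.StCompl.{u} := Cfsg.Agent.H63.Tn.compl
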