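import Mathlib
import Cfsg.Agent.H4.TnDefs

/-!
# TN-FIN (helper63, for helper4's S3805 project)

A normal subgroup `K ≥ T` with `K ∩ N = T` forces `T ⊴ G`: Burnside's transfer theorem gives a
normal 3-complement `Q` of `K`, on which `T` acts fixed-point-freely, so `Q = 1` by (FPF).
-/

set_option autoImplicit false

namespace Cfsg.Agent.H63.Tn

open Subgroup Cfsg.Agent.H4.Tn

universe u

theorem fin (h : StFpf.{u}) : StFin.{u} := by
  intro G _ _ T a b u v cfg K hKn hTK huK hvK huvK
  classical
  haveI : Fact (Nat.Prime 3) := ⟨by norm_num⟩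
  obtain ⟨S, hS⟩ := cfg.syl
  have hKN : ∀ n ∈ K, n ∈ normalizer (T : Set G) → n ∈ T := by
    intro n hnK hnN
    obtain ⟨t, ht, h1 | h1 | h1 | h1⟩ := cfg.Nelts n hnN
    · rw [h1]
      exact ht
    · exfalso
      apply huK
      have h2 : u = t⁻¹ * n := by rw [h1]; group
      rw [h2]
      exact K.mul_mem (K.inv_mem (hTK ht)) hnK
    · exfalso
      apply hvK
      have h2 : v = t⁻¹ * n := by rw [h1]; group
      rw [h2]
      exact K.mul_mem (K.inv_mem (hTK ht)) hnK
    · exfalso
      apply huvK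
      have h2 : u * v = t⁻¹ * n := by rw [h1]; group
      rw [h2]
      exact K.mul_mem (K.inv_mem (hTK ht)) hnK
  have hSK : (S : Subgroup G) ≤ K := by
    rw [hS]
    exact hTK
  obtain ⟨P, hPdef⟩ : ∃ P : Sylow 3 K, P = S.subtype hSK := ⟨_, rfl⟩
  have hPcoe : (P : Subgroup K) = T.subgroupOf K := by
    rw [hPdef, Sylow.coe_subtype, hS]
  have hmemP : ∀ k : K, k ∈ (P : Subgroup K) ↔ (k : G) ∈ T := by
    intro k
    rw [hPcoe, Subgroup.mem_subgroupOf]
  have hP : normalizer ((P : Subgroup K) : Set K) ≤ centralizer ((P : Subgroup K) : Set K) := by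
    intro k hk
    have hkN : (k : G) ∈ normalizer (T : Set G) := by
      rw [Subgroup.mem_normalizer_iff]
      intro g
      constructor
      · intro hg
        have h1 := (Subgroup.mem_normalizer_iff.mp hk ⟨g, hTK hg⟩).mp ((hmemP _).mpr hg)
        exact (hmemP _).mp h1
      · intro hg
        have hgK : g ∈ K := by
          have h2 : g = (k : G)⁻¹ * ((k : G) * g * (k : G)⁻¹) * (k : G) := by group
          rw [h2]
          exact K.mul_mem (K.mul_mem (K.inv_mem k.2) (hTK hg)) k.2
        have h1 := (Subgroup.mem_normalizer_iff.mp hk ⟨g, hgK⟩).mpr ((hmemP _).mpr hg)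
        exact (hmemP _).mp h1
    have hkT : (k : G) ∈ T := hKN _ k.2 hkN
    rw [Subgroup.mem_centralizer_iff]
    intro y hy
    apply Subtype.ext
    exact cfg.comm _ ((hmemP y).mp hy) _ hkT
  have hcompl := MonoidHom.ker_transferSylow_isComplement' P hP
  have hinj : Function.Injective K.subtype := Subtype.coe_injective
  have h1 : T ≤ normalizer ((((MonoidHom.transferSylow P hP).ker).map K.subtype : Subgroup G)
      : Set G) := by
    have hle := Subgroup.le_normalizer_map (H := (MonoidHom.transferSylow P hP).ker) K.subtype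
    rw [Subgroup.normalizer_eq_top] at hle
    intro t ht
    apply hle
    exact ⟨⟨t, hTK ht⟩, Subgroup.mem_top _, rfl⟩
  have h2 : (Nat.card (((MonoidHom.transferSylow P hP).ker).map K.subtype : Subgroup G)).Coprime
      3 := by
    have hc : Nat.card (((MonoidHom.transferSylow P hP).ker).map K.subtype : Subgroup G)
        = Nat.card (MonoidHom.transferSylow P hP).ker := Subgroup.card_map_of_injective hinj
    have hmul := hcompl.card_mul_card
    have hidx := Subgroup.card_mul_index (P : Subgroup K)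
    have hQidx : Nat.card (MonoidHom.transferSylow P hP).ker = (P : Subgroup K).index := by
      have hpos : 0 < Nat.card (P : Subgroup K) := Nat.card_pos
      have h3 : Nat.card (P : Subgroup K) * Nat.card (MonoidHom.transferSylow P hP).ker
          = Nat.card (P : Subgroup K) * (P : Subgroup K).index := by
        rw [hidx, mul_comm, hmul]
      exact Nat.eq_of_mul_eq_mul_left hpos h3
    rw [hc, hQidx]
    exact ((Nat.Prime.coprime_iff_not_dvd (by norm_num)).mpr P.not_dvd_index).symm
  have h4 : ∀ t ∈ T, t ^ 3 = 1 := by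
    intro t ht
    obtain ⟨i, j, rfl⟩ := cfg.Telts t ht
    have hc : Commute (a ^ i) (b ^ j) :=
      cfg.comm _ (T.pow_mem cfg.aT i) _ (T.pow_mem cfg.bT j)
    rw [hc.mul_pow, ← pow_mul, ← pow_mul, mul_comm i 3, mul_comm j 3, pow_mul, pow_mul,
      cfg.a3, cfg.b3, one_pow, one_pow, one_mul]
  have h6 : ∀ q ∈ (((MonoidHom.transferSylow P hP).ker).map K.subtype : Subgroup G),
      ∀ t ∈ T, t ≠ 1 → t * q = q * t → q = 1 := by
    intro q hq t ht ht1 hcomm
    obtain ⟨k, hk, rfl⟩ := hq
    have hqN : (k : G) ∈ normalizer (T : Set G) := by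
      apply cfg.loc t ht ht1
      rw [Subgroup.mem_centralizer_singleton_iff]
      exact hcomm.symm
    have hkT : (k : G) ∈ T := hKN _ k.2 hqN
    have hk1 : k = 1 := Subgroup.disjoint_def.mp hcompl.disjoint hk ((hmemP k).mpr hkT)
    rw [hk1]
    rfl
  have hQbot := h G _ T h1 h2 cfg.cardT h4 cfg.comm h6
  have hQ'bot : (MonoidHom.transferSylow P hP).ker = ⊥ :=
    (Subgroup.map_eq_bot_iff_of_injective _ hinj).mp hQbot
  have hPtop : (P : Subgroup K) = ⊤ := by
    apply Subgroup.eq_top_of_card_eq
    have hmul := hcompl.card_mul_card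
    rw [hQ'bot, Subgroup.card_bot, one_mul] at hmul
    exact hmul
  have hKT : K ≤ T := by
    rw [hPcoe] at hPtop
    exact Subgroup.subgroupOf_eq_top.mp hPtop
  have hTeq : T = K := le_antisymm hTK hKT
  rw [hTeq]
  exact Subgroup.normalizer_eq_top_iff.mpr hKn

end Cfsg.Agent.H63.Tn

universe u
example (h : Cfsg.Agent.H4.Tn.StFpf.{u}) : Cfsg.Agent.H4.Tn.StFin.{u} :=
  Cfsg.Agent.H63.Tn.fin h
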