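import Mathlib
import Cfsg.Agent.H4.TnDefs

/-!
# TN-STRUCT (helper63, for helper4's S3805 project): composition of COMPL and NORMAL
-/

set_option autoImplicit false

namespace Cfsg.Agent.H63.Tn

open Subgroup Cfsg.Agent.H4.Tn

universe u

theorem struct (h1 : StCompl.{u}) (h2 : StNormal.{u}) : StStruct.{u} := by
  intro G _ _ T hT hcard hC _ hK hloc
  obtain ⟨x, y, hx, hy, hxx, hyy, hxy, hxT, hyT, hxyT, hN⟩ := h1 G T hcard hK
  exact h2 G T x y hT hcard hC hloc hx hy hxx hyy hxy hxT hyT hxyT hN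

end Cfsg.Agent.H63.Tn

universe u
example (h1 : Cfsg.Agent.H4.Tn.StCompl.{u}) (h2 : Cfsg.Agent.H4.Tn.StNormal.{u}) :
    Cfsg.Agent.H4.Tn.StStruct.{u} := Cfsg.Agent.H63.Tn.struct h1 h2
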