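import Mathlib
import Cfsg.Agent.H4.TnDefs

/-!
# TN-SWAP (helper63, for helper4's S3805 project): the symmetry `(a,b,u,v) ↦ (b,a,v,u)`
-/

set_option autoImplicit false

namespace Cfsg.Agent.H63.Tn

open Subgroup Cfsg.Agent.H4.Tn

universe u

theorem swap : StSwap.{u} := by
  intro G _ _ T a b u v h
  have hab : ∀ i j : ℕ, a ^ i * b ^ j = b ^ j * a ^ i := fun i j =>
    h.comm _ (T.pow_mem h.aT i) _ (T.pow_mem h.bT j)
  exact
    { syl := h.syl
      cardT := h.cardT
      comm := h.comm
      aT := h.bT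
      bT := h.aT
      a3 := h.b3
      b3 := h.a3
      Telts := by
        intro t ht
        obtain ⟨i, j, hij⟩ := h.Telts t ht
        exact ⟨j, i, by rw [hij, hab]⟩
      indep := by
        intro i j hij
        rw [← hab] at hij
        exact (h.indep j i hij).symm
      u2 := h.v2
      v2 := h.u2
      uv := h.uv.symm
      ua := h.vb
      ub := h.va
      va := h.ub
      vb := h.ua
      uN := h.vN
      vN := h.uN
      Nelts := by
        intro g hg
        obtain ⟨t, ht, h1 | h1 | h1 | h1⟩ := h.Nelts g hg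
        · exact ⟨t, ht, Or.inl h1⟩
        · exact ⟨t, ht, Or.inr (Or.inr (Or.inl h1))⟩
        · exact ⟨t, ht, Or.inr (Or.inl h1)⟩
        · exact ⟨t, ht, Or.inr (Or.inr (Or.inr (by rw [h1, h.uv])))⟩
      cardN := h.cardN
      loc := h.loc }

end Cfsg.Agent.H63.Tn

universe u
example : Cfsg.Agent.H4.Tn.StSwap.{u} := Cfsg.Agent.H63.Tn.swap
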