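import Mathlib

set_option autoImplicit false

namespace Cfsg.Agent.H63

/-- Over `ZMod p` with `p` odd, a permutation that agrees on every triple of points with some
affine map is itself affine. -/
theorem affine_of_triples {p : ℕ} [Fact p.Prime] (hp : p ≠ 2) {V : Type*} [AddCommGroup V]
    [Module (ZMod p) V] (σ : Equiv.Perm V)
    (h : ∀ t : Fin 3 → V, ∃ (A : V ≃ₗ[ZMod p] V) (b : V), ∀ i, σ (t i) = A (t i) + b) :
    ∃ (A : V ≃ₗ[ZMod p] V) (b : V), ∀ x, σ x = A x + b := by
  have h2 : (2 : ZMod p) ≠ 0 := by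
    intro h2
    have : ((2 : ℕ) : ZMod p) = 0 := by exact_mod_cast h2
    rw [ZMod.natCast_eq_zero_iff] at this
    have hp' : p.Prime := Fact.out
    exact hp ((Nat.prime_dvd_prime_iff_eq hp' Nat.prime_two).mp this)
  -- homogeneity
  have hhom : ∀ (c : ZMod p) (x : V), σ (c • x) - σ 0 = c • (σ x - σ 0) := by
    intro c x
    obtain ⟨A, b, hA⟩ := h ![0, x, c • x]
    have h0 : σ 0 = A 0 + b := hA 0
    have h1 : σ x = A x + b := hA 1
    have h2 : σ (c • x) = A (c • x) + b := hA 2
    rw [h0, h1, h2, map_zero, map_smul]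
    simp
  -- midpoint
  have hmid : ∀ x y : V, σ (x + y) - σ 0 = (σ x - σ 0) + (σ y - σ 0) := by
    intro x y
    obtain ⟨A, b, hA⟩ := h ![x, y, (2 : ZMod p)⁻¹ • (x + y)]
    have h0 : σ x = A x + b := hA 0
    have h1 : σ y = A y + b := hA 1
    have h3 : σ ((2 : ZMod p)⁻¹ • (x + y)) = A ((2 : ZMod p)⁻¹ • (x + y)) + b := hA 2
    have e : x + y = (2 : ZMod p) • ((2 : ZMod p)⁻¹ • (x + y)) := by
      rw [smul_smul, mul_inv_cancel₀ h2, one_smul]
    have e2 := hhom 2 ((2 : ZMod p)⁻¹ • (x + y))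
    rw [← e] at e2
    rw [e2, h0, h1, h3, map_smul, map_add]
    simp only [smul_sub, smul_add, smul_smul, mul_inv_cancel₀ h2, one_smul]
    rw [two_smul (ZMod p) b, two_smul (ZMod p) (σ 0)]
    abel
  let F : V →ₗ[ZMod p] V :=
    { toFun := fun x => σ x - σ 0
      map_add' := hmid
      map_smul' := fun c x => by simpa using hhom c x }
  have hF : Function.Bijective F := by
    constructor
    · intro x y hxy
      have : σ x - σ 0 = σ y - σ 0 := hxy
      exact σ.injective (sub_left_injective this)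
    · intro y
      obtain ⟨x, hx⟩ := σ.surjective (y + σ 0)
      exact ⟨x, by show σ x - σ 0 = y; rw [hx]; simp⟩
  refine ⟨LinearEquiv.ofBijective F hF, σ 0, fun x => ?_⟩
  show σ x = (σ x - σ 0) + σ 0
  simp

end Cfsg.Agent.H63
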