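import Mathlib
import Cfsg.Agent.S3977

set_option autoImplicit false

namespace Cfsg.Agent.H63.BQ

open Subgroup

/-- Property (B): abelian subgroups of equal order are conjugate. -/
def BProp (G : Type*) [Group G] : Prop :=
  ∀ A B : Subgroup G, IsMulCommutative ↥A → IsMulCommutative ↥B → Nat.card ↥A = Nat.card ↥B →
    ∃ g : G, B = A.map (MulAut.conj g).toMonoidHom

/-- In a (B)-group, a normal subgroup of order divisible by `p` contains every element of
order `p`. -/
theorem mem_of_orderOf_eq {G : Type*} [Group G] [Finite G] (hB : BProp G) (M : Subgroup G)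
    [hMn : M.Normal] {p : ℕ} [Fact p.Prime] (hpM : p ∣ Nat.card M) {x : G} (hx : orderOf x = p) :
    x ∈ M := by
  obtain ⟨m, hm⟩ := exists_prime_orderOf_dvd_card' (G := ↥M) p hpM
  have hm' : orderOf (m : G) = p := by rw [Subgroup.orderOf_coe, hm]
  obtain ⟨g, hg⟩ := hB (zpowers (m : G)) (zpowers x) inferInstance inferInstance
    (by rw [Nat.card_zpowers, Nat.card_zpowers, hm', hx])
  rw [MonoidHom.map_zpowers] at hg
  have h1 : x ∈ zpowers ((MulAut.conj g).toMonoidHom (m : G)) := hg ▸ mem_zpowers x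
  have hle : zpowers ((MulAut.conj g).toMonoidHom (m : G)) ≤ M := by
    rw [zpowers_le]
    simpa using hMn.conj_mem _ m.2 g
  exact hle h1

/-- Two distinct subgroups of order `p` in a `p`-group give a subgroup of order `p ^ 2` and
exponent `p`. -/
theorem exists_sq_of_two {Q : Type*} [Group Q] [Finite Q] {p : ℕ} [Fact p.Prime]
    (hQ : IsPGroup p Q) (H K : Subgroup Q) (hH : Nat.card H = p) (hK : Nat.card K = p)
    (hne : H ≠ K) : ∃ E : Subgroup Q, Nat.card E = p ^ 2 ∧ ∀ x ∈ E, x ^ p = 1 := by
  have hp : p.Prime := Fact.out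
  have : Nontrivial Q := by
    by_contra hnt
    rw [not_nontrivial_iff_subsingleton] at hnt
    have : Nat.card H = 1 := Nat.card_unique
    rw [hH] at this
    exact hp.one_lt.ne' this
  have := hQ.center_nontrivial
  have hpc : p ∣ Nat.card (center Q) := by
    obtain ⟨k, hk⟩ := (IsPGroup.iff_card).mp (hQ.to_subgroup (center Q))
    rcases Nat.eq_zero_or_pos k with hk0 | hk0
    · rw [hk0, pow_zero] at hk
      have := Finite.one_lt_card (α := ↥(center Q))
      omega
    · rw [hk]; exact dvd_pow_self p hk0.ne'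
  obtain ⟨z, hz⟩ := exists_prime_orderOf_dvd_card' (G := ↥(center Q)) p hpc
  set Z : Subgroup Q := zpowers (z : Q) with hZ
  have hZcard : Nat.card Z = p := by rw [hZ, Nat.card_zpowers, Subgroup.orderOf_coe, hz]
  have hZle : Z ≤ center Q := by rw [hZ, zpowers_le]; exact z.2
  have hZn : Z.Normal := by
    refine ⟨fun a ha g => ?_⟩
    have hc := (Subgroup.mem_center_iff.mp (hZle ha)) g
    rw [hc, mul_inv_cancel_right]
    exact ha
  obtain ⟨L, hL, hLZ⟩ : ∃ L : Subgroup Q, Nat.card L = p ∧ L ≠ Z := by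
    by_cases h : H = Z
    · exact ⟨K, hK, fun h' => hne (h.trans h'.symm)⟩
    · exact ⟨H, hH, h⟩
  have hinf : Z ⊓ L = ⊥ := by
    have hdvd : Nat.card (Z ⊓ L : Subgroup Q) ∣ p := by
      rw [← hZcard]; exact Subgroup.card_dvd_of_le inf_le_left
    rcases (Nat.dvd_prime hp).mp hdvd with h1 | h1
    · exact Subgroup.card_eq_one.mp h1
    · exfalso
      have h2 : Z ⊓ L = Z := Subgroup.eq_of_le_of_card_ge inf_le_left (by rw [h1, hZcard])
      have h3 : Z ≤ L := by rw [← h2]; exact inf_le_right
      have h4 : Z = L := Subgroup.eq_of_le_of_card_ge h3 (by rw [hL, hZcard])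
      exact hLZ h4.symm
  refine ⟨L ⊔ Z, ?_, ?_⟩
  · have h1 : Nat.card Z * Z.relIndex (L ⊔ Z) = Nat.card (L ⊔ Z : Subgroup Q) := by
      have := Subgroup.relIndex_mul_relIndex (⊥ : Subgroup Q) Z (L ⊔ Z) bot_le le_sup_right
      rwa [Subgroup.relIndex_bot_left, Subgroup.relIndex_bot_left] at this
    have h2 : Z.relIndex L = Nat.card L := by
      rw [← Subgroup.inf_relIndex_right, hinf, Subgroup.relIndex_bot_left]
    rw [← h1, Subgroup.relIndex_sup_right, h2, hZcard, hL, sq]
  · intro x hx
    obtain ⟨y, hy, w, hw, rfl⟩ := Subgroup.mem_sup_of_normal_right.mp hx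
    have hcomm : Commute y w := ((Subgroup.mem_center_iff.mp (hZle hw)) y)
    rw [hcomm.mul_pow]
    have hy1 : y ^ p = 1 := by
      have := pow_card_eq_one' (G := ↥L) (x := ⟨y, hy⟩)
      rw [hL] at this
      simpa using congrArg Subtype.val this
    have hw1 : w ^ p = 1 := by
      have := pow_card_eq_one' (G := ↥Z) (x := ⟨w, hw⟩)
      rw [hZcard] at this
      simpa using congrArg Subtype.val this
    rw [hy1, hw1, one_mul]

/-- In a (B)-group containing a subgroup of order `p ^ 2` and exponent `p`, every `p`-element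
has order dividing `p`. -/
theorem pow_eq_one_of_sq {G : Type*} [Group G] [Finite G] (hB : BProp G) {p : ℕ} [Fact p.Prime]
    (E : Subgroup G) (hE : Nat.card E = p ^ 2) (hexp : ∀ x ∈ E, x ^ p = 1)
    {x : G} {k : ℕ} (hx : orderOf x = p ^ k) : x ^ p = 1 := by
  have hp : p.Prime := Fact.out
  by_contra hne
  have hk : 2 ≤ k := by
    by_contra hk
    push Not at hk
    apply hne
    apply orderOf_dvd_iff_pow_eq_one.mp
    rw [hx]
    calc p ^ k ∣ p ^ 1 := pow_dvd_pow p (by omega)
      _ = p := pow_one p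
  set y := x ^ (p ^ (k - 2)) with hy
  have hyo : orderOf y = p ^ 2 := by
    rw [hy, orderOf_pow_of_dvd (pow_ne_zero _ hp.ne_zero)
      (by rw [hx]; exact pow_dvd_pow _ (by omega)), hx]
    have : p ^ k = p ^ 2 * p ^ (k - 2) := by rw [← pow_add]; congr 1; omega
    rw [this, Nat.mul_div_cancel _ (pow_pos hp.pos _)]
  have : IsMulCommutative ↥E := IsPGroup.isMulCommutative_of_card_eq_prime_sq hE
  obtain ⟨g, hg⟩ := hB (zpowers y) E inferInstance inferInstance
    (by rw [Nat.card_zpowers, hyo, hE])
  rw [MonoidHom.map_zpowers] at hg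
  have hmem : (MulAut.conj g).toMonoidHom y ∈ E := hg ▸ mem_zpowers _
  have h1 := hexp _ hmem
  have h2 : y ^ p = 1 := by
    have h3 : (MulAut.conj g).toMonoidHom (y ^ p) = 1 := by rw [map_pow]; exact h1
    have h4 : (MulAut.conj g) (y ^ p) = (MulAut.conj g) 1 := by rw [map_one]; exact h3
    exact (MulAut.conj g).injective h4
  have h5 : p ^ 2 ∣ p := by rw [← hyo]; exact orderOf_dvd_of_pow_eq_one h2
  have h6 := Nat.le_of_dvd hp.pos h5
  have h7 : p < p ^ 2 := by
    calc p = p ^ 1 := (pow_one p).symm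
      _ < p ^ 2 := Nat.pow_lt_pow_right hp.one_lt (by norm_num)
  omega

/-- In a (B)-group, for an odd prime `p` dividing the order of a normal subgroup `M`, a Sylow
`p`-subgroup is cyclic or contained in `M`. -/
theorem sylow_cyclic_or_le {G : Type*} [Group G] [Finite G] (hB : BProp G) (M : Subgroup G)
    [M.Normal] {p : ℕ} [Fact p.Prime] (hp2 : p ≠ 2) (hpM : p ∣ Nat.card M) (P : Sylow p G) :
    IsCyclic P ∨ (P : Subgroup G) ≤ M := by
  have hp : p.Prime := Fact.out
  by_cases hcyc : IsCyclic P
  · exact Or.inl hcyc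
  right
  have hcard := P.card_eq_multiplicity
  obtain ⟨m, hm⟩ : ∃ m, m = (Nat.card G).factorization p := ⟨_, rfl⟩
  rw [← hm] at hcard
  have hm2 : 2 ≤ m := by
    by_contra h
    push Not at h
    apply hcyc
    interval_cases m
    · rw [pow_zero] at hcard
      have : Subsingleton ↥P := (Nat.card_eq_one_iff_unique.mp hcard).1
      exact isCyclic_of_subsingleton
    · rw [pow_one] at hcard
      exact isCyclic_of_prime_card hcard
  have hnu : ¬ ∀ H K : Subgroup P, Nat.card H = p ^ 1 → Nat.card K = p ^ 1 → H = K := by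
    intro hu
    exact hcyc (Cfsg.Agent.S3977.result p m 1 hp hcard le_rfl (by omega) (Or.inl hp2) hu)
  push Not at hnu
  obtain ⟨H, K, hH, hK, hne⟩ := hnu
  rw [pow_one] at hH hK
  obtain ⟨E, hE, hexp⟩ := exists_sq_of_two P.isPGroup' H K hH hK hne
  let E' : Subgroup G := E.map (P : Subgroup G).subtype
  have hE' : Nat.card E' = p ^ 2 := by
    rw [Subgroup.card_map_of_injective (Subgroup.subtype_injective _), hE]
  have hexp' : ∀ x ∈ E', x ^ p = 1 := by
    rintro _ ⟨x, hx, rfl⟩
    have := hexp x hx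
    simpa using congrArg Subtype.val this
  intro x hxP
  by_cases hx1 : x = 1
  · rw [hx1]; exact M.one_mem
  obtain ⟨k, hk⟩ := (IsPGroup.iff_orderOf.mp P.isPGroup') ⟨x, hxP⟩
  have hk' : orderOf x = p ^ k := by rw [← hk, Subgroup.orderOf_mk]
  have hxp : x ^ p = 1 := pow_eq_one_of_sq hB E' hE' hexp' hk'
  exact mem_of_orderOf_eq hB M hpM (orderOf_eq_prime hxp hx1)

/-- The `p`-part of the order of a normal subgroup `M` is attained by `P ⊓ M`. -/
theorem factorization_inf_normal {G : Type*} [Group G] [Finite G] {p : ℕ} [Fact p.Prime]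
    (P : Sylow p G) (M : Subgroup G) [M.Normal] :
    (Nat.card M).factorization p ≤
      (Nat.card ((P : Subgroup G) ⊓ M : Subgroup G)).factorization p := by
  have h1 : Nat.card M * M.relIndex ((P : Subgroup G) ⊔ M) =
      Nat.card ((P : Subgroup G) ⊔ M : Subgroup G) := by
    have := Subgroup.relIndex_mul_relIndex (⊥ : Subgroup G) M ((P : Subgroup G) ⊔ M) bot_le
      le_sup_right
    rwa [Subgroup.relIndex_bot_left, Subgroup.relIndex_bot_left] at this
  have h2 : Nat.card (M ⊓ (P : Subgroup G) : Subgroup G) * M.relIndex (P : Subgroup G) =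
      Nat.card (P : Subgroup G) := by
    have := Subgroup.relIndex_mul_relIndex (⊥ : Subgroup G) (M ⊓ (P : Subgroup G))
      (P : Subgroup G) bot_le inf_le_right
    rwa [Subgroup.relIndex_bot_left, Subgroup.relIndex_bot_left,
      Subgroup.inf_relIndex_right] at this
  have h3 : M.relIndex ((P : Subgroup G) ⊔ M) = M.relIndex (P : Subgroup G) :=
    Subgroup.relIndex_sup_right (P : Subgroup G) M
  have h4 : Nat.card ((P : Subgroup G) ⊔ M : Subgroup G) *
      Nat.card (M ⊓ (P : Subgroup G) : Subgroup G) = Nat.card M * Nat.card (P : Subgroup G) := by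
    rw [← h1, ← h2, h3]; ring
  have hpos : ∀ K : Subgroup G, Nat.card K ≠ 0 := fun K => Nat.card_pos.ne'
  have h5 := congrArg (fun n => n.factorization p) h4
  simp only [Nat.factorization_mul (hpos _) (hpos _), Finsupp.add_apply] at h5
  have h6 : (Nat.card ((P : Subgroup G) ⊔ M : Subgroup G)).factorization p ≤
      (Nat.card G).factorization p :=
    (Nat.factorization_le_iff_dvd (hpos _) Nat.card_pos.ne').mpr
      (Subgroup.card_subgroup_dvd_card _) p
  have h7 : (Nat.card (P : Subgroup G)).factorization p = (Nat.card G).factorization p := by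
    rw [P.card_eq_multiplicity, Nat.factorization_pow]
    simp [Nat.Prime.factorization_self (Fact.out : p.Prime)]
  rw [inf_comm]
  omega

/-- In a finite cyclic `p`-group, a subgroup not containing `a` lies in `⟨a⟩`. -/
theorem le_zpowers_of_cyclic {G : Type*} [Group G] {p : ℕ} [Fact p.Prime] (P : Subgroup G)
    [Finite P] (hP : IsPGroup p P) (hc : IsCyclic P) (U : Subgroup G) (hU : U ≤ P) {a : G}
    (ha : a ∈ P) (haU : a ∉ U) : U ≤ zpowers a := by
  classical
  have hp : p.Prime := Fact.out
  haveI : Fintype ↥P := Fintype.ofFinite _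
  have : Finite ↥U := Finite.of_injective (fun x : U => (⟨x, hU x.2⟩ : P))
    (fun x y h => Subtype.ext (by simpa using congrArg Subtype.val h))
  set u := Nat.card U with hu
  have hupos : 0 < u := Nat.card_pos
  -- Step A
  have hA : ∀ x ∈ P, x ^ u = 1 → x ∈ U := by
    intro x hx hxu
    let T : Finset ↥P := Finset.univ.filter (fun y => y ^ u = 1)
    let Uf : Finset ↥P := Finset.univ.filter (fun y => (y : G) ∈ U)
    have hTle : T.card ≤ u := IsCyclic.card_pow_eq_one_le hupos
    have hUfT : Uf ⊆ T := by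
      intro y hy
      simp only [Uf, Finset.mem_filter, Finset.mem_univ, true_and] at hy
      simp only [T, Finset.mem_filter, Finset.mem_univ, true_and]
      have h1 : ((⟨(y : G), hy⟩ : ↥U) ^ u) = 1 := by rw [hu]; exact pow_card_eq_one'
      have h2 : (y : G) ^ u = 1 := by
        have := congrArg Subtype.val h1
        rwa [Subgroup.coe_pow, Subgroup.coe_one] at this
      apply Subtype.ext
      rw [Subgroup.coe_pow, Subgroup.coe_one]; exact h2
    have hUfcard : Uf.card = u := by
      rw [hu]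
      have e : ↥U ≃ {y : ↥P // (y : G) ∈ U} :=
        { toFun := fun x => ⟨⟨x, hU x.2⟩, x.2⟩
          invFun := fun y => ⟨y.1, y.2⟩
          left_inv := fun x => rfl
          right_inv := fun y => rfl }
      rw [Nat.card_congr e, Nat.card_eq_fintype_card, Fintype.card_subtype]
    have hEq : Uf = T := Finset.eq_of_subset_of_card_le hUfT (by rw [hUfcard]; exact hTle)
    have hxT : (⟨x, hx⟩ : ↥P) ∈ T := by
      simp only [T, Finset.mem_filter, Finset.mem_univ, true_and]
      apply Subtype.ext
      simpa using hxu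
    rw [← hEq] at hxT
    simpa [Uf] using hxT
  -- Step B
  obtain ⟨c, hc'⟩ := (IsPGroup.iff_card).mp (hP.to_le hU)
  obtain ⟨w, hw⟩ := (IsPGroup.iff_orderOf.mp hP) ⟨a, ha⟩
  have hw' : orderOf a = p ^ w := by rw [← hw, Subgroup.orderOf_mk]
  have hau : a ^ u ≠ 1 := fun h => haU (hA a ha h)
  have hcw : c < w := by
    by_contra hcw
    push Not at hcw
    apply hau
    apply orderOf_dvd_iff_pow_eq_one.mp
    rw [hw', hu, hc']
    exact pow_dvd_pow p hcw
  set b := a ^ (p ^ (w - c)) with hb
  have hbo : orderOf b = u := by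
    rw [hb, orderOf_pow_of_dvd (pow_ne_zero _ hp.ne_zero)
      (by rw [hw']; exact pow_dvd_pow _ (by omega)), hw', hu, hc']
    have : p ^ w = p ^ c * p ^ (w - c) := by rw [← pow_add]; congr 1; omega
    rw [this, Nat.mul_div_cancel _ (pow_pos hp.pos _)]
  have hbP : b ∈ P := P.pow_mem ha _
  have hle : zpowers b ≤ U := by
    intro y hy
    obtain ⟨i, rfl⟩ := Subgroup.mem_zpowers_iff.mp hy
    apply hA _ (P.zpow_mem hbP i)
    rw [← zpow_natCast, ← zpow_mul, mul_comm, zpow_mul, zpow_natCast, ← hbo, pow_orderOf_eq_one,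
      one_zpow]
  have heq : zpowers b = U := Subgroup.eq_of_le_of_card_ge hle (by rw [Nat.card_zpowers, hbo])
  rw [← heq, zpowers_le]
  exact Subgroup.pow_mem _ (mem_zpowers a) _

end Cfsg.Agent.H63.BQ
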