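import Mathlib
import Cfsg.Agent.H74.BTDefs

set_option autoImplicit false

/-!
# S0997 (helper74's team project), piece B2MOMFIN (helper63)

The final, purely numerical argument of case B2: from the moments of `T` and `S` over the
`p`-regular elements, `|G| = 2 p e (e + 1)`.
-/

namespace Cfsg.Agent.H63.BT

open Cfsg Cfsg.Agent.H74.BT

universe u

theorem regSum_eq_ofReal {G : Type u} [Group G] [Fintype G] (p : ℕ) (F : G → ℂ) (f : G → ℝ)
    (h : ∀ g, (if p ∣ orderOf g then 0 else F g) = (f g : ℂ)) :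
    regSum p F = ((∑ g, f g : ℝ) : ℂ) := by
  unfold regSum
  rw [finsum_eq_sum_of_fintype, Complex.ofReal_sum]
  exact Finset.sum_congr rfl (fun g _ => h g)

theorem int_mul_succ_nonneg (n : ℤ) : 0 ≤ n * (n + 1) := by
  rcases le_or_gt 0 n with h | h
  · nlinarith
  · nlinarith

/-- **S0997-B2MOMFIN.** -/
theorem b2MomFin : StB2MomFin.{u} := by
  intro G _ _ p e hpe he T S hT1 hS1 hreg h1 h2 h3 h4 h5 h6
  classical
  have : Fintype G := Fintype.ofFinite G
  choose! t ht1 ht2 s hs1 hs2 hs3 using hreg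
  obtain ⟨t', ht'⟩ : ∃ t' : G → ℤ, t' = fun g => if p ∣ orderOf g then 0 else t g := ⟨_, rfl⟩
  obtain ⟨σ, hσ⟩ : ∃ σ : G → ℝ, σ = fun g => if p ∣ orderOf g then 0 else s g := ⟨_, rfl⟩
  have he0 : (0 : ℝ) < e := by exact_mod_cast (by omega : 0 < e)
  have hp1 : ¬ p ∣ orderOf (1 : G) := by
    rw [orderOf_one]
    intro h
    have := Nat.le_of_dvd one_pos h
    omega
  have hpR : (p : ℝ) = 2 * e + 1 := by exact_mod_cast hpe.symm
  have hp0 : (p : ℝ) ≠ 0 := by rw [hpR]; positivity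
  -- pointwise facts
  have hF1 : ∀ g, σ g ≤ (t' g : ℝ) ^ 2 + e * (t' g : ℝ) + e ∧
      σ g ≤ (t' g : ℝ) ^ 2 - e * (t' g : ℝ) + e := by
    intro g
    by_cases hg : p ∣ orderOf g
    · simp only [ht', hσ, if_pos hg]
      refine ⟨by simp, by simp⟩
    · simp only [ht', hσ, if_neg hg]
      exact ⟨hs2 g hg, hs3 g hg⟩
  have hF2 : ∀ g, g ≠ 1 → t' g ≤ e := by
    intro g hg1
    by_cases hg : p ∣ orderOf g
    · simp only [ht', if_pos hg]
      exact_mod_cast Nat.zero_le e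
    · simp only [ht', if_neg hg]
      exact ht2 g hg hg1
  have hF3 : t' 1 = e + 1 := by
    simp only [ht', if_neg hp1]
    have := ht1 1 hp1
    rw [hT1] at this
    exact_mod_cast this.symm
  have hF4 : σ 1 = p := by
    simp only [hσ, if_neg hp1]
    have := hs1 1 hp1
    rw [hS1] at this
    exact_mod_cast this.symm
  -- the regular sums as real sums
  have hpow : ∀ k : ℕ, k ≠ 0 →
      regSum p (fun g => T g ^ k) = ((∑ g, (t' g : ℝ) ^ k : ℝ) : ℂ) := by
    intro k hk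
    apply regSum_eq_ofReal
    intro g
    by_cases hg : p ∣ orderOf g
    · simp [ht', hg, hk]
    · simp [ht', hg, ht1 g hg]
  have hT : regSum p (fun g => T g) = ((∑ g, (t' g : ℝ) : ℝ) : ℂ) := by
    apply regSum_eq_ofReal
    intro g
    by_cases hg : p ∣ orderOf g
    · simp [ht', hg]
    · simp [ht', hg, ht1 g hg]
  have hST : regSum p (fun g => S g * T g) = ((∑ g, σ g * (t' g : ℝ) : ℝ) : ℂ) := by
    apply regSum_eq_ofReal
    intro g
    by_cases hg : p ∣ orderOf g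
    · simp [ht', hσ, hg]
    · simp [ht', hσ, hg, ht1 g hg, hs1 g hg]
  have hST2 : regSum p (fun g => S g * T g ^ 2) = ((∑ g, σ g * (t' g : ℝ) ^ 2 : ℝ) : ℂ) := by
    apply regSum_eq_ofReal
    intro g
    by_cases hg : p ∣ orderOf g
    · simp [ht', hσ, hg]
    · simp [ht', hσ, hg, ht1 g hg, hs1 g hg]
  have e1 : (p : ℝ) * ∑ g, (t' g : ℝ) = -(Nat.card G : ℝ) := by
    rw [hT] at h1; exact_mod_cast h1
  have e2 : (p : ℝ) * ∑ g, (t' g : ℝ) ^ 2 = (Nat.card G : ℝ) * e := by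
    rw [hpow 2 (by norm_num)] at h2; exact_mod_cast h2
  have e3 : 2 * (p : ℝ) * ∑ g, (t' g : ℝ) ^ 3 = (Nat.card G : ℝ) * e := by
    rw [hpow 3 (by norm_num)] at h3; exact_mod_cast h3
  have e4 : 2 * (p : ℝ) * ∑ g, (t' g : ℝ) ^ 4 = (Nat.card G : ℝ) * ((e : ℝ) ^ 2 + 5 * e + 2) := by
    rw [hpow 4 (by norm_num)] at h4; exact_mod_cast h4
  have e5 : ∑ g, σ g * (t' g : ℝ) = 0 := by
    rw [hST] at h5; exact_mod_cast h5
  have e6 : ∑ g, σ g * (t' g : ℝ) ^ 2 = (Nat.card G : ℝ) := by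
    rw [hST2] at h6; exact_mod_cast h6
  -- step (A)
  have hA : ∑ g, (t' g : ℝ) * ((t' g : ℝ) + 1) *
      ((t' g : ℝ) ^ 2 - e * (t' g : ℝ) + e - σ g) = 0 := by
    have hexp : ∑ g, (t' g : ℝ) * ((t' g : ℝ) + 1) *
          ((t' g : ℝ) ^ 2 - e * (t' g : ℝ) + e - σ g)
        = ∑ g, (t' g : ℝ) ^ 4 + (1 - (e : ℝ)) * ∑ g, (t' g : ℝ) ^ 3 + e * ∑ g, (t' g : ℝ)
          - ∑ g, σ g * (t' g : ℝ) ^ 2 - ∑ g, σ g * (t' g : ℝ) := by
      rw [Finset.mul_sum, Finset.mul_sum, ← Finset.sum_add_distrib, ← Finset.sum_add_distrib,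
        ← Finset.sum_sub_distrib, ← Finset.sum_sub_distrib]
      exact Finset.sum_congr rfl (fun g _ => by ring)
    rw [hexp]
    have h2p : (2 * (p : ℝ)) ≠ 0 := mul_ne_zero two_ne_zero hp0
    apply mul_left_cancel₀ h2p
    rw [mul_zero]
    linear_combination e4 + (1 - (e : ℝ)) * e3 + 2 * (e : ℝ) * e1 - 2 * (p : ℝ) * e6
      - 2 * (p : ℝ) * e5 - 2 * (Nat.card G : ℝ) * hpR
  have hAterm : ∀ g, (t' g : ℝ) * ((t' g : ℝ) + 1) *
      ((t' g : ℝ) ^ 2 - e * (t' g : ℝ) + e - σ g) = 0 := by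
    have hnn : ∀ g ∈ Finset.univ, 0 ≤ (t' g : ℝ) * ((t' g : ℝ) + 1) *
        ((t' g : ℝ) ^ 2 - e * (t' g : ℝ) + e - σ g) := by
      intro g _
      have h1 : (0 : ℝ) ≤ (t' g : ℝ) * ((t' g : ℝ) + 1) := by
        exact_mod_cast int_mul_succ_nonneg (t' g)
      have h2 := (hF1 g).2
      exact mul_nonneg h1 (by linarith)
    intro g
    exact (Finset.sum_eq_zero_iff_of_nonneg hnn).mp hA g (Finset.mem_univ g)
  have hcase : ∀ g, t' g = 0 ∨ t' g = -1 ∨
      (1 ≤ t' g ∧ σ g = (t' g : ℝ) ^ 2 - e * (t' g : ℝ) + e) := by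
    intro g
    rcases mul_eq_zero.mp (hAterm g) with h | h
    · rcases mul_eq_zero.mp h with h | h
      · left; exact_mod_cast h
      · right; left
        have : (t' g : ℝ) = -1 := by linarith
        exact_mod_cast this
    · have hσ' : σ g = (t' g : ℝ) ^ 2 - e * (t' g : ℝ) + e := by linarith
      have h1 := (hF1 g).1
      have h0 : (0 : ℝ) ≤ (t' g : ℝ) := by
        have : 0 ≤ 2 * (e : ℝ) * (t' g : ℝ) := by linarith
        by_contra hneg
        push Not at hneg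
        nlinarith
      have h0' : 0 ≤ t' g := by exact_mod_cast h0
      rcases eq_or_lt_of_le h0' with h00 | h00
      · left; exact h00.symm
      · right; right; exact ⟨by omega, hσ'⟩
  -- step (B)
  have hB : ∑ g, (t' g : ℝ) * ((t' g : ℝ) + 1) * (σ g - 2 * (t' g : ℝ) + 1) = 0 := by
    have hexp : ∑ g, (t' g : ℝ) * ((t' g : ℝ) + 1) * (σ g - 2 * (t' g : ℝ) + 1)
        = ∑ g, σ g * (t' g : ℝ) ^ 2 + ∑ g, σ g * (t' g : ℝ) - 2 * ∑ g, (t' g : ℝ) ^ 3
          - ∑ g, (t' g : ℝ) ^ 2 + ∑ g, (t' g : ℝ) := by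
      rw [Finset.mul_sum, ← Finset.sum_add_distrib, ← Finset.sum_sub_distrib,
        ← Finset.sum_sub_distrib, ← Finset.sum_add_distrib]
      exact Finset.sum_congr rfl (fun g _ => by ring)
    rw [hexp]
    apply mul_left_cancel₀ hp0
    rw [mul_zero]
    linear_combination (p : ℝ) * e6 + (p : ℝ) * e5 - e3 - e2 + e1 + (Nat.card G : ℝ) * hpR
  have hBterm : ∀ g, (t' g : ℝ) * ((t' g : ℝ) + 1) * (σ g - 2 * (t' g : ℝ) + 1) = 0 := by
    have hnp : ∀ g ∈ Finset.univ,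
        (t' g : ℝ) * ((t' g : ℝ) + 1) * (σ g - 2 * (t' g : ℝ) + 1) ≤ 0 := by
      intro g _
      by_cases hg1 : g = 1
      · rw [hg1, hF3, hF4]
        have hz : (p : ℝ) - 2 * (((e : ℤ) + 1 : ℤ) : ℝ) + 1 = 0 := by
          rw [hpR]; push_cast; ring
        rw [hz, mul_zero]
      · rcases hcase g with h | h | ⟨h, hσg⟩
        · rw [h]; norm_num
        · rw [h]; norm_num
        · have hle := hF2 g hg1
          have h1r : (1 : ℝ) ≤ (t' g : ℝ) := by exact_mod_cast h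
          have hler : (t' g : ℝ) ≤ e := by exact_mod_cast hle
          rw [hσg]
          have e1' : (t' g : ℝ) ^ 2 - e * (t' g : ℝ) + e - 2 * (t' g : ℝ) + 1
              = ((t' g : ℝ) - 1) * ((t' g : ℝ) - e - 1) := by ring
          rw [e1']
          have ha : 0 ≤ (t' g : ℝ) * ((t' g : ℝ) + 1) :=
            mul_nonneg (by linarith) (by linarith)
          have hb : ((t' g : ℝ) - 1) * ((t' g : ℝ) - e - 1) ≤ 0 :=
            mul_nonpos_of_nonneg_of_nonpos (by linarith) (by linarith)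
          exact mul_nonpos_of_nonneg_of_nonpos ha hb
    intro g
    exact (Finset.sum_eq_zero_iff_of_nonpos hnp).mp hB g (Finset.mem_univ g)
  have hsmall : ∀ g, g ≠ 1 → (t' g : ℝ) ^ 3 - (t' g : ℝ) = 0 := by
    intro g hg1
    rcases hcase g with h | h | ⟨h, hσg⟩
    · rw [h]; norm_num
    · rw [h]; norm_num
    · have hle := hF2 g hg1
      have h1r : (1 : ℝ) ≤ (t' g : ℝ) := by exact_mod_cast h
      have hler : (t' g : ℝ) ≤ e := by exact_mod_cast hle
      have hb := hBterm g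
      rw [hσg] at hb
      have e1' : (t' g : ℝ) * ((t' g : ℝ) + 1) *
            ((t' g : ℝ) ^ 2 - e * (t' g : ℝ) + e - 2 * (t' g : ℝ) + 1)
          = (t' g : ℝ) * ((t' g : ℝ) + 1) * ((t' g : ℝ) - e - 1) * ((t' g : ℝ) - 1) := by ring
      rw [e1'] at hb
      rcases mul_eq_zero.mp hb with h' | h'
      · exfalso
        rcases mul_eq_zero.mp h' with h'' | h''
        · rcases mul_eq_zero.mp h'' with h3 | h3
          · linarith
          · linarith
        · linarith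
      · have : (t' g : ℝ) = 1 := by linarith
        rw [this]; norm_num
  -- step (C)
  have hC : ∑ g, ((t' g : ℝ) ^ 3 - (t' g : ℝ)) = ((e : ℝ) + 1) ^ 3 - ((e : ℝ) + 1) := by
    rw [Finset.sum_eq_single (1 : G) (fun g _ hg => hsmall g hg)
      (fun h => absurd (Finset.mem_univ _) h), hF3]
    push_cast; ring
  have hfin : 2 * (p : ℝ) * (((e : ℝ) + 1) ^ 3 - ((e : ℝ) + 1)) = (Nat.card G : ℝ) * (e + 2) := by
    rw [← hC, Finset.sum_sub_distrib]
    linear_combination e3 - 2 * e1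
  have he2 : ((e : ℝ) + 2) ≠ 0 := by positivity
  have hNR : (Nat.card G : ℝ) = 2 * p * e * (e + 1) := by
    apply mul_right_cancel₀ he2
    rw [← hfin]; ring
  exact_mod_cast hNR

example : Cfsg.Agent.H74.BT.StB2MomFin.{u} := b2MomFin

end Cfsg.Agent.H63.BT
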