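import Mathlib
import Cfsg.Agent.H74.BTDefs

set_option autoImplicit false

/-!
# S0997 (helper74's team project), piece B2SING (helper63)

`P` a Sylow `p`-subgroup of order `p` with `C(P) = P`: every `p`-singular element is conjugate
into `P`.
-/

namespace Cfsg.Agent.H63.BT

open Cfsg Cfsg.Agent.H74.BT
open scoped Pointwise

universe u

/-- **S0997-B2SING.** -/
theorem b2Sing : StB2Sing.{u} := by
  intro G _ _ p _ P hPcard hCP g hg
  have hp : p.Prime := Fact.out
  obtain ⟨m, hm⟩ := hg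
  have hgpos : 0 < orderOf g := orderOf_pos g
  have hm0 : m ≠ 0 := by
    rintro rfl
    rw [mul_zero] at hm
    omega
  have hyord : orderOf (g ^ m) = p := by
    rw [orderOf_pow_of_dvd hm0 (Dvd.intro_left p hm.symm), hm]
    exact Nat.mul_div_cancel p (Nat.pos_of_ne_zero hm0)
  have hypg : IsPGroup p (Subgroup.zpowers (g ^ m)) :=
    IsPGroup.of_card (n := 1) (by rw [Nat.card_zpowers, hyord, pow_one])
  obtain ⟨Q, hQ⟩ := hypg.exists_le_sylow
  obtain ⟨h, hh⟩ := MulAction.exists_smul_eq G Q P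
  have hyP : h * g ^ m * h⁻¹ ∈ (P : Subgroup G) := by
    have h1 : g ^ m ∈ (Q : Subgroup G) := hQ (Subgroup.mem_zpowers _)
    have h2 : MulAut.conj h • g ^ m ∈ MulAut.conj h • (Q : Subgroup G) :=
      Subgroup.smul_mem_pointwise_smul _ _ _ h1
    have h3 : ((h • Q : Sylow p G) : Subgroup G) = MulAut.conj h • (Q : Subgroup G) := by
      rw [Sylow.smul_def, Sylow.pointwise_smul_def]
    rw [← h3, hh] at h2
    simpa [MulAut.smul_def] using h2
  have hord : orderOf (h * g ^ m * h⁻¹) = p := by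
    have := MulEquiv.orderOf_eq (MulAut.conj h) (g ^ m)
    rw [MulAut.conj_apply] at this
    rw [this, hyord]
  have hgen : Subgroup.zpowers (h * g ^ m * h⁻¹) = (P : Subgroup G) := by
    apply Subgroup.eq_of_le_of_card_ge ((Subgroup.zpowers_le).mpr hyP)
    rw [hPcard, Nat.card_zpowers, hord]
  refine ⟨h, ?_⟩
  rw [← hCP, Subgroup.mem_centralizer_iff]
  intro x hx
  rw [SetLike.mem_coe, ← hgen] at hx
  obtain ⟨k, rfl⟩ := Subgroup.mem_zpowers_iff.mp hx
  have hc : Commute (h * g ^ m * h⁻¹) (h * g * h⁻¹) := by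
    have e : h * g ^ m * h⁻¹ = (h * g * h⁻¹) ^ m := by rw [conj_pow]
    rw [e]
    exact (Commute.refl _).pow_left m
  exact (hc.zpow_left k).eq

example : Cfsg.Agent.H74.BT.StB2Sing.{u} := b2Sing

end Cfsg.Agent.H63.BT
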