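import Mathlib
import Cfsg.Agent.H37.Transfer

/-!
# helper63: transfer of a central involution of a Sylow 2-subgroup

`transfer_central_involution`: if `c` is an involution in the centre of a Sylow 2-subgroup `X`
and `lam : X →* A` takes the same value `a` (`a * a = 1`) on all `N_G(X)`-conjugates of `c`, then
the transfer of `lam` maps `c` to `a`.
-/

set_option autoImplicit false

namespace Cfsg.Agent.H63.CentralTransfer

/-- A product of an invariant function with values of square one over a set acted on by a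
2-group is trivial if the function is trivial at the fixed points. -/
theorem prod_eq_one_of_two_group_invariant {P α A : Type*} [Group P] [MulAction P α] [Fintype α]
    [CommGroup A] (hP : IsPGroup 2 P) (g : α → A) (hinv : ∀ (x : P) (q : α), g (x • q) = g q)
    (hsq : ∀ q, g q * g q = 1) (hfix : ∀ q ∈ MulAction.fixedPoints P α, g q = 1) :
    ∏ q, g q = 1 := by
  classical
  have : Fact (Nat.Prime 2) := ⟨Nat.prime_two⟩
  have hcomp := Finset.prod_comp (s := (Finset.univ : Finset α)) (fun v : A => v) g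
  rw [hcomp]
  apply Finset.prod_eq_one
  intro v hv
  by_cases hv1 : v = 1
  · rw [hv1, one_pow]
  · let S : SubMulAction P α :=
      { carrier := {q | g q = v}
        smul_mem' := fun x q hq => by
          show g (x • q) = v
          rw [hinv x q]; exact hq }
    have hcard := hP.card_modEq_card_fixedPoints S
    have hempty : IsEmpty (MulAction.fixedPoints P S) := by
      constructor
      rintro ⟨⟨q, hq⟩, hfx⟩
      have hq' : q ∈ MulAction.fixedPoints P α := by
        intro x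
        have := hfx x
        exact congrArg Subtype.val this
      exact hv1 ((show g q = v from hq).symm.trans (hfix q hq'))
    have h0 : Nat.card (MulAction.fixedPoints P S) = 0 := Nat.card_of_isEmpty
    rw [h0] at hcard
    have hfib : (Finset.univ.filter (fun a => g a = v)).card = Nat.card S := by
      rw [Nat.card_eq_fintype_card, ← Fintype.card_subtype]
      rfl
    obtain ⟨k, hk⟩ : 2 ∣ (Finset.univ.filter (fun a => g a = v)).card := by
      rw [hfib]; exact (Nat.modEq_zero_iff_dvd.mp hcard)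
    rw [hk, pow_mul, pow_two]
    obtain ⟨q, _, rfl⟩ := Finset.mem_image.mp hv
    rw [hsq q, one_pow]

theorem transfer_central_involution {G : Type*} [Group G] [Finite G] (X : Sylow 2 G)
    {A : Type*} [CommGroup A] (lam : ↥(X : Subgroup G) →* A) (c : G)
    (hcX : c ∈ (X : Subgroup G)) (hc2 : c * c = 1)
    (hcc : ∀ x ∈ (X : Subgroup G), x * c = c * x) (a : A) (ha : a * a = 1)
    (hN : ∀ k : G, (∀ x ∈ (X : Subgroup G), k⁻¹ * x * k ∈ (X : Subgroup G)) →
      ∀ h : k⁻¹ * c * k ∈ (X : Subgroup G), lam ⟨k⁻¹ * c * k, h⟩ = a) :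
    MonoidHom.transfer lam c = a := by
  classical
  have : Fact (Nat.Prime 2) := ⟨Nat.prime_two⟩
  let _ := (X : Subgroup G).fintypeQuotientOfFiniteIndex
  obtain ⟨T₀⟩ : Nonempty (X : Subgroup G).LeftTransversal := inferInstance
  obtain ⟨ψ, hψ⟩ : ∃ ψ : G → A, (∀ x (h : x ∈ (X : Subgroup G)), lam ⟨x, h⟩ = ψ x) ∧
      ∀ x, x ∉ (X : Subgroup G) → ψ x = 1 :=
    ⟨fun x => if h : x ∈ (X : Subgroup G) then lam ⟨x, h⟩ else 1,
      fun x h => by simp [h], fun x h => by simp [h]⟩
  have key := Cfsg.Agent.H37.transfer_involution lam c hc2 T₀ ψ hψ.1 hψ.2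
  rw [key]
  obtain ⟨r, hr⟩ : ∃ r : G ⧸ (X : Subgroup G) → G,
      r = fun q => (T₀.2.leftQuotientEquiv q : G) := ⟨_, rfl⟩
  have hrq : ∀ q, (QuotientGroup.mk (r q) : G ⧸ (X : Subgroup G)) = q := fun q => by
    rw [hr]; exact T₀.2.quotientGroupMk_leftQuotientEquiv q
  have hψconj : ∀ (t y : G), y ∈ (X : Subgroup G) → ψ (y⁻¹ * t * y) = ψ t := by
    intro t y hy
    by_cases ht : t ∈ (X : Subgroup G)
    · have ht' : y⁻¹ * t * y ∈ (X : Subgroup G) := mul_mem (mul_mem (inv_mem hy) ht) hy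
      rw [← hψ.1 _ ht, ← hψ.1 _ ht']
      have : (⟨y⁻¹ * t * y, ht'⟩ : ↥(X : Subgroup G)) = (⟨y, hy⟩)⁻¹ * ⟨t, ht⟩ * ⟨y, hy⟩ := rfl
      rw [this, map_mul, map_mul, map_inv]
      simp [mul_comm]
    · have ht' : y⁻¹ * t * y ∉ (X : Subgroup G) := by
        intro h; apply ht
        have := mul_mem (mul_mem hy h) (inv_mem hy)
        simpa [mul_assoc] using this
      rw [hψ.2 _ ht, hψ.2 _ ht']
  obtain ⟨h, hh⟩ : ∃ h : G ⧸ (X : Subgroup G) → A, h = fun q => ψ ((r q)⁻¹ * c * r q) :=
    ⟨_, rfl⟩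
  have hrep : ∀ g : G, h (QuotientGroup.mk g) = ψ (g⁻¹ * c * g) := by
    intro g
    have hy : (r (QuotientGroup.mk g))⁻¹ * g ∈ (X : Subgroup G) := QuotientGroup.eq.mp (hrq _)
    rw [hh]
    show ψ ((r (QuotientGroup.mk g))⁻¹ * c * r (QuotientGroup.mk g)) = _
    rw [← hψconj _ _ hy]
    congr 1
    group
  have hinv : ∀ (x : ↥(X : Subgroup G)) (q : G ⧸ (X : Subgroup G)), h (x • q) = h q := by
    intro x q
    obtain ⟨g, rfl⟩ := QuotientGroup.mk_surjective q
    rw [show x • (QuotientGroup.mk g : G ⧸ (X : Subgroup G)) = QuotientGroup.mk ((x : G) * g)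
      from rfl, hrep, hrep]
    congr 1
    have h1 := hcc x x.2
    calc ((x : G) * g)⁻¹ * c * ((x : G) * g) = g⁻¹ * ((x : G)⁻¹ * (c * x)) * g := by group
      _ = g⁻¹ * ((x : G)⁻¹ * (x * c)) * g := by rw [h1]
      _ = g⁻¹ * c * g := by group
  have hsq : ∀ q, h q * h q = 1 := by
    intro q
    rw [hh]
    show ψ _ * ψ _ = 1
    by_cases ht : (r q)⁻¹ * c * r q ∈ (X : Subgroup G)
    · rw [← hψ.1 _ ht, ← map_mul]
      have : (⟨_, ht⟩ : ↥(X : Subgroup G)) * ⟨_, ht⟩ = 1 := by
        apply Subtype.ext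
        show (r q)⁻¹ * c * r q * ((r q)⁻¹ * c * r q) = 1
        calc (r q)⁻¹ * c * r q * ((r q)⁻¹ * c * r q) = (r q)⁻¹ * (c * c) * r q := by group
          _ = 1 := by rw [hc2]; group
      rw [this, map_one]
    · rw [hψ.2 _ ht, one_mul]
  have hfix : ∀ q ∈ MulAction.fixedPoints ↥(X : Subgroup G) (G ⧸ (X : Subgroup G)), h q = a := by
    intro q hq
    obtain ⟨g, rfl⟩ := QuotientGroup.mk_surjective q
    rw [hrep]
    have hnorm : ∀ x ∈ (X : Subgroup G), g⁻¹ * x * g ∈ (X : Subgroup G) := by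
      intro x hx
      have h1 : (QuotientGroup.mk (x * g) : G ⧸ (X : Subgroup G)) = QuotientGroup.mk g :=
        hq ⟨x, hx⟩
      have h2 := QuotientGroup.eq.mp h1
      have h3 := inv_mem h2
      simpa [mul_assoc] using h3
    have hmem := hnorm c hcX
    rw [← hψ.1 _ hmem]
    exact hN g hnorm hmem
  have hprod : ∏ q, h q = a := by
    have h1 : ∏ q, h q = ∏ q, (a * (a⁻¹ * h q)) := by simp
    rw [h1, Finset.prod_mul_distrib,
      prod_eq_one_of_two_group_invariant X.2 (fun q => a⁻¹ * h q) ?_ ?_ ?_, mul_one,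
      Finset.prod_const, Finset.card_univ]
    · have hodd : Odd (Fintype.card (G ⧸ (X : Subgroup G))) := by
        rw [← Nat.card_eq_fintype_card, ← Subgroup.index_eq_card]
        exact Nat.odd_iff.mpr (Nat.two_dvd_ne_zero.mp X.not_dvd_index)
      obtain ⟨m, hm⟩ := hodd
      rw [hm, pow_succ, pow_mul, pow_two, ha, one_pow, one_mul]
    · intro x q
      show a⁻¹ * h (x • q) = a⁻¹ * h q
      rw [hinv x q]
    · intro q
      have : a⁻¹ * h q * (a⁻¹ * h q) = (a * a)⁻¹ * (h q * h q) := by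
        rw [mul_inv]; simp [mul_comm, mul_left_comm, mul_assoc]
      rw [this, ha, hsq]; simp
    · intro q hq
      show a⁻¹ * h q = 1
      rw [hfix q hq]; simp
  rw [hh] at hprod
  rw [hr] at hprod
  exact hprod

end Cfsg.Agent.H63.CentralTransfer
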