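import Cfsg.Agent.H63.Derange

set_option autoImplicit false

namespace Cfsg.Agent.H63

open MulAction

variable {G Ω : Type*} [Group G] [MulAction G Ω]

theorem orbit_ncard_eq_relIndex (S : Subgroup G) (ω : Ω) :
    (orbit S ω).ncard = (stabilizer G ω).relIndex S := by
  have key : (stabilizer G ω).subgroupOf S = stabilizer S ω := by ext; rfl
  rw [Subgroup.relIndex, key, index_stabilizer]

theorem relIndex_stabilizer_eq_index [Finite Ω] [IsPretransitive G Ω] (D : Subgroup G)
    [IsPretransitive D Ω] (α : Ω) :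
    D.relIndex (stabilizer G α) = D.index := by
  have hn : 0 < Nat.card Ω := by
    have : Nonempty Ω := ⟨α⟩
    exact Nat.card_pos
  have h1 := Subgroup.relIndex_mul_index (inf_le_right : D ⊓ stabilizer G α ≤ stabilizer G α)
  have h2 := Subgroup.relIndex_mul_index (inf_le_left : D ⊓ stabilizer G α ≤ D)
  rw [Subgroup.inf_relIndex_right, index_stabilizer_of_transitive] at h1
  rw [Subgroup.inf_relIndex_left, ← orbit_ncard_eq_relIndex, orbit_eq_univ, Set.ncard_univ] at h2
  have : D.relIndex (stabilizer G α) * Nat.card Ω = D.index * Nat.card Ω := by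
    rw [h1, ← h2, mul_comm]
  exact Nat.eq_of_mul_eq_mul_right hn this

theorem two_le_card_fixedBy_of_ne [Finite Ω] (g : G) {α β : Ω} (hαβ : β ≠ α) (hα : g • α = α) (hβ : g • β = β) :
    Nat.card (fixedBy Ω g) ≠ 1 := by
  intro h
  have := (Nat.card_eq_one_iff_unique.mp h).1
  have h2 := this.elim (⟨α, hα⟩ : fixedBy Ω g) ⟨β, hβ⟩
  exact hαβ (congrArg Subtype.val h2).symm

/-- Each orbit of a point stabilizer on another point has length a multiple of the index of a
subgroup containing the derangements. -/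
theorem orbit_ncard_eq_mul_index [Finite G] [Finite Ω] [IsPretransitive G Ω] (D : Subgroup G)
    (hD : ∀ g : G, (∀ ω : Ω, g • ω ≠ ω) → g ∈ D) {α β : Ω} (hαβ : β ≠ α) :
    (stabilizer G β ⊓ stabilizer G α ≤ D ⊓ stabilizer G α) ∧
    (orbit (stabilizer G α) β).ncard =
      (stabilizer G β ⊓ stabilizer G α).relIndex (D ⊓ stabilizer G α) * D.index := by
  have : Nonempty Ω := ⟨α⟩
  obtain ⟨hDt, hD1⟩ := derange_core D hD
  have hKE : stabilizer G β ⊓ stabilizer G α ≤ D ⊓ stabilizer G α := by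
    intro g hg
    rw [Subgroup.mem_inf] at hg ⊢
    refine ⟨?_, hg.2⟩
    by_contra hgD
    exact two_le_card_fixedBy_of_ne g hαβ (mem_stabilizer_iff.mp hg.2) (mem_stabilizer_iff.mp hg.1)
      (hD1 g hgD)
  refine ⟨hKE, ?_⟩
  rw [orbit_ncard_eq_relIndex, ← Subgroup.inf_relIndex_right,
    ← Subgroup.relIndex_mul_relIndex _ _ _ hKE inf_le_right, Subgroup.inf_relIndex_right,
    relIndex_stabilizer_eq_index]

theorem index_dvd_orbit_ncard [Finite G] [Finite Ω] [IsPretransitive G Ω] (D : Subgroup G)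
    (hD : ∀ g : G, (∀ ω : Ω, g • ω ≠ ω) → g ∈ D) {α β : Ω} (hαβ : β ≠ α) :
    D.index ∣ (orbit (stabilizer G α) β).ncard := by
  rw [(orbit_ncard_eq_mul_index D hD hαβ).2]
  exact dvd_mul_left _ _

theorem dvd_ncard_of_invariant [Finite Ω] (H : Subgroup G) (m : ℕ) :
    ∀ (n : ℕ) (Δ : Set Ω), Δ.ncard = n → (∀ h ∈ H, ∀ β ∈ Δ, h • β ∈ Δ) →
      (∀ β ∈ Δ, m ∣ (orbit H β).ncard) → m ∣ n := by
  intro n
  induction n using Nat.strong_induction_on with
  | _ n ih =>
    intro Δ hn hinv hm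
    rcases Set.eq_empty_or_nonempty Δ with hΔ | ⟨β, hβ⟩
    · rw [hΔ, Set.ncard_empty] at hn
      rw [← hn]; exact dvd_zero m
    · have hsub : orbit H β ⊆ Δ := by
        rintro x ⟨h, rfl⟩
        exact hinv h.1 h.2 β hβ
      have hadd := Set.ncard_sdiff_add_ncard_of_subset hsub (Set.toFinite Δ)
      have hpos : 0 < (orbit H β).ncard :=
        (Set.ncard_pos (Set.toFinite _)).mpr ⟨β, mem_orbit_self β⟩
      have hlt : (Δ \ orbit H β).ncard < n := by omega
      have hinv' : ∀ h ∈ H, ∀ γ ∈ Δ \ orbit H β, h • γ ∈ Δ \ orbit H β := by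
        intro h hh γ hγ
        refine ⟨hinv h hh γ hγ.1, ?_⟩
        intro hmem
        apply hγ.2
        have hmem' : (⟨h, hh⟩ : H) • γ ∈ orbit H β := hmem
        have := MulAction.mem_orbit_of_mem_orbit (⟨h, hh⟩ : H)⁻¹ hmem'
        rwa [inv_smul_smul] at this
      have h1 := ih _ hlt (Δ \ orbit H β) rfl hinv' (fun γ hγ => hm γ hγ.1)
      rw [← hn, ← hadd]
      exact dvd_add h1 (hm β hβ)

theorem derange_closure_normal : (Subgroup.closure {g : G | ∀ ω : Ω, g • ω ≠ ω}).Normal := by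
  constructor
  intro n hn g
  induction hn using Subgroup.closure_induction with
  | mem x hx =>
    apply Subgroup.subset_closure
    intro ω hω
    apply hx (g⁻¹ • ω)
    have := congrArg (fun z => g⁻¹ • z) hω
    simpa [mul_smul] using this
  | one => simp
  | mul x y _ _ hx hy =>
    have : g * (x * y) * g⁻¹ = (g * x * g⁻¹) * (g * y * g⁻¹) := by group
    rw [this]; exact Subgroup.mul_mem _ hx hy
  | inv x _ hx =>
    have : g * x⁻¹ * g⁻¹ = (g * x * g⁻¹)⁻¹ := by group
    rw [this]; exact Subgroup.inv_mem _ hx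

end Cfsg.Agent.H63

namespace Cfsg.Agent.H63

open MulAction

variable {G Ω : Type*} [Group G] [MulAction G Ω]

theorem stabilizer_smul_mem_compl_singleton {α : Ω} {h : G} (hh : h ∈ stabilizer G α) {β : Ω}
    (hβ : β ≠ α) : h • β ≠ α := by
  intro hcon
  apply hβ
  have h1 : h • α = α := mem_stabilizer_iff.mp hh
  rw [← h1] at hcon
  exact smul_left_cancel h hcon

/-- For a point-stabilizer-invariant set `Δ` of points other than `α`, the index of a subgroup
containing all derangements divides the size of `Δ`. -/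
theorem index_dvd_ncard_of_invariant [Finite G] [Finite Ω] [IsPretransitive G Ω] (D : Subgroup G)
    (hD : ∀ g : G, (∀ ω : Ω, g • ω ≠ ω) → g ∈ D) (α : Ω) (Δ : Set Ω) (hα : α ∉ Δ)
    (hinv : ∀ h ∈ stabilizer G α, ∀ β ∈ Δ, h • β ∈ Δ) : D.index ∣ Δ.ncard := by
  apply dvd_ncard_of_invariant (stabilizer G α) D.index Δ.ncard Δ rfl hinv
  intro β hβ
  exact index_dvd_orbit_ncard D hD (fun h => hα (h ▸ hβ))

end Cfsg.Agent.H63
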