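import Mathlib

/-!
# helper63: simultaneous eigenbases for commuting linear involutions (char ≠ 2)

`exists_eigenbasis`: a commuting set of involutions of a finite-dimensional space over a field in
which `2 ≠ 0` has a common basis of eigenvectors (eigenvalues `±1`).
-/

set_option autoImplicit false

namespace Cfsg.Agent.H63.EigenBasis

universe u

theorem exists_eigenbasis {F : Type*} [Field F] (h2 : (2 : F) ≠ 0) :
    ∀ (n : ℕ) (V : Type u) [AddCommGroup V] [Module F V] [FiniteDimensional F V],
      Module.finrank F V = n →
      ∀ (𝒯 : Set (Module.End F V)), (∀ S ∈ 𝒯, ∀ T ∈ 𝒯, S * T = T * S) → (∀ T ∈ 𝒯, T * T = 1) →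
      ∃ (ι : Type) (_ : Fintype ι) (b : Module.Basis ι F V),
        ∀ T ∈ 𝒯, ∀ i, T (b i) = b i ∨ T (b i) = - b i := by
  intro n
  induction n using Nat.strong_induction_on with
  | _ n ih =>
    intro V _ _ _ hn 𝒯 hcomm hinv
    by_cases hsc : ∀ T ∈ 𝒯, T = 1 ∨ T = -1
    · refine ⟨Fin (Module.finrank F V), inferInstance, Module.finBasis F V, fun T hT i => ?_⟩
      rcases hsc T hT with h | h
      · left; rw [h]; rfl
      · right; rw [h]; rfl
    · push Not at hsc
      obtain ⟨T₀, hT₀, h1, hm1⟩ := hsc
      obtain ⟨P, hP⟩ : ∃ P : Submodule F V, P = LinearMap.ker (T₀ - 1) := ⟨_, rfl⟩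
      obtain ⟨Q, hQ⟩ : ∃ Q : Submodule F V, Q = LinearMap.ker (T₀ + 1) := ⟨_, rfl⟩
      have hT₀sq : ∀ v, T₀ (T₀ v) = v := fun v => by
        have := hinv T₀ hT₀
        exact congrArg (fun f : Module.End F V => f v) this
      have memP : ∀ v, v ∈ P ↔ T₀ v = v := by
        intro v; rw [hP, LinearMap.mem_ker]; simp [sub_eq_zero]
      have memQ : ∀ v, v ∈ Q ↔ T₀ v = -v := by
        intro v; rw [hQ, LinearMap.mem_ker]; simp [add_eq_zero_iff_eq_neg]
      have hcompl : IsCompl P Q := by
        constructor
        · rw [Submodule.disjoint_def]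
          intro v hvP hvQ
          rw [memP] at hvP; rw [memQ] at hvQ
          have h3 : (2 : F) • v = 0 := by
            rw [two_smul]
            have : v = -v := hvP.symm.trans hvQ
            nth_rewrite 1 [this]
            simp
          exact (smul_eq_zero.mp h3).resolve_left h2
        · rw [codisjoint_iff, eq_top_iff]
          intro v _
          have hv : v = (2 : F)⁻¹ • (v + T₀ v) + (2 : F)⁻¹ • (v - T₀ v) := by
            rw [← smul_add]
            have : v + T₀ v + (v - T₀ v) = (2 : F) • v := by rw [two_smul]; abel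
            rw [this, smul_smul, inv_mul_cancel₀ h2, one_smul]
          rw [hv]
          apply Submodule.add_mem_sup
          · apply Submodule.smul_mem; rw [memP]; simp [hT₀sq, add_comm]
          · apply Submodule.smul_mem; rw [memQ]; simp [hT₀sq]
      have hPlt : Module.finrank F P < n := by
        rw [← hn]
        apply Submodule.finrank_lt
        intro hPt
        apply h1
        ext v
        have : v ∈ P := hPt ▸ Submodule.mem_top
        rw [memP] at this; simpa using this
      have hQlt : Module.finrank F Q < n := by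
        rw [← hn]
        apply Submodule.finrank_lt
        intro hQt
        apply hm1
        ext v
        have : v ∈ Q := hQt ▸ Submodule.mem_top
        rw [memQ] at this; simpa using this
      have hcommv : ∀ T ∈ 𝒯, ∀ v, T₀ (T v) = T (T₀ v) := by
        intro T hT v
        exact congrArg (fun f : Module.End F V => f v) (hcomm T₀ hT₀ T hT)
      have hPinv : ∀ T ∈ 𝒯, ∀ v ∈ P, T v ∈ P := by
        intro T hT v hv
        rw [memP] at hv ⊢
        rw [hcommv T hT, hv]
      have hQinv : ∀ T ∈ 𝒯, ∀ v ∈ Q, T v ∈ Q := by
        intro T hT v hv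
        rw [memQ] at hv ⊢
        rw [hcommv T hT, hv, map_neg]
      obtain ⟨ιP, _, bP, hbP⟩ := ih _ hPlt P rfl
        {T' | ∃ T, ∃ hT : T ∈ 𝒯, T' = T.restrict (hPinv T hT)}
        (by
          rintro _ ⟨S, hS, rfl⟩ _ ⟨T, hT, rfl⟩
          ext v
          have := congrArg (fun f : Module.End F V => f (v : V)) (hcomm S hS T hT)
          simpa using this)
        (by
          rintro _ ⟨T, hT, rfl⟩
          ext v
          have := congrArg (fun f : Module.End F V => f (v : V)) (hinv T hT)
          simpa using this)
      obtain ⟨ιQ, _, bQ, hbQ⟩ := ih _ hQlt Q rfl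
        {T' | ∃ T, ∃ hT : T ∈ 𝒯, T' = T.restrict (hQinv T hT)}
        (by
          rintro _ ⟨S, hS, rfl⟩ _ ⟨T, hT, rfl⟩
          ext v
          have := congrArg (fun f : Module.End F V => f (v : V)) (hcomm S hS T hT)
          simpa using this)
        (by
          rintro _ ⟨T, hT, rfl⟩
          ext v
          have := congrArg (fun f : Module.End F V => f (v : V)) (hinv T hT)
          simpa using this)
      refine ⟨ιP ⊕ ιQ, inferInstance,
        (bP.prod bQ).map (Submodule.prodEquivOfIsCompl P Q hcompl), ?_⟩
      intro T hT i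
      rcases i with i | i
      · have hb := hbP _ ⟨T, hT, rfl⟩ i
        have hval : ((bP.prod bQ).map (Submodule.prodEquivOfIsCompl P Q hcompl)) (Sum.inl i)
            = (bP i : V) := by
          simp
        rw [hval]
        rcases hb with hb | hb
        · left
          have := congrArg Subtype.val hb
          simpa using this
        · right
          have := congrArg Subtype.val hb
          simpa using this
      · have hb := hbQ _ ⟨T, hT, rfl⟩ i
        have hval : ((bP.prod bQ).map (Submodule.prodEquivOfIsCompl P Q hcompl)) (Sum.inr i)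
            = (bQ i : V) := by
          simp
        rw [hval]
        rcases hb with hb | hb
        · left
          have := congrArg Subtype.val hb
          simpa using this
        · right
          have := congrArg Subtype.val hb
          simpa using this

section Usage

variable {F : Type*} [Field F] {V : Type u} [AddCommGroup V] [Module F V] [FiniteDimensional F V]
variable {X : Type*} [Group X]

/-- An elementary abelian subgroup `E` of order `8` in a group acting faithfully on a
3-dimensional space (char ≠ 2): `E` contains the element acting as `-1`, it contains every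
central involution, and if `E` is central then the group is abelian. -/
theorem e8_structure (h2 : (2 : F) ≠ 0) (hV : Module.finrank F V = 3)
    (φ : X →* Module.End F V) (hφ : Function.Injective φ)
    (E : Subgroup X) (hE8 : Nat.card E = 8) (hEc : ∀ g ∈ E, ∀ g' ∈ E, g * g' = g' * g)
    (hE2 : ∀ g ∈ E, g * g = 1) :
    (∃ c ∈ E, φ c = -1) ∧ (∀ t ∈ Subgroup.center X, t * t = 1 → t ∈ E) ∧
    ((∀ g ∈ E, g ∈ Subgroup.center X) → ∀ x y : X, x * y = y * x) := by
  classical
  obtain ⟨ι, _, b, hb⟩ := exists_eigenbasis h2 3 V hV
    (φ '' {g | g ∈ E ∨ (g ∈ Subgroup.center X ∧ g * g = 1)})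
    (by
      rintro _ ⟨g, hg, rfl⟩ _ ⟨g', hg', rfl⟩
      rw [← map_mul, ← map_mul]
      congr 1
      rcases hg with hg | hg
      · rcases hg' with hg' | hg'
        · exact hEc g hg g' hg'
        · exact Subgroup.mem_center_iff.mp hg'.1 g
      · exact (Subgroup.mem_center_iff.mp hg.1 g').symm)
    (by
      rintro _ ⟨g, hg, rfl⟩
      rw [← map_mul]
      rcases hg with hg | hg
      · rw [hE2 g hg, map_one]
      · rw [hg.2, map_one])
  have hcard : Fintype.card ι = 3 := by
    rw [← hV]; exact (Module.finrank_eq_card_basis b).symm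
  have hb' : ∀ g, (g ∈ E ∨ (g ∈ Subgroup.center X ∧ g * g = 1)) →
      ∀ i, φ g (b i) = b i ∨ φ g (b i) = - b i :=
    fun g hg i => hb _ ⟨g, hg, rfl⟩ i
  have hne : ∀ i, b i ≠ - b i := by
    intro i h
    have h3 : (2 : F) • b i = 0 := by
      rw [two_smul]; nth_rewrite 2 [h]; simp
    exact b.ne_zero i ((smul_eq_zero.mp h3).resolve_left h2)
  obtain ⟨S, hS⟩ : ∃ S : X → Finset ι, ∀ g i, i ∈ S g ↔ φ g (b i) = - b i :=
    ⟨fun g => Finset.univ.filter (fun i => φ g (b i) = - b i), fun g i => by simp⟩
  have hSinj : ∀ g g', (g ∈ E ∨ (g ∈ Subgroup.center X ∧ g * g = 1)) →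
      (g' ∈ E ∨ (g' ∈ Subgroup.center X ∧ g' * g' = 1)) → S g = S g' → g = g' := by
    intro g g' hg hg' hSS
    apply hφ
    apply b.ext
    intro i
    have hi : i ∈ S g ↔ i ∈ S g' := by rw [hSS]
    rw [hS, hS] at hi
    rcases hb' g hg i with h | h
    · rcases hb' g' hg' i with h' | h'
      · rw [h, h']
      · exact absurd (h.symm.trans (hi.mpr h')) (hne i)
    · rw [h, hi.mp h]
  have hsurj : ∀ s : Finset ι, ∃ g ∈ E, S g = s := by
    have hinj : Function.Injective (fun g : E => S (g : X)) := by
      intro g g' h
      exact Subtype.ext (hSinj g g' (Or.inl g.2) (Or.inl g'.2) h)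
    have hbij : Function.Bijective (fun g : E => S (g : X)) := by
      rw [Nat.bijective_iff_injective_and_card]
      refine ⟨hinj, ?_⟩
      rw [hE8, Nat.card_eq_fintype_card, Fintype.card_finset, hcard]
      norm_num
    intro s
    obtain ⟨g, hg⟩ := hbij.2 s
    exact ⟨g, g.2, hg⟩
  refine ⟨?_, ?_, ?_⟩
  · obtain ⟨c, hc, hSc⟩ := hsurj Finset.univ
    refine ⟨c, hc, ?_⟩
    apply b.ext
    intro i
    have : i ∈ S c := by rw [hSc]; exact Finset.mem_univ i
    rw [hS] at this
    rw [this]; simp
  · intro t ht ht2
    obtain ⟨g, hg, hSg⟩ := hsurj (S t)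
    have := hSinj g t (Or.inl hg) (Or.inr ⟨ht, ht2⟩) hSg
    rw [← this]; exact hg
  · intro hEZ x y
    have hdiag : ∀ (x : X) (i : ι), ∃ m : F, φ x (b i) = m • b i := by
      intro x i
      obtain ⟨r, hr, hSr⟩ := hsurj {i}
      have hri : φ r (b i) = - b i := by
        have : i ∈ S r := by rw [hSr]; exact Finset.mem_singleton_self i
        exact (hS r i).mp this
      have hrj : ∀ j, j ≠ i → φ r (b j) = b j := by
        intro j hj
        have : j ∉ S r := by rw [hSr]; simpa using hj
        rw [hS] at this
        exact (hb' r (Or.inl hr) j).resolve_right this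
      obtain ⟨w, hw⟩ : ∃ w, w = φ x (b i) := ⟨_, rfl⟩
      have hrw : φ r w = - w := by
        have hcomm : r * x = x * r := (Subgroup.mem_center_iff.mp (hEZ r hr) x).symm
        have h4 : φ (r * x) (b i) = φ (x * r) (b i) := by rw [hcomm]
        rw [map_mul, map_mul] at h4
        simp only [Module.End.mul_apply] at h4
        rw [hw, h4, hri, map_neg]
      have hcoord : ∀ j, j ≠ i → b.repr w j = 0 := by
        intro j hj
        have hlin : (b.coord j) ∘ₗ (φ r) = b.coord j := by
          apply b.ext
          intro k
          by_cases hk : k = i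
          · subst hk
            simp [hri, Ne.symm hj]
          · simp [hrj k hk]
        have h3 := congrArg (fun l : V →ₗ[F] F => l w) hlin
        simp only [LinearMap.comp_apply, hrw, map_neg, Module.Basis.coord_apply] at h3
        have h4 : (2 : F) * b.repr w j = 0 := by linear_combination -h3
        exact (mul_eq_zero.mp h4).resolve_left h2
      refine ⟨b.repr w i, ?_⟩
      rw [← hw]
      conv_lhs => rw [← b.sum_repr w]
      rw [Finset.sum_eq_single i]
      · intro j _ hj; rw [hcoord j hj, zero_smul]
      · intro h; exact absurd (Finset.mem_univ i) h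
    choose μ hμ using hdiag
    apply hφ
    apply b.ext
    intro i
    rw [map_mul, map_mul]
    simp only [Module.End.mul_apply]
    rw [hμ y i, map_smul, hμ x i, map_smul, hμ y i, smul_smul, smul_smul, mul_comm]

end Usage

end Cfsg.Agent.H63.EigenBasis
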