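import Mathlib

set_option autoImplicit false

namespace Cfsg.Agent.H63.Hamming

open MulAction
open scoped Pointwise

/-- A primitivity criterion via an invariant graph. -/
theorem preprimitive_of_graph {G X : Type*} [Group G] [MulAction G X] (adj : X → X → Prop)
    (x₀ : X)
    (hadj : ∀ (g : G) (x y : X), adj x y → adj (g • x) (g • y))
    (htrans : ∀ x y : X, ∃ g : G, g • x = y)
    (hloc : ∀ y y', adj x₀ y → adj x₀ y' → ∃ g : G, g • x₀ = x₀ ∧ g • y = y')
    (hstep : ∀ x y, x ≠ y → ∃ g : G, g • x = x ∧ adj y (g • y))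
    (hconn : ∀ S : Set X, S.Nonempty → (∀ a ∈ S, ∀ b, adj a b → b ∈ S) → S = Set.univ) :
    IsPreprimitive G X := by
  have : IsPretransitive G X := ⟨htrans⟩
  have hloc' : ∀ x y y', adj x y → adj x y' → ∃ g : G, g • x = x ∧ g • y = y' := by
    intro x y y' h1 h2
    obtain ⟨t, ht⟩ := htrans x x₀
    obtain ⟨g, hg1, hg2⟩ := hloc (t • y) (t • y') (ht ▸ hadj t x y h1) (ht ▸ hadj t x y' h2)
    refine ⟨t⁻¹ * g * t, ?_, ?_⟩
    · rw [mul_smul, mul_smul, ht, hg1, ← ht, inv_smul_smul]
    · rw [mul_smul, mul_smul, hg2, inv_smul_smul]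
  refine ⟨fun {B} hB => ?_⟩
  rw [isBlock_iff_smul_eq_of_mem] at hB
  by_cases hsub : B.Subsingleton
  · exact Or.inl hsub
  right
  rw [Set.not_subsingleton_iff] at hsub
  obtain ⟨x, hx, y, hy, hxy⟩ := hsub
  obtain ⟨g, hgx, hgy⟩ := hstep x y hxy
  have hgB : g • B = B := hB hx (hgx.symm ▸ hx)
  have hy' : g • y ∈ B := by rw [← hgB]; exact Set.smul_mem_smul_set hy
  apply hconn B ⟨x, hx⟩
  intro a ha b hab
  obtain ⟨h, hh⟩ := htrans y a
  have hhB : h • B = B := hB hy (hh.symm ▸ ha)
  have h1 : h • g • y ∈ B := by rw [← hhB]; exact Set.smul_mem_smul_set hy'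
  have h2 : adj a (h • g • y) := hh ▸ hadj h y (g • y) hgy
  obtain ⟨k, hk1, hk2⟩ := hloc' a (h • g • y) b h2 hab
  have hkB : k • B = B := hB ha (hk1.symm ▸ ha)
  rw [← hkB, ← hk2]; exact Set.smul_mem_smul_set h1

section Ham

variable {ι : Type*} [Fintype ι] [DecidableEq ι] {A : Type*} [DecidableEq A]

/-- The isometry group of the Hamming space `ι → A`. -/
def isoGroup (ι : Type*) [Fintype ι] [DecidableEq ι] (A : Type*) [DecidableEq A] :
    Subgroup (Equiv.Perm (ι → A)) where
  carrier := {σ | ∀ x y, hammingDist (σ x) (σ y) = hammingDist x y}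
  mul_mem' := by
    intro a b ha hb x y
    simp only [Equiv.Perm.coe_mul, Function.comp_apply]
    rw [ha, hb]
  one_mem' := by intro x y; rfl
  inv_mem' := by
    intro a ha x y
    have := ha (a⁻¹ x) (a⁻¹ y)
    simpa using this.symm

theorem mem_isoGroup (σ : Equiv.Perm (ι → A)) :
    σ ∈ isoGroup ι A ↔ ∀ x y, hammingDist (σ x) (σ y) = hammingDist x y := Iff.rfl

/-- coordinatewise permutation -/
def coordPerm (τ : ι → Equiv.Perm A) : Equiv.Perm (ι → A) := Equiv.piCongrRight τ

theorem coordPerm_apply (τ : ι → Equiv.Perm A) (x : ι → A) (i : ι) :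
    coordPerm τ x i = τ i (x i) := rfl

theorem coordPerm_mem (τ : ι → Equiv.Perm A) : coordPerm τ ∈ isoGroup ι A := by
  intro x y
  exact hammingDist_comp (fun i => ⇑(τ i)) (fun i => (τ i).injective)

/-- coordinate reindexing -/
def reindexPerm (π : Equiv.Perm ι) : Equiv.Perm (ι → A) := Equiv.arrowCongr π (Equiv.refl A)

theorem reindexPerm_apply (π : Equiv.Perm ι) (x : ι → A) (i : ι) :
    reindexPerm π x i = x (π.symm i) := rfl

theorem reindexPerm_mem (π : Equiv.Perm ι) : reindexPerm π ∈ isoGroup ι A := by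
  intro x y
  unfold hammingDist
  apply Finset.card_bij (fun i _ => π.symm i)
  · intro i hi
    rw [Finset.mem_filter] at hi ⊢
    exact ⟨Finset.mem_univ _, hi.2⟩
  · intro i _ j _ h; exact π.symm.injective h
  · intro j hj
    refine ⟨π j, ?_, by simp⟩
    rw [Finset.mem_filter] at hj ⊢
    refine ⟨Finset.mem_univ _, ?_⟩
    have := hj.2
    simpa [reindexPerm_apply] using this

theorem hammingDist_update (x : ι → A) (i : ι) (b : A) (hb : b ≠ x i) :
    hammingDist x (Function.update x i b) = 1 := by
  unfold hammingDist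
  rw [Finset.card_eq_one]
  refine ⟨i, ?_⟩
  ext k
  simp only [Finset.mem_filter, Finset.mem_univ, true_and, Finset.mem_singleton]
  constructor
  · intro h
    by_contra hk
    exact h (by rw [Function.update_of_ne hk])
  · rintro rfl
    rw [Function.update_self]; exact hb.symm

theorem exists_update_of_hammingDist_eq_one (x y : ι → A) (h : hammingDist x y = 1) :
    ∃ i b, b ≠ x i ∧ y = Function.update x i b := by
  unfold hammingDist at h
  rw [Finset.card_eq_one] at h
  obtain ⟨i, hi⟩ := h
  refine ⟨i, y i, ?_, ?_⟩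
  · have : i ∈ ({i} : Finset ι) := Finset.mem_singleton_self i
    rw [← hi] at this
    exact fun h => (Finset.mem_filter.mp this).2 h.symm
  · funext k
    by_cases hk : k = i
    · subst hk; simp
    · rw [Function.update_of_ne hk]
      by_contra hne
      have : k ∈ ({i} : Finset ι) := by
        rw [← hi]
        simp only [Finset.mem_filter, Finset.mem_univ, true_and]
        exact fun h => hne h.symm
      exact hk (Finset.mem_singleton.mp this)

theorem iso_trans (x y : ι → A) : ∃ g ∈ isoGroup ι A, g x = y := by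
  refine ⟨coordPerm (fun i => Equiv.swap (x i) (y i)), coordPerm_mem _, ?_⟩
  funext i
  simp [coordPerm_apply]

theorem iso_step [Fintype A] (hA : 3 ≤ Fintype.card A) (x y : ι → A) (hxy : x ≠ y) :
    ∃ g ∈ isoGroup ι A, g x = x ∧ hammingDist y (g y) = 1 := by
  obtain ⟨i, hi⟩ : ∃ i, x i ≠ y i := Function.ne_iff.mp hxy
  obtain ⟨c, hc1, hc2⟩ : ∃ c, c ≠ x i ∧ c ≠ y i := by
    by_contra hcon
    push Not at hcon
    have hsub : (Finset.univ : Finset A) ⊆ {x i, y i} := by
      intro c _
      by_cases h : c = x i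
      · simp [h]
      · simp [hcon c h]
    have h1 := Finset.card_le_card hsub
    have h2 : ({x i, y i} : Finset A).card ≤ 2 := Finset.card_le_two
    rw [Finset.card_univ] at h1
    omega
  refine ⟨coordPerm (fun j => if j = i then Equiv.swap (y i) c else 1), coordPerm_mem _, ?_, ?_⟩
  · funext j
    rw [coordPerm_apply]
    by_cases hj : j = i
    · subst hj
      simp only [if_true]
      exact Equiv.swap_apply_of_ne_of_ne hi hc1.symm
    · simp [hj]
  · have : coordPerm (fun j => if j = i then Equiv.swap (y i) c else 1) y = Function.update y i c := by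
      funext j
      rw [coordPerm_apply]
      by_cases hj : j = i
      · subst hj; simp
      · simp [hj]
    rw [this]
    exact hammingDist_update y i c hc2

theorem iso_loc (a₀ : A) (y y' : ι → A) (h1 : hammingDist (fun _ => a₀) y = 1)
    (h2 : hammingDist (fun _ => a₀) y' = 1) :
    ∃ g ∈ isoGroup ι A, g (fun _ => a₀) = (fun _ => a₀) ∧ g y = y' := by
  obtain ⟨i, b, hb, rfl⟩ := exists_update_of_hammingDist_eq_one _ _ h1
  obtain ⟨j, b', hb', rfl⟩ := exists_update_of_hammingDist_eq_one _ _ h2
  refine ⟨coordPerm (fun k => if k = j then Equiv.swap b b' else 1) * reindexPerm (Equiv.swap i j),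
    mul_mem (coordPerm_mem _) (reindexPerm_mem _), ?_, ?_⟩
  · funext k
    simp only [Equiv.Perm.coe_mul, Function.comp_apply, coordPerm_apply, reindexPerm_apply]
    by_cases hk : k = j
    · simp only [hk, if_true]
      exact Equiv.swap_apply_of_ne_of_ne hb.symm hb'.symm
    · simp [hk]
  · funext k
    simp only [Equiv.Perm.coe_mul, Function.comp_apply, coordPerm_apply, reindexPerm_apply]
    by_cases hk : k = j
    · subst hk
      simp
    · have hne : (Equiv.swap i j) k ≠ i := by
        intro h
        apply hk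
        rw [Equiv.swap_apply_eq_iff, Equiv.swap_apply_left] at h
        exact h
      simp [hk, Function.update_of_ne hne]

theorem iso_conn (S : Set (ι → A)) (hS : S.Nonempty)
    (hcl : ∀ a ∈ S, ∀ b, hammingDist a b = 1 → b ∈ S) : S = Set.univ := by
  obtain ⟨s, hs⟩ := hS
  have key : ∀ T : Finset ι, ∀ y : ι → A, (∀ i, i ∉ T → y i = s i) → y ∈ S := by
    intro T
    induction T using Finset.induction_on with
    | empty =>
      intro y hy
      have : y = s := funext fun i => hy i (Finset.notMem_empty i)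
      rw [this]; exact hs
    | insert i T hi ih =>
      intro y hy
      have h0 : Function.update y i (s i) ∈ S := by
        apply ih
        intro k hk
        by_cases hki : k = i
        · subst hki; simp
        · rw [Function.update_of_ne hki]
          exact hy k (by simp [hki, hk])
      by_cases hyi : y i = s i
      · have : Function.update y i (s i) = y := by rw [← hyi]; exact Function.update_eq_self i y
        rw [← this]; exact h0
      · have := hcl _ h0 (Function.update (Function.update y i (s i)) i (y i))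
          (hammingDist_update _ i (y i) (by simpa using hyi))
        simpa using this
  ext y
  simp only [Set.mem_univ, iff_true]
  exact key Finset.univ y (fun i hi => absurd (Finset.mem_univ i) hi)

theorem isoGroup_preprimitive [Fintype A] (hA : 3 ≤ Fintype.card A) :
    IsPreprimitive ↥(isoGroup ι A) (ι → A) := by
  obtain ⟨a₀⟩ : Nonempty A := by
    rw [← Fintype.card_pos_iff]; omega
  apply preprimitive_of_graph (G := ↥(isoGroup ι A)) (fun x y => hammingDist x y = 1)
    (fun _ => a₀)
  · intro g x y h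
    show hammingDist ((g : Equiv.Perm (ι → A)) x) ((g : Equiv.Perm (ι → A)) y) = 1
    rw [g.2 x y]; exact h
  · intro x y
    obtain ⟨g, hg, h⟩ := iso_trans x y
    exact ⟨⟨g, hg⟩, h⟩
  · intro y y' h1 h2
    obtain ⟨g, hg, h, h'⟩ := iso_loc a₀ y y' h1 h2
    exact ⟨⟨g, hg⟩, h, h'⟩
  · intro x y hxy
    obtain ⟨g, hg, h, h'⟩ := iso_step hA x y hxy
    exact ⟨⟨g, hg⟩, h, h'⟩
  · exact iso_conn

theorem isoGroup_not_two [Fintype A] (hr : 2 ≤ Fintype.card ι) (hA : 2 ≤ Fintype.card A) :
    ¬ IsMultiplyPretransitive ↥(isoGroup ι A) (ι → A) 2 := by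
  intro h2
  rw [is_two_pretransitive_iff] at h2
  obtain ⟨i, j, hij⟩ := Fintype.exists_pair_of_one_lt_card (α := ι) (by omega)
  obtain ⟨a₀, b₀, hab⟩ := Fintype.exists_pair_of_one_lt_card (α := A) (by omega)
  set c : ι → A := fun _ => a₀ with hc
  have h1 : hammingDist c (Function.update c i b₀) = 1 := hammingDist_update c i b₀ hab.symm
  have hne1 : c ≠ Function.update c i b₀ := by
    intro h; rw [← h, hammingDist_self] at h1; exact zero_ne_one h1
  have hd : hammingDist c (Function.update (Function.update c i b₀) j b₀) ≠ 1 := by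
    intro h
    obtain ⟨k, b, hb, hk⟩ := exists_update_of_hammingDist_eq_one _ _ h
    have e1 := congrFun hk i
    have e2 := congrFun hk j
    have hik : i = k := by
      by_contra hik
      rw [Function.update_of_ne hij, Function.update_self, Function.update_of_ne hik] at e1
      exact hab e1.symm
    have hjk : j = k := by
      by_contra hjk
      rw [Function.update_self, Function.update_of_ne hjk] at e2
      exact hab e2.symm
    exact hij (hik.trans hjk.symm)
  have hne2 : c ≠ Function.update (Function.update c i b₀) j b₀ := by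
    intro h
    have := congrFun h j
    rw [Function.update_self] at this
    exact hab this
  obtain ⟨g, hg1, hg2⟩ := h2 hne1 hne2
  apply hd
  have := g.2 c (Function.update c i b₀)
  rw [h1] at this
  rw [← this]
  change (g : Equiv.Perm (ι → A)) c = c at hg1
  change (g : Equiv.Perm (ι → A)) (Function.update c i b₀) = _ at hg2
  rw [hg1, hg2]

section Reg

variable {K : Type*} [Group K] {F : ι → Type*} [∀ i, Group (F i)]

/-- The regular action of `K ≃* ∀ i, F i` on `ι → A`, transported along `φ i : F i ≃ A`. -/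
def regHom (φ : ∀ i, F i ≃ A) (e : K ≃* (∀ i, F i)) : K →* Equiv.Perm (ι → A) :=
  ((Equiv.piCongrRight φ).permCongrHom.toMonoidHom.comp
    (MulAction.toPermHom (∀ i, F i) (∀ i, F i))).comp e.toMonoidHom

theorem regHom_apply (φ : ∀ i, F i ≃ A) (e : K ≃* (∀ i, F i)) (k : K) (x : ι → A) (i : ι) :
    regHom φ e k x i = φ i (e k i * (φ i).symm (x i)) := rfl

theorem regHom_mem (φ : ∀ i, F i ≃ A) (e : K ≃* (∀ i, F i)) (k : K) :
    regHom φ e k ∈ isoGroup ι A := by
  intro x y
  refine hammingDist_comp (fun i a => φ i (e k i * (φ i).symm a)) (fun i => ?_)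
  intro a b h
  simpa using h

theorem regHom_eq_self_iff (φ : ∀ i, F i ≃ A) (e : K ≃* (∀ i, F i)) (k : K) (x : ι → A) :
    regHom φ e k x = x ↔ k = 1 := by
  constructor
  · intro h
    apply e.injective
    rw [map_one]
    funext i
    have := congrFun h i
    rw [regHom_apply] at this
    simpa using congrArg (φ i).symm this
  · rintro rfl; simp

theorem regHom_injective (φ : ∀ i, F i ≃ A) (e : K ≃* (∀ i, F i)) :
    Function.Injective (regHom (A := A) φ e) := by
  rw [injective_iff_map_eq_one]
  intro k hk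
  exact (regHom_eq_self_iff φ e k (fun i => φ i 1)).mp (by rw [hk]; rfl)

theorem regHom_trans (φ : ∀ i, F i ≃ A) (e : K ≃* (∀ i, F i)) (x y : ι → A) :
    ∃ k : K, regHom φ e k x = y := by
  refine ⟨e.symm (fun i => (φ i).symm (y i) * ((φ i).symm (x i))⁻¹), ?_⟩
  funext i
  rw [regHom_apply]
  simp

end Reg

end Ham

/-- Transport of the conclusion along a bijection of the underlying sets. -/
theorem transport {X Y : Type*} (ε : X ≃ Y) {K : Type*} [Group K]
    (G R : Subgroup (Equiv.Perm X)) (hRG : R ≤ G) (hRK : Nonempty (↥R ≃* K))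
    (h3 : IsPretransitive ↥R X) (h4 : ∀ a : X, stabilizer ↥R a = ⊥)
    (h5 : IsPreprimitive ↥G X) (h6 : ¬ IsMultiplyPretransitive ↥G X 2) :
    ∃ (G' R' : Subgroup (Equiv.Perm Y)), R' ≤ G' ∧ Nonempty (↥R' ≃* K) ∧
      IsPretransitive ↥R' Y ∧ (∀ a : Y, stabilizer ↥R' a = ⊥) ∧
      IsPreprimitive ↥G' Y ∧ ¬ IsMultiplyPretransitive ↥G' Y 2 := by
  set f : Equiv.Perm X →* Equiv.Perm Y := ε.permCongrHom.toMonoidHom with hf
  have hfinj : Function.Injective f := ε.permCongrHom.injective
  have hfapp : ∀ (s : Equiv.Perm X) (x : X), f s (ε x) = ε (s x) := by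
    intro s x; simp [hf, Equiv.permCongrHom]
  let ψ : ∀ S : Subgroup (Equiv.Perm X), ↥S → ↥(S.map f) :=
    fun S s => ⟨f s, Subgroup.mem_map_of_mem f s.2⟩
  have hψ : ∀ S, Function.Surjective (ψ S) := by
    intro S ⟨t, ht⟩
    obtain ⟨s, hs, rfl⟩ := Subgroup.mem_map.mp ht
    exact ⟨⟨s, hs⟩, rfl⟩
  let fε : ∀ S : Subgroup (Equiv.Perm X), X →ₑ[ψ S] Y :=
    fun S => ⟨ε, fun s x => (hfapp s x).symm⟩
  have hfε : ∀ S, Function.Bijective (fε S) := fun S => ε.bijective
  refine ⟨G.map f, R.map f, Subgroup.map_mono hRG, ?_, ?_, ?_, ?_, ?_⟩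
  · obtain ⟨eRK⟩ := hRK
    exact ⟨(R.equivMapOfInjective f hfinj).symm.trans eRK⟩
  · exact (isPretransitive_congr (hψ R) (hfε R)).mp h3
  · intro a
    rw [eq_bot_iff]
    rintro ⟨t, ht⟩ hta
    obtain ⟨s, hs, rfl⟩ := Subgroup.mem_map.mp ht
    rw [mem_stabilizer_iff] at hta
    have h1 : f s a = a := hta
    have h2 : s (ε.symm a) = ε.symm a := by
      have := hfapp s (ε.symm a)
      rw [Equiv.apply_symm_apply, h1] at this
      exact (ε.symm_apply_eq.mpr this).symm
    have h3' : (⟨s, hs⟩ : ↥R) ∈ stabilizer ↥R (ε.symm a) := h2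
    rw [h4] at h3'
    have : s = 1 := by simpa using Subgroup.mem_bot.mp h3'
    subst this
    simp
  · exact (isPreprimitive_congr (hψ G) (hfε G)).mp h5
  · intro h
    exact h6 ((IsPretransitive.of_embedding_congr (hψ G) (hfε G)).mpr h)

end Cfsg.Agent.H63.Hamming
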