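import Cfsg.Agent.H23.ChFE8
import Cfsg.Agent.H23.Gen.E8.Tabs
import Cfsg.Agent.H23.Para
import Cfsg.Agent.H23.CommAll
import Cfsg.Agent.H23.Struct

set_option autoImplicit false

/-!
# IC-LOWN (for S5751): the groups `Q k` are normal in the maximal parabolic `P_J` of `E8(2)`

`J` = all nodes but the branch node `3`; `Q k` is generated by the root subgroups of the positive roots
of level (coefficient of the branch node) at least `k`.  The statement is proved from three facts that
are available for `E8`: the representation `Sem`, the commutator formula `Pc` for all pairs of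
independent roots, and the packed chain table `ChFOK`.
-/

namespace Cfsg.Agent.H63.Ic

open Cfsg.Lie Cfsg.Agent.H23

/-- The level of the index `c`: the coefficient of the branch node (zero for `c ≥ 240`). -/
def lv (c : ℕ) : ℤ := zRl [10, 15, 20, 30, 24, 18, 12, 6] ctblE8 chevE8.nroots c

/-- The positive roots are the roots of the upper half. -/
theorem lv_half : ∀ r < chevE8.nroots, chevE8.IsPosRoot r ↔ chevE8.nroots / 2 ≤ r := by decide +kernel

/-- Positive roots have nonnegative level. -/
theorem lv_pos : ∀ r < chevE8.nroots, chevE8.nroots / 2 ≤ r → 0 ≤ lv r := by decide +kernel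

/-- The level is odd. -/
theorem lv_neg : ∀ r < chevE8.nroots, lv (chevE8.neg r) = - lv r := by decide +kernel

/-- The fundamental roots other than the branch node have level zero. -/
theorem lv_simple : ∀ j < chevE8.rank, j ≠ 3 → lv (chevE8.simple j) = 0 ∧
    chevE8.simple j < chevE8.nroots ∧ chevE8.neg (chevE8.simple j) < chevE8.nroots := by decide +kernel

/-- The check of `lv_terms` for the pair `(r, s)`. -/
def lvCell (r s : ℕ) : Bool :=
  (commTermsG (chainF chevE8.nroots chFE8) r s).all fun c =>
    Nat.ble (chevE8.nroots / 2) c.1 && Nat.blt c.1 chevE8.nroots && decide (lv s ≤ lv c.1)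

/-- The check of `lv_terms` for the root `r`. -/
def lvRow (r : ℕ) : Bool :=
  decide (lv r < 0) ||
    allFrom (fun s => decide (lv s < 1) || Nat.beq s r || lvCell r s) (chevE8.nroots / 2) (chevE8.nroots / 2)

theorem lv_rows : allFrom lvRow 0 chevE8.nroots = true := by decide +kernel

/-- The terms of the commutator formula of a root of nonnegative level against a root of positive level
are positive roots of at least that level. -/
theorem lv_terms : ∀ r < chevE8.nroots, 0 ≤ lv r → ∀ s < chevE8.nroots, chevE8.nroots / 2 ≤ s → 1 ≤ lv s →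
    s ≠ r → ∀ c ∈ commTermsG (chainF chevE8.nroots chFE8) r s,
      (chevE8.nroots / 2 ≤ c.1 ∧ c.1 < chevE8.nroots) ∧ lv s ≤ lv c.1 := by
  intro r hr hr0 s hs hs2 hs1 hne c hc
  have h1 := allFrom_sound _ _ _ lv_rows r (Nat.zero_le r) (by omega)
  unfold lvRow at h1
  rw [Bool.or_eq_true] at h1
  rcases h1 with h1 | h1
  · have := of_decide_eq_true h1
    omega
  · have hn : chevE8.nroots / 2 + chevE8.nroots / 2 = chevE8.nroots := by decide
    have h2 := allFrom_sound _ _ _ h1 s hs2 (by omega)
    rw [Bool.or_eq_true, Bool.or_eq_true] at h2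
    rcases h2 with (h2 | h2) | h2
    · have := of_decide_eq_true h2
      omega
    · exact absurd (Nat.eq_of_beq_eq_true h2) hne
    · unfold lvCell at h2
      have h3 := List.all_eq_true.mp h2 c hc
      rw [Bool.and_eq_true, Bool.and_eq_true] at h3
      exact ⟨⟨Nat.le_of_ble_eq_true h3.1.1, Nat.blt_eq.mp h3.1.2⟩, of_decide_eq_true h3.2⟩

section

variable {z : ℕ → ℕ → ℤ} (hS : Sem chevE8 (ZMod 2) z)
  (hPc : ∀ r s, r < chevE8.nroots → s < chevE8.nroots → s ≠ r → s ≠ chevE8.neg r → Pc chevE8 (ZMod 2) r s)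
  (hCh : ChFOK chevE8 chFE8)

include hPc hCh in
/-- A root element of nonnegative level normalizes `Q k`. -/
theorem xU_mem_normalizer_lv (k : ℕ) (hk : 1 ≤ k) (q : ℕ) (hq : q < chevE8.nroots) (hq0 : 0 ≤ lv q)
    (t : ZMod 2) :
    xU hS q t ∈ Subgroup.normalizer
      (rootGen chevE8 (ZMod 2) (fun r => chevE8.IsPosRoot r ∧ (k : ℤ) ≤ lv r) :
        Set (GL chevE8.Idx (ZMod 2))) := by
  by_cases hP : chevE8.IsPosRoot q ∧ (k : ℤ) ≤ lv q
  · exact Subgroup.le_normalizer (xU_mem_rootGen hS _ q hP t)
  · have hk' : (1 : ℤ) ≤ (k : ℤ) := by exact_mod_cast hk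
    apply xU_mem_normalizer_of_comm hS
    · intro s hs t u
      have hsn : s < chevE8.nroots := hs.1.1
      have hs1 : (1 : ℤ) ≤ lv s := le_trans hk' hs.2
      have h1 : s ≠ q := by
        intro e
        exact hP (e ▸ hs)
      have h2 : s ≠ chevE8.neg q := by
        intro e
        have h := lv_neg q hq
        rw [← e] at h
        omega
      have h3 := (Pc_iff hS q s).mp (hPc q s hq hsn h1 h2) t u
      rw [mul_assoc, inv_mul_eq_iff_eq_mul, ← mul_assoc]
      exact h3
    · intro s hs c hc
      have hsn : s < chevE8.nroots := hs.1.1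
      have hs1 : (1 : ℤ) ≤ lv s := le_trans hk' hs.2
      have h1 : s ≠ q := by
        intro e
        exact hP (e ▸ hs)
      rw [hCh.commTerms q s] at hc
      have h := lv_terms q hq hq0 s hsn ((lv_half s hsn).mp hs.1) hs1 h1 c hc
      exact ⟨(lv_half c.1 h.1.2).mpr h.1.1, le_trans hs.2 h.2⟩

include hS hPc hCh in
/-- LOWN, from the representation, the commutator formula and the chain table:
`P_J ≤ N(Q k)` for `k ≥ 1`. -/
theorem lowN_of : ∀ k : ℕ, 1 ≤ k → chevE8.parabolicSubgroup (ZMod 2) {j | j ≠ 3} ≤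
    Subgroup.normalizer
      (rootGen chevE8 (ZMod 2) (fun r => chevE8.IsPosRoot r ∧
        (k : ℤ) ≤ zRl [10, 15, 20, 30, 24, 18, 12, 6] ctblE8 chevE8.nroots r) :
        Set (GL chevE8.Idx (ZMod 2))) := by
  intro k hk
  have key := xU_mem_normalizer_lv hS hPc hCh k hk
  unfold ChevalleyDatum.parabolicSubgroup ChevalleyDatum.borelSubgroup
  apply sup_le
  · apply sup_le
    · rw [posUnipotent_eq]
      apply rootGen_le hS
      intro r hr t
      exact key r hr.1 (lv_pos r hr.1 ((lv_half r hr.1).mp hr)) t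
    · exact diagonal_le_normalizer_rootGen hS _ (fun r hr => hr.1.1)
  · rw [Subgroup.closure_le]
    rintro g ⟨j, hjJ, hj, hg⟩
    have hg' : g = nU hS (chevE8.simple j) 1 := eq_wordU hS g _ hg
    rw [hg', nU_eq]
    obtain ⟨h0, h1, h2⟩ := lv_simple j hj hjJ
    have hn0 : 0 ≤ lv (chevE8.neg (chevE8.simple j)) := by
      rw [lv_neg _ h1, h0]; simp
    exact Subgroup.mul_mem _ (Subgroup.mul_mem _ (key _ h1 (le_of_eq h0.symm) _) (key _ h2 hn0 _))
      (key _ h1 (le_of_eq h0.symm) _)

end

end Cfsg.Agent.H63.Ic
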