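import Cfsg.Agent.H23.IcDefs
import Cfsg.Agent.H23.CommAllE8
import Cfsg.Agent.H23.ChFE8
import Cfsg.Agent.H63.IcLowNGen

set_option autoImplicit false

/-!
# IC-LOWN (for S5751): `Q k ⊴ P_J`

The statement `Cfsg.Agent.H23.Ic.StLowN`, from the generic `lowN_of` of `H63/IcLowNGen.lean`.
-/

namespace Cfsg.Agent.H63.Ic

open Cfsg.Lie Cfsg.Agent.H23

/-- LOWN: `P_J ≤ N(Q k)` for `k ≥ 1`. -/
theorem lowN : Cfsg.Agent.H23.Ic.StLowN :=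
  lowN_of Cfsg.Agent.H23.Ic.hS (fun r s hr hs h1 h2 => commAll_E8 r s hr hs h1 h2) chfOK_E8

end Cfsg.Agent.H63.Ic

example : Cfsg.Agent.H23.Ic.StLowN := Cfsg.Agent.H63.Ic.lowN
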