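import Mathlib

set_option autoImplicit false

namespace Cfsg.Agent.H63.KSubsets

/-- A finset mapped into itself by a permutation is invariant. -/
theorem image_eq_of_maps {α : Type*} [DecidableEq α] (σ : Equiv.Perm α) (s : Finset α)
    (h : ∀ x ∈ s, σ x ∈ s) : s.image σ = s := by
  apply Finset.eq_of_subset_of_card_le
  · intro y hy
    obtain ⟨x, hx, rfl⟩ := Finset.mem_image.mp hy
    exact h x hx
  · rw [Finset.card_image_of_injective _ σ.injective]

theorem necessity (n k r : ℕ) (hr : r.Prime) (hrn : r ≤ n)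
    (H : ∀ σ : Equiv.Perm (Fin n), orderOf σ = r →
      ∃ s : Finset (Fin n), s.card = k ∧ s.image σ = s) :
    k % r ≤ n % r := by
  classical
  have : Fact r.Prime := ⟨hr⟩
  have hex : ∃ g : Equiv.Perm (Fin n), g.cycleType = Multiset.replicate (n / r) r := by
    rw [Equiv.Perm.exists_with_cycleType_iff]
    refine ⟨?_, ?_⟩
    · rw [Multiset.sum_replicate, smul_eq_mul, Fintype.card_fin]
      exact Nat.div_mul_le_self n r
    · intro a ha
      rw [Multiset.eq_of_mem_replicate ha]
      exact hr.two_le
  obtain ⟨σ, hσ⟩ := hex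
  have hpos : 0 < n / r := Nat.div_pos hrn hr.pos
  have hord : orderOf σ = r := by
    have h1 : orderOf σ ∣ r := by
      rw [← Equiv.Perm.lcm_cycleType, hσ]
      apply Multiset.lcm_dvd.mpr
      intro b hb
      rw [Multiset.eq_of_mem_replicate hb]
    have h2 : orderOf σ ≠ 1 := by
      intro h
      rw [orderOf_eq_one_iff] at h
      rw [h, Equiv.Perm.cycleType_one] at hσ
      have := congrArg Multiset.card hσ
      rw [Multiset.card_replicate, Multiset.card_zero] at this
      omega
    exact ((Nat.dvd_prime hr).mp h1).resolve_left h2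
  obtain ⟨s, hsk, hs⟩ := H σ hord
  have hinv : ∀ x, σ x ∈ s ↔ x ∈ s := by
    intro x
    constructor
    · intro hx
      rw [← hs] at hx
      obtain ⟨y, hy, hyx⟩ := Finset.mem_image.mp hx
      rwa [← σ.injective hyx]
    · intro hx
      rw [← hs]
      exact Finset.mem_image_of_mem _ hx
  set τ : Equiv.Perm {x // x ∈ s} := σ.subtypePerm hinv with hτ
  have hτr : τ ^ r ^ 1 = 1 := by
    rw [pow_one, hτ, Equiv.Perm.subtypePerm_pow]
    ext x
    have : σ ^ r = 1 := by rw [← hord]; exact pow_orderOf_eq_one σ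
    simp [this]
  have hmod := Equiv.Perm.card_compl_support_modEq hτr
  rw [Fintype.card_coe, hsk] at hmod
  have hle : τ.supportᶜ.card ≤ σ.supportᶜ.card := by
    apply Finset.card_le_card_of_injOn Subtype.val
    · intro a ha
      simp only [Finset.mem_coe, Finset.mem_compl, Equiv.Perm.mem_support, not_not] at ha ⊢
      have := congrArg Subtype.val ha
      simpa [hτ] using this
    · exact Subtype.val_injective.injOn
  have hsupp : σ.supportᶜ.card = n % r := by
    rw [Finset.card_compl, Fintype.card_fin, ← Equiv.Perm.sum_cycleType, hσ,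
      Multiset.sum_replicate, smul_eq_mul]
    have := Nat.div_add_mod n r
    have h2 : n / r * r = r * (n / r) := Nat.mul_comm _ _
    omega
  have hlt : n % r < r := Nat.mod_lt _ hr.pos
  have : k % r = τ.supportᶜ.card := by
    have h := hmod
    unfold Nat.ModEq at h
    rw [← h, Nat.mod_eq_of_lt (by omega)]
  omega

theorem sufficiency (n k r : ℕ) (hr : r.Prime) (hkn : k ≤ n) (hmod : k % r ≤ n % r)
    (σ : Equiv.Perm (Fin n)) (hσ : orderOf σ = r) :
    ∃ s : Finset (Fin n), s.card = k ∧ s.image σ = s := by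
  classical
  obtain ⟨j, hj⟩ := Equiv.Perm.cycleType_prime_order (σ := σ) (by rw [hσ]; exact hr)
  rw [hσ] at hj
  have hsupp : σ.support.card = (j + 1) * r := by
    rw [← Equiv.Perm.sum_cycleType, hj, Multiset.sum_replicate, smul_eq_mul]
  have hsuppn : (j + 1) * r ≤ n := by
    rw [← hsupp]
    simpa using Finset.card_le_univ σ.support
  have hcompl : σ.supportᶜ.card = n - (j + 1) * r := by
    rw [Finset.card_compl, Fintype.card_fin, hsupp]
  have hcf : σ.cycleFactorsFinset.card = j + 1 := by
    have := congrArg Multiset.card hj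
    rw [Equiv.Perm.cycleType_def, Multiset.card_map, Multiset.card_replicate] at this
    exact this
  have hcyc : ∀ c ∈ σ.cycleFactorsFinset, c.support.card = r := by
    intro c hc
    have : (Finset.card ∘ Equiv.Perm.support) c ∈ σ.cycleType := by
      rw [Equiv.Perm.cycleType_def]
      exact Multiset.mem_map_of_mem _ hc
    rw [hj] at this
    exact Multiset.eq_of_mem_replicate this
  set i := min (k / r) (j + 1) with hi
  have hi1 : i ≤ j + 1 := min_le_right _ _
  have hi2 : i ≤ k / r := min_le_left _ _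
  have hik : i * r ≤ k := by
    calc i * r ≤ (k / r) * r := Nat.mul_le_mul_right r hi2
      _ ≤ k := Nat.div_mul_le_self k r
  have hf : k - i * r ≤ n - (j + 1) * r := by
    rcases le_total (k / r) (j + 1) with h | h
    · have : i = k / r := min_eq_left h
      rw [this]
      have h1 := Nat.div_add_mod k r
      have h2 := Nat.div_add_mod n r
      have h3 : (j + 1) ≤ n / r := (Nat.le_div_iff_mul_le hr.pos).mpr hsuppn
      have h4 : (j + 1) * r ≤ (n / r) * r := Nat.mul_le_mul_right r h3
      have h5 : k / r * r = r * (k / r) := Nat.mul_comm _ _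
      have h6 : n / r * r = r * (n / r) := Nat.mul_comm _ _
      omega
    · have : i = j + 1 := min_eq_right h
      rw [this]
      omega
  obtain ⟨C, hC, hCcard⟩ := Finset.exists_subset_card_eq (s := σ.cycleFactorsFinset) (n := i)
    (by rw [hcf]; exact hi1)
  obtain ⟨F, hF, hFcard⟩ := Finset.exists_subset_card_eq (s := σ.supportᶜ) (n := k - i * r)
    (by rw [hcompl]; exact hf)
  set T := C.biUnion Equiv.Perm.support with hT
  have hTcard : T.card = i * r := by
    rw [hT, Finset.card_biUnion]
    · rw [Finset.sum_congr rfl (fun c hc => hcyc c (hC hc)), Finset.sum_const, smul_eq_mul,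
        hCcard]
    · intro c hc d hd hcd
      exact (Equiv.Perm.cycleFactorsFinset_pairwise_disjoint σ (hC hc) (hC hd)
        hcd).disjoint_support
  have hTsupp : T ⊆ σ.support := by
    intro x hx
    obtain ⟨c, hc, hxc⟩ := Finset.mem_biUnion.mp hx
    exact Equiv.Perm.mem_cycleFactorsFinset_support_le (hC hc) hxc
  have hTinv : ∀ x ∈ T, σ x ∈ T := by
    intro x hx
    obtain ⟨c, hc, hxc⟩ := Finset.mem_biUnion.mp hx
    have h1 := (Equiv.Perm.mem_cycleFactorsFinset_iff.mp (hC hc)).2 x hxc
    rw [← h1]
    exact Finset.mem_biUnion.mpr ⟨c, hc, Equiv.Perm.apply_mem_support.mpr hxc⟩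
  have hFinv : ∀ x ∈ F, σ x ∈ F := by
    intro x hx
    have := hF hx
    rw [Finset.mem_compl, Equiv.Perm.notMem_support] at this
    rw [this]; exact hx
  have hdisj : Disjoint T F := by
    rw [Finset.disjoint_left]
    intro x hxT hxF
    have := hF hxF
    rw [Finset.mem_compl] at this
    exact this (hTsupp hxT)
  refine ⟨T ∪ F, ?_, ?_⟩
  · rw [Finset.card_union_of_disjoint hdisj, hTcard, hFcard]
    omega
  · apply image_eq_of_maps
    intro x hx
    rcases Finset.mem_union.mp hx with h | h
    · exact Finset.mem_union_left _ (hTinv x h)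
    · exact Finset.mem_union_right _ (hFinv x h)

theorem le_of_dvd_choose (n k r : ℕ) (hr : r.Prime) (hrd : r ∣ Nat.choose n k)
    (hmod : k % r ≤ n % r) : r ≤ k := by
  by_contra hlt
  push Not at hlt
  have : Fact r.Prime := ⟨hr⟩
  have h1 := Choose.choose_modEq_choose_mod_mul_choose_div_nat (p := r) (n := n) (k := k)
  rw [Nat.mod_eq_of_lt hlt, Nat.div_eq_of_lt hlt, Nat.choose_zero_right, mul_one] at h1
  have h2 : r ∣ Nat.choose (n % r) k :=
    (Nat.modEq_zero_iff_dvd.mp (h1.symm.trans (Nat.modEq_zero_iff_dvd.mpr hrd)))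
  rw [Nat.mod_eq_of_lt hlt] at hmod
  have h3 : r ∣ (n % r).factorial := by
    rw [← Nat.choose_mul_factorial_mul_factorial hmod]
    exact Dvd.dvd.mul_right (Dvd.dvd.mul_right h2 _) _
  have h4 := (Nat.Prime.dvd_factorial hr).mp h3
  have := Nat.mod_lt n hr.pos
  omega

theorem le_of_dvd_choose' (n k r : ℕ) (hr : r.Prime) (hkn : k ≤ n) (hrd : r ∣ Nat.choose n k) :
    r ≤ n := by
  have h3 : r ∣ n.factorial := by
    rw [← Nat.choose_mul_factorial_mul_factorial hkn]
    exact Dvd.dvd.mul_right (Dvd.dvd.mul_right hrd _) _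
  exact (Nat.Prime.dvd_factorial hr).mp h3

end Cfsg.Agent.H63.KSubsets
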