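import Mathlib

set_option autoImplicit false

namespace Cfsg.Agent.H63

open Module in
/-- Two finite families of vectors satisfying the same linear relations are related by a linear
automorphism. -/
theorem exists_linearEquiv_of_same_relations {K V : Type*} [Field K] [AddCommGroup V] [Module K V]
    [FiniteDimensional K V] {ι : Type*} [Fintype ι] (u v : ι → V)
    (h : ∀ c : ι → K, ∑ i, c i • u i = 0 ↔ ∑ i, c i • v i = 0) :
    ∃ A : V ≃ₗ[K] V, ∀ i, A (u i) = v i := by
  classical
  set Lu := Fintype.linearCombination K u with hLu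
  set Lv := Fintype.linearCombination K v with hLv
  have hker : LinearMap.ker Lu = LinearMap.ker Lv := by
    ext c
    simp only [LinearMap.mem_ker, hLu, hLv, Fintype.linearCombination_apply]
    exact h c
  let e : LinearMap.range Lu ≃ₗ[K] LinearMap.range Lv :=
    (Lu.quotKerEquivRange).symm ≪≫ₗ (Submodule.quotEquivOfEq _ _ hker) ≪≫ₗ Lv.quotKerEquivRange
  obtain ⟨g, hg⟩ := Submodule.exists_linearEquiv_restrict_eq e
  refine ⟨g, fun i => ?_⟩
  have hu : u i = Lu (Pi.single i 1) := by
    simp [hLu, Fintype.linearCombination_apply_single]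
  have hv : v i = Lv (Pi.single i 1) := by
    simp [hLv, Fintype.linearCombination_apply_single]
  have := hg ⟨Lu (Pi.single i 1), LinearMap.mem_range_self _ _⟩
  rw [hu, hv]
  rw [← this]
  simp only [e, LinearEquiv.trans_apply]
  rw [LinearMap.quotKerEquivRange_symm_apply_image]
  simp

end Cfsg.Agent.H63
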