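import Mathlib
import Cfsg.Agent.H7.PsDefs

/-!
# PS-TW13 (helper63, for helper7's S3664 project)

Over a field with 8 elements: if `g ∈ Mat₄` has `g ^ 13 = 1` and fixes no non-zero vector, then
the only `X` with `g X = X g⁽²⁾` is `0`.
-/

set_option autoImplicit false

namespace Cfsg.Agent.H63.Ps

open Cfsg.Agent.H7.Ps

/-- A non-zero `g`-invariant additive subgroup of `F⁴` (`|F| = 8`) is everything, when `g` has
order dividing 13 and no non-zero fixed vector. -/
theorem inv_sub_top {F : Type} [Field F] [Fintype F] (hF : Fintype.card F = 8)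
    (g : Matrix (Fin 4) (Fin 4) F) (hg : g ^ 13 = 1)
    (hfix : ∀ v : Fin 4 → F, g.mulVec v = v → v = 0)
    (W : AddSubgroup (Fin 4 → F)) (hW : ∀ w ∈ W, g.mulVec w ∈ W) (hne : W ≠ ⊥) : W = ⊤ := by
  classical
  haveI : Fact (Nat.Prime 13) := ⟨by norm_num⟩
  let f : Function.End W := fun w => ⟨g.mulVec w.1, hW w.1 w.2⟩
  have hfpow : ∀ (k : ℕ) (w : W), ((f ^ k) w : Fin 4 → F) = (g ^ k).mulVec w.1 := by
    intro k
    induction k with
    | zero =>
      intro w
      rw [pow_zero, pow_zero, Matrix.one_mulVec]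
      rfl
    | succ k ih =>
      intro w
      rw [pow_succ', pow_succ', ← Matrix.mulVec_mulVec, ← ih]
      rfl
  have hf13 : f ^ 13 ^ 1 = 1 := by
    rw [pow_one]
    funext w
    apply Subtype.ext
    rw [hfpow, hg, Matrix.one_mulVec]
    rfl
  have hmod := Equiv.Perm.card_fixedPoints_modEq (f := f) (p := 13) (n := 1) hf13
  rw [← Nat.card_eq_fintype_card, ← Nat.card_eq_fintype_card] at hmod
  have hfp : Nat.card (Function.fixedPoints f) = 1 := by
    rw [Nat.card_eq_one_iff_unique]
    refine ⟨⟨?_⟩, ⟨⟨0, ?_⟩⟩⟩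
    · rintro ⟨w, hw⟩ ⟨w', hw'⟩
      apply Subtype.ext
      apply Subtype.ext
      have h1 : g.mulVec w.1 = w.1 := congrArg Subtype.val hw
      have h2 : g.mulVec w'.1 = w'.1 := congrArg Subtype.val hw'
      rw [hfix _ h1, hfix _ h2]
    · show f 0 = 0
      apply Subtype.ext
      show g.mulVec (0 : Fin 4 → F) = 0
      exact Matrix.mulVec_zero g
  rw [hfp] at hmod
  have hcardV : Nat.card (Fin 4 → F) = 2 ^ 12 := by
    rw [Nat.card_fun, Nat.card_eq_fintype_card, Nat.card_eq_fintype_card, hF, Fintype.card_fin]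
    norm_num
  have hdvd : Nat.card W ∣ 2 ^ 12 := by
    rw [← hcardV]
    exact AddSubgroup.card_addSubgroup_dvd_card W
  obtain ⟨e, he, hWe⟩ := (Nat.dvd_prime_pow Nat.prime_two).mp hdvd
  rw [hWe] at hmod
  have he12 : e = 12 := by
    have he0 : e ≠ 0 := by
      rintro rfl
      apply hne
      rw [pow_zero] at hWe
      exact AddSubgroup.eq_bot_of_card_eq W hWe
    unfold Nat.ModEq at hmod
    interval_cases e <;> first | rfl | (exfalso; revert hmod; decide) | exact absurd rfl he0
  apply AddSubgroup.eq_top_of_card_eq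
  rw [hWe, he12, hcardV]

theorem tw13 : StTw13 := by
  intro F _ _ hF g hg hfix X hX
  classical
  have h2 : (2 : F) = 0 := by
    have h8 : ((Fintype.card F : ℕ) : F) = 0 := Nat.cast_card_eq_zero F
    rw [hF] at h8
    have h3 : (2 : F) ^ 3 = 0 := by
      have h4 : ((8 : ℕ) : F) = (2 : F) ^ 3 := by norm_num
      rw [← h4]
      exact h8
    exact pow_eq_zero_iff (by norm_num) |>.mp h3
  haveI : CharP F 2 := CharTwo.of_one_ne_zero_of_two_eq_zero one_ne_zero h2
  have hsqadd : ∀ a b : F, (a + b) ^ 2 = a ^ 2 + b ^ 2 := CharTwo.add_sq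
  have hsqinj : Function.Injective (fun a : F => a ^ 2) := by
    intro a b hab
    have hab' : a ^ 2 = b ^ 2 := hab
    have h3 : (a + b) ^ 2 = 0 := by
      rw [hsqadd, hab']
      exact CharTwo.add_self_eq_zero _
    have h0 : a + b = 0 := pow_eq_zero_iff (by norm_num) |>.mp h3
    have h4 : a = -b := eq_neg_of_add_eq_zero_left h0
    rw [h4, CharTwo.neg_eq]
  have hsqsurj : Function.Surjective (fun a : F => a ^ 2) :=
    Finite.surjective_of_injective hsqinj
  have hsqsum : ∀ (s : Finset (Fin 4)) (f : Fin 4 → F),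
      (∑ j ∈ s, f j) ^ 2 = ∑ j ∈ s, (f j) ^ 2 := by
    intro s f
    induction s using Finset.induction_on with
    | empty => simp
    | insert a s ha ih => rw [Finset.sum_insert ha, Finset.sum_insert ha, hsqadd, ih]
  let G : AddMonoid.End (Fin 4 → F) := (Matrix.mulVecLin g).toAddMonoidHom
  have hG : ∀ v : Fin 4 → F, G v = g.mulVec v := fun v => rfl
  let Θ : AddMonoid.End (Fin 4 → F) :=
    AddMonoidHom.mk' (fun v => X.mulVec (fun i => v i ^ 2)) (by
      intro v w
      have h3 : (fun i => (v + w) i ^ 2) = (fun i => v i ^ 2) + (fun i => w i ^ 2) := by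
        funext i
        exact hsqadd (v i) (w i)
      rw [h3, Matrix.mulVec_add])
  have hΘ : ∀ v : Fin 4 → F, Θ v = X.mulVec (fun i => v i ^ 2) := fun v => rfl
  let μ : F → AddMonoid.End (Fin 4 → F) :=
    fun c => AddMonoidHom.mk' (fun v => c • v) (fun v w => smul_add c v w)
  have hμ : ∀ (c : F) (v : Fin 4 → F), μ c v = c • v := fun c v => rfl
  have hGΘ : G * Θ = Θ * G := by
    apply AddMonoidHom.ext
    intro v
    show G (Θ v) = Θ (G v)
    rw [hG, hΘ, hΘ, hG, Matrix.mulVec_mulVec, hX, ← Matrix.mulVec_mulVec]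
    congr 1
    funext i
    show ∑ j, g.map (fun a => a ^ 2) i j * v j ^ 2 = (∑ j, g i j * v j) ^ 2
    rw [hsqsum]
    refine Finset.sum_congr rfl fun j _ => ?_
    rw [Matrix.map_apply, mul_pow]
  have hGμ : ∀ c, G * μ c = μ c * G := by
    intro c
    apply AddMonoidHom.ext
    intro v
    show G (μ c v) = μ c (G v)
    rw [hG, hμ, hμ, hG, Matrix.mulVec_smul]
  have hΘμ : ∀ c, Θ * μ c = μ (c ^ 2) * Θ := by
    intro c
    apply AddMonoidHom.ext
    intro v
    show Θ (μ c v) = μ (c ^ 2) (Θ v)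
    rw [hμ, hΘ, hμ, hΘ, ← Matrix.mulVec_smul]
    congr 1
    funext i
    show (c * v i) ^ 2 = c ^ 2 * v i ^ 2
    rw [mul_pow]
  let D : Subring (AddMonoid.End (Fin 4 → F)) := Subring.centralizer {G}
  have hmemD : ∀ T : AddMonoid.End (Fin 4 → F), T ∈ D ↔ G * T = T * G := by
    intro T
    show T ∈ Subring.centralizer {G} ↔ _
    rw [Subring.mem_centralizer_iff]
    simp
  have hinjD' : ∀ T : (Fin 4 → F) →+ (Fin 4 → F), (∀ w, T (g.mulVec w) = g.mulVec (T w)) →
      T ≠ 0 → Function.Injective T := by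
    intro T hT hT0
    have hker : T.ker = ⊥ := by
      by_contra hne
      have htop := inv_sub_top hF g hg hfix T.ker (by
        intro w hw
        rw [AddMonoidHom.mem_ker] at hw ⊢
        rw [hT, hw, Matrix.mulVec_zero]) hne
      apply hT0
      apply AddMonoidHom.ext
      intro v
      have h3 : v ∈ T.ker := by
        rw [htop]
        trivial
      exact AddMonoidHom.mem_ker.mp h3
    exact (AddMonoidHom.ker_eq_bot_iff T).mp hker
  have hinjD : ∀ T : AddMonoid.End (Fin 4 → F), G * T = T * G → T ≠ 0 →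
      Function.Injective T := by
    intro T hT hT0
    refine hinjD' T ?_ hT0
    intro w
    have h4 := congrArg (fun S : AddMonoid.End (Fin 4 → F) => S w) hT
    exact h4.symm
  haveI : Finite (AddMonoid.End (Fin 4 → F)) :=
    Finite.of_injective (fun T : AddMonoid.End (Fin 4 → F) => (T : (Fin 4 → F) → (Fin 4 → F)))
      DFunLike.coe_injective
  haveI : Finite D := Finite.of_injective (fun T : D => (T : AddMonoid.End (Fin 4 → F)))
    Subtype.val_injective
  haveI : Nontrivial D := by
    refine ⟨⟨0, 1, ?_⟩⟩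
    intro h
    have h3 := congrArg (fun S : D => (S : AddMonoid.End (Fin 4 → F)) (fun _ => (1 : F))) h
    have h4 : (0 : Fin 4 → F) = fun _ => (1 : F) := h3
    have h5 := congrFun h4 0
    exact zero_ne_one h5
  haveI : NoZeroDivisors D := ⟨by
    rintro ⟨A, hA⟩ ⟨B, hB⟩ hAB
    by_contra hcon
    rw [not_or] at hcon
    have hA0 : A ≠ 0 := fun h => hcon.1 (Subtype.ext h)
    have hB0 : B ≠ 0 := fun h => hcon.2 (Subtype.ext h)
    have hBinj := hinjD B ((hmemD B).mp hB) hB0
    have hBsurj : Function.Surjective B := Finite.surjective_of_injective hBinj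
    apply hA0
    apply AddMonoidHom.ext
    intro v
    obtain ⟨w, rfl⟩ := hBsurj v
    have h3 := congrArg (fun S : D => (S : AddMonoid.End (Fin 4 → F)) w) hAB
    exact h3⟩
  haveI : IsDomain D := NoZeroDivisors.to_isDomain D
  have hfield := Finite.isDomain_to_isField D
  have hcomm : ∀ c, Θ * μ c = μ c * Θ := by
    intro c
    have h3 := hfield.mul_comm (⟨Θ, (hmemD Θ).mpr hGΘ⟩ : D) ⟨μ c, (hmemD _).mpr (hGμ c)⟩
    exact congrArg Subtype.val h3
  obtain ⟨c, hc0, hc1⟩ : ∃ c : F, c ≠ 0 ∧ c ≠ 1 := by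
    by_contra hcon
    have hsub : (Finset.univ : Finset F) ⊆ {0, 1} := by
      intro c _
      by_cases h : c = 0
      · simp [h]
      · by_cases h' : c = 1
        · simp [h']
        · exact absurd ⟨c, h, h'⟩ hcon
    have h3 := Finset.card_le_card hsub
    rw [Finset.card_univ, hF] at h3
    have h4 : ({0, 1} : Finset F).card ≤ 2 := Finset.card_le_two
    omega
  have hΘ0 : ∀ v : Fin 4 → F, Θ v = 0 := by
    intro v
    have h1 : μ (c ^ 2) (Θ v) = μ c (Θ v) := by
      have h3 := congrArg (fun S : AddMonoid.End (Fin 4 → F) => S v)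
        ((hΘμ c).symm.trans (hcomm c))
      exact h3
    rw [hμ, hμ] at h1
    have h3 : (c ^ 2 - c) • Θ v = 0 := by rw [sub_smul, h1, sub_self]
    have h4 : c ^ 2 - c ≠ 0 := by
      intro h
      have h5 : c * (c - 1) = 0 := by
        rw [← h]
        ring
      rcases mul_eq_zero.mp h5 with h6 | h6
      · exact hc0 h6
      · exact hc1 (sub_eq_zero.mp h6)
    exact (smul_eq_zero.mp h3).resolve_left h4
  ext i j
  obtain ⟨v, hv⟩ : ∃ v : Fin 4 → F, (fun k => v k ^ 2) = Pi.single j 1 := by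
    choose s hs using hsqsurj
    exact ⟨fun k => s ((Pi.single j 1 : Fin 4 → F) k), funext fun k => hs _⟩
  have h1 := hΘ0 v
  rw [hΘ, hv, Matrix.mulVec_single_one] at h1
  have h3 := congrFun h1 i
  simpa using h3

example : Cfsg.Agent.H7.Ps.StTw13 := tw13

end Cfsg.Agent.H63.Ps
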