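import Mathlib

set_option autoImplicit false

namespace Cfsg.Agent.H63

open MulAction

theorem card_mul_relIndex_of_le {Γ : Type*} [Group Γ] {X Y : Subgroup Γ} (h : X ≤ Y) :
    Nat.card X * X.relIndex Y = Nat.card Y := by
  have := Subgroup.relIndex_mul_relIndex ⊥ X Y bot_le h
  rwa [Subgroup.relIndex_bot_left, Subgroup.relIndex_bot_left] at this

/-- Second isomorphism theorem, index form with the non-normal subgroup in the denominator. -/
theorem relIndex_sup_of_le_normalizer {Γ : Type*} [Group Γ] [Finite Γ] (H N : Subgroup Γ)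
    (hLE : H ≤ Subgroup.normalizer (N : Set Γ)) : H.relIndex (H ⊔ N) = H.relIndex N := by
  have h5 : N.relIndex (H ⊔ N) = N.relIndex H := by
    have := Subgroup.normal_subgroupOf_of_le_normalizer hLE
    have := Subgroup.normal_subgroupOf_sup_of_le_normalizer hLE
    exact (Nat.card_congr (QuotientGroup.quotientInfEquivProdNormalizerQuotient H N hLE).toEquiv).symm
  have h1 := card_mul_relIndex_of_le (le_sup_right : N ≤ H ⊔ N)
  have h2 := card_mul_relIndex_of_le (le_sup_left : H ≤ H ⊔ N)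
  have h3 := card_mul_relIndex_of_le (inf_le_left : H ⊓ N ≤ H)
  have h4 := card_mul_relIndex_of_le (inf_le_right : H ⊓ N ≤ N)
  rw [Subgroup.inf_relIndex_left] at h3
  rw [Subgroup.inf_relIndex_right] at h4
  rw [h5] at h1
  have hpos : 0 < Nat.card (H ⊓ N : Subgroup Γ) * N.relIndex H := by
    rw [h3]; exact Nat.card_pos
  have : Nat.card (H ⊓ N : Subgroup Γ) * N.relIndex H * H.relIndex (H ⊔ N) =
      Nat.card (H ⊓ N : Subgroup Γ) * N.relIndex H * H.relIndex N := by
    calc Nat.card (H ⊓ N : Subgroup Γ) * N.relIndex H * H.relIndex (H ⊔ N)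
        = Nat.card H * H.relIndex (H ⊔ N) := by rw [h3]
      _ = Nat.card N * N.relIndex H := by rw [h2, h1]
      _ = (Nat.card (H ⊓ N : Subgroup Γ) * H.relIndex N) * N.relIndex H := by rw [h4]
      _ = Nat.card (H ⊓ N : Subgroup Γ) * N.relIndex H * H.relIndex N := by ring
  exact Nat.eq_of_mul_eq_mul_left hpos this

theorem ncard_orbit_subgroup_eq_relIndex {Γ Ω : Type*} [Group Γ] [MulAction Γ Ω] (S : Subgroup Γ) (ω : Ω) :
    ({u : Ω | ∃ h ∈ S, h • ω = u} : Set Ω).ncard = (stabilizer Γ ω).relIndex S := by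
  have key : (stabilizer Γ ω).subgroupOf S = stabilizer S ω := by ext; rfl
  have horb : {u : Ω | ∃ h ∈ S, h • ω = u} = orbit S ω := by
    ext u
    constructor
    · rintro ⟨h, hh, rfl⟩
      exact ⟨⟨h, hh⟩, rfl⟩
    · rintro ⟨h, rfl⟩
      exact ⟨h.1, h.2, rfl⟩
  rw [horb, Subgroup.relIndex, key, index_stabilizer]

end Cfsg.Agent.H63
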