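import Mathlib
import Cfsg.Agent.H17.TgDefs

/-!
# TG-E16 (helper63, for helper17's project S1904): no group of order 16 has centre of order 2 and
all squares central
-/

set_option autoImplicit false

universe u

namespace Cfsg.Agent.H63.Tg

open Cfsg.Agent.H17.Tg

theorem e16 : StE16.{u} := by
  classical
  intro X _ _ hZ2 hsq hX
  -- the centre is `{1, z}`
  obtain ⟨z, hzZ, hz1, hzall⟩ : ∃ z ∈ Subgroup.center X, z ≠ 1 ∧
      ∀ c ∈ Subgroup.center X, c = 1 ∨ c = z := by
    obtain ⟨y, hy, hyu⟩ := (Nat.card_eq_two_iff' (1 : Subgroup.center X)).mp hZ2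
    refine ⟨y.1, y.2, fun h => hy (Subtype.ext h), fun c hc => ?_⟩
    by_cases hc1 : c = 1
    · exact Or.inl hc1
    · right
      have h1 := hyu ⟨c, hc⟩ (fun h => hc1 (congrArg Subtype.val h))
      exact congrArg Subtype.val h1
  have hcen : ∀ c ∈ Subgroup.center X, ∀ g : X, g * c = c * g :=
    fun c hc => Subgroup.mem_center_iff.mp hc
  have hzz : z * z = 1 := by
    rcases hzall (z * z) (Subgroup.mul_mem _ hzZ hzZ) with h | h
    · exact h
    · exfalso
      apply hz1
      exact mul_left_cancel (a := z) (by rw [h, mul_one])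
  -- commutators are central
  have hcm : ∀ a b : X, a * b * a⁻¹ * b⁻¹ ∈ Subgroup.center X := by
    intro a b
    have h1 : a * b * a⁻¹ * b⁻¹ = a ^ 2 * (a⁻¹ * b) ^ 2 * (b ^ 2)⁻¹ := by
      rw [pow_two, pow_two, pow_two]
      group
    rw [h1]
    exact mul_mem (mul_mem (hsq a) (hsq _)) (inv_mem (hsq b))
  have hswap : ∀ a g : X, a * g ≠ g * a → a * g = z * (g * a) := by
    intro a g hne
    rcases hzall _ (hcm a g) with h | h
    · exfalso
      apply hne
      calc a * g = (a * g * a⁻¹ * g⁻¹) * (g * a) := by group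
        _ = g * a := by rw [h, one_mul]
    · calc a * g = (a * g * a⁻¹ * g⁻¹) * (g * a) := by group
        _ = z * (g * a) := by rw [h]
  have hmemC : ∀ x g : X, g ∈ Subgroup.centralizer ({x} : Set X) ↔ x * g = g * x := by
    intro x g
    rw [Subgroup.mem_centralizer_singleton_iff]
    exact eq_comm
  have hnc : ∀ x : X, x ∉ Subgroup.center X → ∃ a : X, x * a ≠ a * x := by
    intro x hx
    by_contra h
    push Not at h
    exact hx (Subgroup.mem_center_iff.mpr (fun g => (h g).symm))
  -- centralizers of non-central elements have index 2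
  have hidx : ∀ x : X, x ∉ Subgroup.center X →
      (Subgroup.centralizer ({x} : Set X)).index = 2 := by
    intro x hx
    rw [Subgroup.index_eq_two_iff]
    obtain ⟨a, ha⟩ := hnc x hx
    refine ⟨a, fun b => ?_⟩
    by_cases hb : x * b = b * x
    · right
      refine ⟨(hmemC x b).mpr hb, fun hba => ?_⟩
      have hba' := (hmemC x (b * a)).mp hba
      have h1 : b * (x * a) = b * (a * x) := by
        calc b * (x * a) = (b * x) * a := by group
          _ = (x * b) * a := by rw [hb]
          _ = x * (b * a) := by group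
          _ = (b * a) * x := hba'
          _ = b * (a * x) := by group
      exact ha (mul_left_cancel h1)
    · left
      refine ⟨(hmemC x (b * a)).mpr ?_, fun hb' => hb ((hmemC x b).mp hb')⟩
      have s1 := hswap x b hb
      have s2 := hswap x a ha
      calc x * (b * a) = (x * b) * a := by group
        _ = (z * (b * x)) * a := by rw [s1]
        _ = z * b * (x * a) := by group
        _ = z * b * (z * (a * x)) := by rw [s2]
        _ = z * (b * z) * (a * x) := by group
        _ = z * (z * b) * (a * x) := by rw [hcen z hzZ b]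
        _ = (z * z) * (b * a * x) := by group
        _ = b * a * x := by rw [hzz, one_mul]
  have hcard8 : ∀ x : X, x ∉ Subgroup.center X →
      Nat.card (Subgroup.centralizer ({x} : Set X)) = 8 := by
    intro x hx
    have h := Subgroup.card_mul_index (Subgroup.centralizer ({x} : Set X))
    rw [hidx x hx, hX] at h
    omega
  -- a non-central element `x1`
  obtain ⟨x1, hx1⟩ : ∃ x1 : X, x1 ∉ Subgroup.center X := by
    by_contra h
    push Not at h
    have h1 : Subgroup.center X = ⊤ := eq_top_iff.mpr (fun g _ => h g)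
    rw [h1, Subgroup.card_top] at hZ2
    omega
  -- `x2` in the centralizer of `x1`, independent of `x1` modulo the centre
  have hT : ({g : X | g ∈ Subgroup.center X ∨ x1 * g ∈ Subgroup.center X}).ncard ≤ 4 := by
    have hsub : {g : X | g ∈ Subgroup.center X ∨ x1 * g ∈ Subgroup.center X} ⊆
        (({1, z, x1⁻¹, x1⁻¹ * z} : Finset X) : Set X) := by
      intro g hg
      simp only [Finset.coe_insert, Finset.coe_singleton, Set.mem_insert_iff,
        Set.mem_singleton_iff]
      rcases hg with hg | hg
      · rcases hzall g hg with h | h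
        · left; exact h
        · right; left; exact h
      · rcases hzall _ hg with h | h
        · right; right; left
          exact eq_inv_of_mul_eq_one_right h
        · right; right; right
          rw [← h]
          group
    calc ({g : X | g ∈ Subgroup.center X ∨ x1 * g ∈ Subgroup.center X}).ncard
        ≤ ((({1, z, x1⁻¹, x1⁻¹ * z} : Finset X) : Set X)).ncard :=
          Set.ncard_le_ncard hsub (Finset.finite_toSet _)
      _ = ({1, z, x1⁻¹, x1⁻¹ * z} : Finset X).card := Set.ncard_coe_finset _
      _ ≤ 4 := Finset.card_le_four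
  have hA8 : ((Subgroup.centralizer ({x1} : Set X) : Subgroup X) : Set X).ncard = 8 := by
    rw [← Nat.card_coe_set_eq]
    exact hcard8 x1 hx1
  obtain ⟨x2, hx2A, hx2T⟩ := Set.exists_mem_notMem_of_ncard_lt_ncard
    (s := {g : X | g ∈ Subgroup.center X ∨ x1 * g ∈ Subgroup.center X})
    (t := ((Subgroup.centralizer ({x1} : Set X) : Subgroup X) : Set X))
    (by rw [hA8]; omega) (Set.toFinite _)
  have hx2 : x2 ∉ Subgroup.center X := fun h => hx2T (Or.inl h)
  have hx12 : x1 * x2 ∉ Subgroup.center X := fun h => hx2T (Or.inr h)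
  have hx1x2 : x1 * x2 = x2 * x1 := (hmemC x1 x2).mp hx2A
  -- the three centralizers coincide
  have h1Z : (1 : X) ∈ Subgroup.center X := Subgroup.one_mem _
  have hD5 : 5 ≤ Nat.card (Subgroup.centralizer ({x1} : Set X) ⊓
      Subgroup.centralizer ({x2} : Set X) : Subgroup X) := by
    have hS : ((({1, z, x1, x2, x1 * x2} : Finset X) : Set X)) ⊆
        ((Subgroup.centralizer ({x1} : Set X) ⊓
          Subgroup.centralizer ({x2} : Set X) : Subgroup X) : Set X) := by
      intro g hg
      simp only [Finset.coe_insert, Finset.coe_singleton, Set.mem_insert_iff,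
        Set.mem_singleton_iff] at hg
      rw [SetLike.mem_coe, Subgroup.mem_inf, hmemC, hmemC]
      rcases hg with rfl | rfl | rfl | rfl | rfl
      · simp
      · exact ⟨hcen g hzZ x1, hcen g hzZ x2⟩
      · exact ⟨rfl, hx1x2.symm⟩
      · exact ⟨hx1x2, rfl⟩
      · constructor
        · calc x1 * (x1 * x2) = x1 * (x2 * x1) := by rw [hx1x2]
            _ = (x1 * x2) * x1 := by group
        · calc x2 * (x1 * x2) = (x2 * x1) * x2 := by group
            _ = (x1 * x2) * x2 := by rw [hx1x2]
    have hc5 : ({1, z, x1, x2, x1 * x2} : Finset X).card = 5 := by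
      have n1 : (1 : X) ≠ z := hz1.symm
      have n2 : (1 : X) ≠ x1 := fun h => hx1 (h ▸ h1Z)
      have n3 : (1 : X) ≠ x2 := fun h => hx2 (h ▸ h1Z)
      have n4 : (1 : X) ≠ x1 * x2 := fun h => hx12 (h ▸ h1Z)
      have n5 : z ≠ x1 := fun h => hx1 (h ▸ hzZ)
      have n6 : z ≠ x2 := fun h => hx2 (h ▸ hzZ)
      have n7 : z ≠ x1 * x2 := fun h => hx12 (h ▸ hzZ)
      have n8 : x1 ≠ x2 := fun h => hx12 (by rw [← h, ← pow_two]; exact hsq x1)
      have n9 : x1 ≠ x1 * x2 := fun h => hx2 (by rw [mul_eq_left.mp h.symm]; exact h1Z)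
      have n10 : x2 ≠ x1 * x2 := fun h => hx1 (by rw [mul_eq_right.mp h.symm]; exact h1Z)
      rw [Finset.card_insert_of_notMem, Finset.card_insert_of_notMem,
        Finset.card_insert_of_notMem, Finset.card_insert_of_notMem, Finset.card_singleton]
      · simp [n10]
      · simp [n8, n9]
      · simp [n5, n6, n7]
      · simp [n1, n2, n3, n4]
    calc 5 = ({1, z, x1, x2, x1 * x2} : Finset X).card := hc5.symm
      _ = ((({1, z, x1, x2, x1 * x2} : Finset X) : Set X)).ncard := (Set.ncard_coe_finset _).symm
      _ ≤ ((Subgroup.centralizer ({x1} : Set X) ⊓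
          Subgroup.centralizer ({x2} : Set X) : Subgroup X) : Set X).ncard :=
          Set.ncard_le_ncard hS (Set.toFinite _)
      _ = Nat.card (Subgroup.centralizer ({x1} : Set X) ⊓
          Subgroup.centralizer ({x2} : Set X) : Subgroup X) := by
          rw [← Nat.card_coe_set_eq]; rfl
  have hD8 : Nat.card (Subgroup.centralizer ({x1} : Set X) ⊓
      Subgroup.centralizer ({x2} : Set X) : Subgroup X) = 8 := by
    have hdvd : Nat.card (Subgroup.centralizer ({x1} : Set X) ⊓
        Subgroup.centralizer ({x2} : Set X) : Subgroup X) ∣ 2 ^ 3 := by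
      have h := Subgroup.card_dvd_of_le (inf_le_left :
        Subgroup.centralizer ({x1} : Set X) ⊓ Subgroup.centralizer ({x2} : Set X) ≤
          Subgroup.centralizer ({x1} : Set X))
      rw [hcard8 x1 hx1] at h
      exact h
    obtain ⟨k, hk, hk2⟩ := (Nat.dvd_prime_pow Nat.prime_two).mp hdvd
    rw [hk2] at hD5 ⊢
    interval_cases k <;> omega
  have hDA : Subgroup.centralizer ({x1} : Set X) ⊓ Subgroup.centralizer ({x2} : Set X) =
      Subgroup.centralizer ({x1} : Set X) :=
    Subgroup.eq_of_le_of_card_ge inf_le_left (by rw [hD8, hcard8 x1 hx1])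
  have hDB : Subgroup.centralizer ({x1} : Set X) ⊓ Subgroup.centralizer ({x2} : Set X) =
      Subgroup.centralizer ({x2} : Set X) :=
    Subgroup.eq_of_le_of_card_ge inf_le_right (by rw [hD8, hcard8 x2 hx2])
  -- an element outside the centralizer of `x1`
  obtain ⟨g, hg⟩ := hnc x1 hx1
  have hgB : x2 * g ≠ g * x2 := by
    intro h
    apply hg
    have h1 : g ∈ Subgroup.centralizer ({x2} : Set X) := (hmemC x2 g).mpr h
    rw [← hDB, hDA] at h1
    exact (hmemC x1 g).mp h1
  have s1 := hswap x1 g hg
  have s2 := hswap x2 g hgB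
  have hgC : (x1 * x2) * g = g * (x1 * x2) := by
    calc (x1 * x2) * g = x1 * (x2 * g) := by group
      _ = x1 * (z * (g * x2)) := by rw [s2]
      _ = (x1 * z) * (g * x2) := by group
      _ = (z * x1) * (g * x2) := by rw [hcen z hzZ x1]
      _ = z * ((x1 * g) * x2) := by group
      _ = z * ((z * (g * x1)) * x2) := by rw [s1]
      _ = (z * z) * (g * (x1 * x2)) := by group
      _ = g * (x1 * x2) := by rw [hzz, one_mul]
  -- the centralizer of `x1 * x2` is not contained in that of `x1`, but it contains it
  have hle : Subgroup.centralizer ({x1} : Set X) ≤ Subgroup.centralizer ({x1 * x2} : Set X) := by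
    intro y hy
    rw [← hDA, Subgroup.mem_inf, hmemC, hmemC] at hy
    rw [hmemC]
    calc (x1 * x2) * y = x1 * (x2 * y) := by group
      _ = x1 * (y * x2) := by rw [hy.2]
      _ = (x1 * y) * x2 := by group
      _ = (y * x1) * x2 := by rw [hy.1]
      _ = y * (x1 * x2) := by group
  have hAC : Subgroup.centralizer ({x1} : Set X) = Subgroup.centralizer ({x1 * x2} : Set X) :=
    Subgroup.eq_of_le_of_card_ge hle (by rw [hcard8 x1 hx1, hcard8 (x1 * x2) hx12])
  have h1 : g ∈ Subgroup.centralizer ({x1 * x2} : Set X) := (hmemC (x1 * x2) g).mpr hgC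
  rw [← hAC] at h1
  exact hg ((hmemC x1 g).mp h1)

example : Cfsg.Agent.H17.Tg.StE16.{u} := e16

end Cfsg.Agent.H63.Tg
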