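import Mathlib
import Cfsg.Agent.H17.TgDefs

/-!
# TG-FRAT (helper63, for helper17's project S1904): `X' = Z(X)` and `X / Z(X)` of exponent 2 give
`Φ(X) = Z(X)`
-/

set_option autoImplicit false

universe u

namespace Cfsg.Agent.H63.Tg

open Cfsg.Agent.H17.Tg

theorem comm_central_left {X : Type u} [Group X] (a b z : X) (hz : ∀ g : X, g * z = z * g) :
    (a * z) * b * (a * z)⁻¹ * b⁻¹ = a * b * a⁻¹ * b⁻¹ := by
  have h1 : z * b * z⁻¹ = b := by rw [← hz b, mul_inv_cancel_right]
  calc (a * z) * b * (a * z)⁻¹ * b⁻¹ = a * (z * b * z⁻¹) * a⁻¹ * b⁻¹ := by group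
    _ = a * b * a⁻¹ * b⁻¹ := by rw [h1]

theorem comm_central_right {X : Type u} [Group X] (a b z : X) (hz : ∀ g : X, g * z = z * g) :
    a * (b * z) * a⁻¹ * (b * z)⁻¹ = a * b * a⁻¹ * b⁻¹ := by
  have h1 : z * a⁻¹ * z⁻¹ = a⁻¹ := by rw [← hz a⁻¹, mul_inv_cancel_right]
  calc a * (b * z) * a⁻¹ * (b * z)⁻¹ = a * b * (z * a⁻¹ * z⁻¹) * b⁻¹ := by group
    _ = a * b * a⁻¹ * b⁻¹ := by rw [h1]

theorem frat : StFrat.{u} := by
  intro X _ _ _hp hcomm hsq
  have hcm : ∀ a b : X, a * b * a⁻¹ * b⁻¹ ∈ Subgroup.center X := by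
    intro a b
    rw [← hcomm, commutator_def]
    exact Subgroup.commutator_mem_commutator (Subgroup.mem_top a) (Subgroup.mem_top b)
  apply le_antisymm
  · -- `Φ(X) ≤ Z(X)`
    intro x hx
    by_contra hxZ
    have hfin : ({M : Subgroup X | Subgroup.center X ≤ M ∧ x ∉ M}).Finite := Set.toFinite _
    obtain ⟨M, ⟨hZM, hxM⟩, hmax⟩ := hfin.exists_maximal ⟨Subgroup.center X, le_rfl, hxZ⟩
    have hMn : M.Normal := by
      constructor
      intro m hm g
      have e : g * m * g⁻¹ = (g * m * g⁻¹ * m⁻¹) * m := by group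
      rw [e]
      exact M.mul_mem (hZM (hcm g m)) hm
    have hy : ∀ y : X, y ∉ M → x⁻¹ * y ∈ M := by
      intro y hyM
      have hT : M ≤ (Subgroup.zpowers (y : X ⧸ M)).comap (QuotientGroup.mk' M) := by
        intro m hm
        rw [Subgroup.mem_comap]
        have h1 : (QuotientGroup.mk' M) m = 1 := (QuotientGroup.eq_one_iff m).mpr hm
        rw [h1]
        exact Subgroup.one_mem _
      have hxT : x ∈ (Subgroup.zpowers (y : X ⧸ M)).comap (QuotientGroup.mk' M) := by
        by_contra hxT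
        have h1 := hmax (y := (Subgroup.zpowers (y : X ⧸ M)).comap (QuotientGroup.mk' M))
          ⟨hZM.trans hT, hxT⟩ hT
        apply hyM
        apply h1
        rw [Subgroup.mem_comap]
        exact Subgroup.mem_zpowers _
      rw [Subgroup.mem_comap, Subgroup.mem_zpowers_iff] at hxT
      obtain ⟨k, hk⟩ := hxT
      have hy2 : (y : X ⧸ M) ^ (2 : ℤ) = 1 := by
        rw [zpow_ofNat]
        have h1 : ((y ^ 2 : X) : X ⧸ M) = 1 := (QuotientGroup.eq_one_iff _).mpr (hZM (hsq y))
        exact h1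
      obtain ⟨j, rfl | rfl⟩ := Int.even_or_odd' k
      · exfalso
        rw [zpow_mul, hy2, one_zpow] at hk
        exact hxM ((QuotientGroup.eq_one_iff x).mp hk.symm)
      · rw [zpow_add, zpow_mul, hy2, one_zpow, one_mul, zpow_one] at hk
        exact QuotientGroup.eq.mp hk.symm
    have hco : IsCoatom M := by
      refine ⟨fun h => hxM (h ▸ Subgroup.mem_top x), ?_⟩
      intro K hK
      have hxK : x ∈ K := by
        by_contra hxK
        exact lt_irrefl _ (lt_of_lt_of_le hK (hmax ⟨hZM.trans hK.le, hxK⟩ hK.le))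
      rw [eq_top_iff]
      intro g _
      by_cases hg : g ∈ M
      · exact hK.le hg
      · have h1 := hK.le (hy g hg)
        have e : g = x * (x⁻¹ * g) := by group
        rw [e]
        exact K.mul_mem hxK h1
    exact hxM (frattini_le_coatom hco hx)
  · -- `Z(X) ≤ Φ(X)`
    unfold frattini Order.radical
    apply le_iInf₂
    intro M hM
    by_contra hZM
    have hsup : M ⊔ Subgroup.center X = ⊤ := hM.2 _ (left_lt_sup.mpr hZM)
    have hXM : commutator X ≤ M := by
      rw [commutator_def, Subgroup.commutator_le]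
      intro a _ b _
      have ha : a ∈ ((M ⊔ Subgroup.center X : Subgroup X) : Set X) := by
        rw [hsup]; trivial
      have hb : b ∈ ((M ⊔ Subgroup.center X : Subgroup X) : Set X) := by
        rw [hsup]; trivial
      rw [Subgroup.mul_normal] at ha hb
      obtain ⟨m, hm, z, hz, rfl⟩ := Set.mem_mul.mp ha
      obtain ⟨m', hm', z', hz', rfl⟩ := Set.mem_mul.mp hb
      have hzc : ∀ g : X, g * z = z * g := Subgroup.mem_center_iff.mp hz
      have hzc' : ∀ g : X, g * z' = z' * g := Subgroup.mem_center_iff.mp hz'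
      rw [commutatorElement_def, comm_central_left _ _ _ hzc, comm_central_right _ _ _ hzc']
      exact M.mul_mem (M.mul_mem (M.mul_mem hm hm') (M.inv_mem hm)) (M.inv_mem hm')
    exact hZM (hcomm ▸ hXM)

example : Cfsg.Agent.H17.Tg.StFrat.{u} := frat

end Cfsg.Agent.H63.Tg
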