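import Mathlib
import Cfsg.Agent.H64.TmDefs

/-!
# TM-FIN (helper63, for helper64's S3701 project; twin of TN-FIN)

A normal subgroup `K ≥ T` with `K ∩ H = T` forces `H = G`: Burnside's transfer theorem gives a
normal 3-complement `Q` of `K`, on which a subgroup of order 9 of `T` acts fixed-point-freely, so
`Q = 1` by (FPF), `K = T ⊴ G` and `H = N_G(T) = G`.
-/

set_option autoImplicit false

namespace Cfsg.Agent.H63.Tm

open Subgroup Cfsg.Agent.H64.Tm

universe u

theorem fin (h : Cfsg.Agent.H4.Tn.StFpf.{u}) (hS : StSyl.{u}) : StFin.{u} := by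
  intro G _ _ H T a b c x y cfg K hKn hTK hxK hyK hxyK
  classical
  haveI : Fact (Nat.Prime 3) := ⟨by norm_num⟩
  obtain ⟨S, hSeq⟩ := hS G H T a b c x y cfg
  have hKH : ∀ n ∈ K, n ∈ H → n ∈ T := by
    intro n hnK hnH
    obtain ⟨t, ht, h1 | h1 | h1 | h1⟩ := cfg.Helts n hnH
    · rw [h1]
      exact ht
    · exfalso
      apply hxK
      have h2 : x = t⁻¹ * n := by rw [h1]; group
      rw [h2]
      exact K.mul_mem (K.inv_mem (hTK ht)) hnK
    · exfalso
      apply hyK
      have h2 : y = t⁻¹ * n := by rw [h1]; group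
      rw [h2]
      exact K.mul_mem (K.inv_mem (hTK ht)) hnK
    · exfalso
      apply hxyK
      have h2 : x * y = t⁻¹ * n := by rw [h1]; group
      rw [h2]
      exact K.mul_mem (K.inv_mem (hTK ht)) hnK
  -- `T` is abelian of exponent 3
  have hcab : Commute a b := cfg.ab
  have hcac : Commute a c := cfg.ac
  have hcbc : Commute b c := cfg.bc
  have hgen : ∀ g : G, Commute a g → Commute b g → Commute c g → ∀ t ∈ T, t * g = g * t := by
    intro g ha hb hc t ht
    obtain ⟨i, j, k, rfl⟩ := cfg.Telts t ht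
    exact (((ha.pow_left i).mul_left (hb.pow_left j)).mul_left (hc.pow_left k)).eq
  have hcomm : ∀ s ∈ T, ∀ t ∈ T, s * t = t * s := by
    intro s hs t ht
    obtain ⟨i, j, k, rfl⟩ := cfg.Telts t ht
    have h1 : ∀ g : G, (∀ u ∈ T, u * g = g * u) → ∀ n : ℕ, ∀ u ∈ T, u * g ^ n = g ^ n * u := by
      intro g hg n u hu
      exact (Commute.pow_right (show Commute u g from hg u hu) n).eq
    have ha := h1 a (hgen a (Commute.refl a) hcab.symm hcac.symm) i s hs
    have hb := h1 b (hgen b hcab (Commute.refl b) hcbc.symm) j s hs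
    have hc := h1 c (hgen c hcac hcbc (Commute.refl c)) k s hs
    exact (((show Commute s (a ^ i) from ha).mul_right (show Commute s (b ^ j) from hb)).mul_right
      (show Commute s (c ^ k) from hc)).eq
  have hexp : ∀ t ∈ T, t ^ 3 = 1 := by
    intro t ht
    obtain ⟨i, j, k, rfl⟩ := cfg.Telts t ht
    have hc1 : Commute (a ^ i) (b ^ j) := hcab.pow_pow i j
    have hc2 : Commute (a ^ i * b ^ j) (c ^ k) :=
      (hcac.pow_pow i k).mul_left (hcbc.pow_pow j k)
    rw [hc2.mul_pow, hc1.mul_pow, ← pow_mul, ← pow_mul, ← pow_mul, mul_comm i 3, mul_comm j 3,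
      mul_comm k 3, pow_mul, pow_mul, pow_mul, cfg.a3, cfg.b3, cfg.c3, one_pow, one_pow, one_pow,
      one_mul, one_mul]
  -- a subgroup of order 9 of `T`
  obtain ⟨T₀, hT₀⟩ := Sylow.exists_subgroup_card_pow_prime 3
    (show 3 ^ 2 ∣ Nat.card T by rw [cfg.cardT]; norm_num)
  have hT'card : Nat.card (T₀.map T.subtype) = 9 := by
    rw [Subgroup.card_map_of_injective Subtype.coe_injective, hT₀]
    norm_num
  have hT'T : T₀.map T.subtype ≤ T := by
    rintro _ ⟨t, -, rfl⟩
    exact t.2
  have hSK : (S : Subgroup G) ≤ K := by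
    rw [hSeq]
    exact hTK
  obtain ⟨P, hPdef⟩ : ∃ P : Sylow 3 K, P = S.subtype hSK := ⟨_, rfl⟩
  have hPcoe : (P : Subgroup K) = T.subgroupOf K := by
    rw [hPdef, Sylow.coe_subtype, hSeq]
  have hmemP : ∀ k : K, k ∈ (P : Subgroup K) ↔ (k : G) ∈ T := by
    intro k
    rw [hPcoe, Subgroup.mem_subgroupOf]
  have hP : normalizer ((P : Subgroup K) : Set K) ≤ centralizer ((P : Subgroup K) : Set K) := by
    intro k hk
    have hkN : (k : G) ∈ normalizer (T : Set G) := by
      rw [Subgroup.mem_normalizer_iff]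
      intro g
      constructor
      · intro hg
        have h1 := (Subgroup.mem_normalizer_iff.mp hk ⟨g, hTK hg⟩).mp ((hmemP _).mpr hg)
        exact (hmemP _).mp h1
      · intro hg
        have hgK : g ∈ K := by
          have h2 : g = (k : G)⁻¹ * ((k : G) * g * (k : G)⁻¹) * (k : G) := by group
          rw [h2]
          exact K.mul_mem (K.mul_mem (K.inv_mem k.2) (hTK hg)) k.2
        have h1 := (Subgroup.mem_normalizer_iff.mp hk ⟨g, hgK⟩).mpr ((hmemP _).mpr hg)
        exact (hmemP _).mp h1
    rw [cfg.norm] at hkN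
    have hkT : (k : G) ∈ T := hKH _ k.2 hkN
    rw [Subgroup.mem_centralizer_iff]
    intro z hz
    apply Subtype.ext
    exact hcomm _ ((hmemP z).mp hz) _ hkT
  have hcompl := MonoidHom.ker_transferSylow_isComplement' P hP
  have hinj : Function.Injective K.subtype := Subtype.coe_injective
  have h1 : T₀.map T.subtype ≤
      normalizer ((((MonoidHom.transferSylow P hP).ker).map K.subtype : Subgroup G) : Set G) := by
    have hle := Subgroup.le_normalizer_map (H := (MonoidHom.transferSylow P hP).ker) K.subtype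
    rw [Subgroup.normalizer_eq_top] at hle
    intro t ht
    apply hle
    exact ⟨⟨t, hTK (hT'T ht)⟩, Subgroup.mem_top _, rfl⟩
  have h2 : (Nat.card (((MonoidHom.transferSylow P hP).ker).map K.subtype : Subgroup G)).Coprime
      3 := by
    have hc : Nat.card (((MonoidHom.transferSylow P hP).ker).map K.subtype : Subgroup G)
        = Nat.card (MonoidHom.transferSylow P hP).ker := Subgroup.card_map_of_injective hinj
    have hmul := hcompl.card_mul_card
    have hidx := Subgroup.card_mul_index (P : Subgroup K)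
    have hQidx : Nat.card (MonoidHom.transferSylow P hP).ker = (P : Subgroup K).index := by
      have hpos : 0 < Nat.card (P : Subgroup K) := Nat.card_pos
      have h3 : Nat.card (P : Subgroup K) * Nat.card (MonoidHom.transferSylow P hP).ker
          = Nat.card (P : Subgroup K) * (P : Subgroup K).index := by
        rw [hidx, mul_comm, hmul]
      exact Nat.eq_of_mul_eq_mul_left hpos h3
    rw [hc, hQidx]
    exact ((Nat.Prime.coprime_iff_not_dvd (by norm_num)).mpr P.not_dvd_index).symm
  have h6 : ∀ q ∈ (((MonoidHom.transferSylow P hP).ker).map K.subtype : Subgroup G),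
      ∀ t ∈ T₀.map T.subtype, t ≠ 1 → t * q = q * t → q = 1 := by
    intro q hq t ht ht1 hcm
    obtain ⟨k, hk, rfl⟩ := hq
    have hqH : (k : G) ∈ H := by
      apply cfg.loc t (hT'T ht) ht1
      rw [Subgroup.mem_centralizer_singleton_iff]
      exact hcm.symm
    have hkT : (k : G) ∈ T := hKH _ k.2 hqH
    have hk1 : k = 1 := Subgroup.disjoint_def.mp hcompl.disjoint hk ((hmemP k).mpr hkT)
    rw [hk1]
    rfl
  have hQbot := h G _ (T₀.map T.subtype) h1 h2 hT'card (fun t ht => hexp t (hT'T ht))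
    (fun s hs t ht => hcomm s (hT'T hs) t (hT'T ht)) h6
  have hQ'bot : (MonoidHom.transferSylow P hP).ker = ⊥ :=
    (Subgroup.map_eq_bot_iff_of_injective _ hinj).mp hQbot
  have hPtop : (P : Subgroup K) = ⊤ := by
    apply Subgroup.eq_top_of_card_eq
    have hmul := hcompl.card_mul_card
    rw [hQ'bot, Subgroup.card_bot, one_mul] at hmul
    exact hmul
  have hKT : K ≤ T := by
    rw [hPcoe] at hPtop
    exact Subgroup.subgroupOf_eq_top.mp hPtop
  have hTeq : T = K := le_antisymm hTK hKT
  rw [← cfg.norm, hTeq]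
  exact Subgroup.normalizer_eq_top_iff.mpr hKn

end Cfsg.Agent.H63.Tm

universe u
example (h : Cfsg.Agent.H4.Tn.StFpf.{u}) (hS : Cfsg.Agent.H64.Tm.StSyl.{u}) :
    Cfsg.Agent.H64.Tm.StFin.{u} := Cfsg.Agent.H63.Tm.fin h hS
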