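import Mathlib

set_option autoImplicit false

namespace Cfsg.Agent.H63.UPart

/-- The covering condition: `m` cycles can be split as `u` block-orbits plus `S` cycles inside
fixed blocks. -/
def Cover (a b r A m : ℕ) : Prop :=
  ∃ u S : ℕ, u * r ≤ b ∧ S ≤ (b - u * r) * A ∧ u * a + S = m

theorem cover_of_rhs (a b r A ℓ B k m : ℕ) (hr : 2 ≤ r) (ha : 2 ≤ a)
    (hA : a = r * A + ℓ) (hℓ : ℓ < r) (hB : b = r * B + k) (hk : k < r)
    (hm : m * r ≤ a * b) (_hra : r ≤ a)
    (H : ℓ = 0 ∨ (k = 0 ∧ ℓ = 1) ∨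
        (ℓ ≠ 0 ∧ k ≠ 0 ∧ k * ℓ < r ∧ (b < r ∨ (k + r) * ℓ ≤ k * a + r))) :
    Cover a b r A m := by
  have C1 : k * ℓ < r := by
    rcases H with h | ⟨h1, h2⟩ | ⟨_, _, h, _⟩
    · rw [h]; omega
    · rw [h1]; omega
    · exact h
  have C2 : B = 0 ∨ ℓ ≤ A * k + 1 := by
    rcases H with h | ⟨h1, h2⟩ | ⟨_, _, _, h | h⟩
    · right; omega
    · right; omega
    · left
      by_contra hB0
      have : r * 1 ≤ r * B := Nat.mul_le_mul_left r (Nat.one_le_iff_ne_zero.mpr hB0)
      omega
    · right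
      have e1 : (k + r) * ℓ = k * ℓ + r * ℓ := by ring
      have e2 : k * a = k * ℓ + r * (A * k) := by rw [hA]; ring
      have e3 : r * (A * k + 1) = r * (A * k) + r := by ring
      have : r * ℓ ≤ r * (A * k + 1) := by omega
      exact Nat.le_of_mul_le_mul_left this (by omega)
  have e_ak : a * k = k * A * r + k * ℓ := by rw [hA]; ring
  have e_ab : a * b = B * a * r + a * k := by rw [hB]; ring
  rcases le_or_gt (B * a) m with hu | hu
  · refine ⟨B, m - B * a, ?_, ?_, by omega⟩
    · have : B * r = r * B := Nat.mul_comm _ _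
      omega
    · have e0 : b - B * r = k := by
        have : B * r = r * B := Nat.mul_comm _ _
        omega
      rw [e0]
      by_contra hcon
      have h1 : B * a + k * A + 1 ≤ m := by omega
      have h2 : (B * a + k * A + 1) * r ≤ m * r := Nat.mul_le_mul_right r h1
      have e1 : (B * a + k * A + 1) * r = B * a * r + k * A * r + r := by ring
      omega
  · have hapos : 0 < a := by omega
    obtain ⟨d, e, hdm, hmod, hu1⟩ : ∃ d e, a * d + e = m ∧ e < a ∧ d + 1 ≤ B :=
      ⟨m / a, m % a, Nat.div_add_mod m a, Nat.mod_lt _ hapos, by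
        have := (Nat.div_lt_iff_lt_mul hapos).mpr hu
        omega⟩
    have h1 : (d + 1) * r ≤ B * r := Nat.mul_le_mul_right r hu1
    have h2 : B * r = r * B := Nat.mul_comm _ _
    have h3 : (d + 1) * r = d * r + r := by ring
    refine ⟨d, e, by omega, ?_, ?_⟩
    · have h4 : r + k ≤ b - d * r := by omega
      have h5 : (r + k) * A ≤ (b - d * r) * A := Nat.mul_le_mul_right A h4
      have h6 : (r + k) * A = r * A + A * k := by ring
      have h8 : ℓ ≤ A * k + 1 := by
        rcases C2 with h | h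
        · omega
        · exact h
      omega
    · have h9 : d * a = a * d := Nat.mul_comm _ _
      omega

theorem rhs_of_cover (a b r A ℓ B k : ℕ) (hr : 2 ≤ r) (ha : 2 ≤ a) (hb : 2 ≤ b)
    (hA : a = r * A + ℓ) (_hℓ : ℓ < r) (hB : b = r * B + k) (hk : k < r)
    (hrab : r ≤ a * b)
    (H : ∀ m, 1 ≤ m → m * r ≤ a * b → Cover a b r A m) :
    r ≤ a ∧ (ℓ = 0 ∨ (k = 0 ∧ ℓ = 1) ∨
        (ℓ ≠ 0 ∧ k ≠ 0 ∧ k * ℓ < r ∧ (b < r ∨ (k + r) * ℓ ≤ k * a + r))) := by
  have bound : ∀ u S, u * r ≤ b → S ≤ (b - u * r) * A →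
      u * a + S ≤ b * A + u * ℓ ∧ u ≤ B := by
    intro u S h1 h2
    have hu : u ≤ B := by
      by_contra hcon
      have h3 : B + 1 ≤ u := by omega
      have h4 : (B + 1) * r ≤ u * r := Nat.mul_le_mul_right r h3
      have h5 : (B + 1) * r = r * B + r := by ring
      omega
    refine ⟨?_, hu⟩
    obtain ⟨w, hw⟩ : ∃ w, b = w + u * r := ⟨b - u * r, by omega⟩
    have e0 : b - u * r = w := by omega
    rw [e0] at h2
    have e1 : u * a = u * r * A + u * ℓ := by rw [hA]; ring
    have e2 : b * A = w * A + u * r * A := by rw [hw]; ring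
    omega
  have hA1 : 1 ≤ A := by
    obtain ⟨u, S, h1, h2, h3⟩ := H 1 le_rfl (by omega)
    have hu0 : u = 0 := by
      by_contra hne
      have h4 : 1 * a ≤ u * a := Nat.mul_le_mul_right a (Nat.one_le_iff_ne_zero.mpr hne)
      omega
    subst hu0
    by_contra hA0
    have hA00 : A = 0 := by omega
    subst hA00
    have h5 : (b - 0 * r) * 0 = 0 := Nat.mul_zero _
    omega
  have hra : r ≤ a := by
    have : r * 1 ≤ r * A := Nat.mul_le_mul_left r hA1
    omega
  have eab : a * b = r * (A * b) + r * (B * ℓ) + ℓ * k := by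
    rw [hA, hB]; ring
  have C1 : k * ℓ < r := by
    have htop1 : 1 ≤ a * b / r := (Nat.one_le_div_iff (by omega)).mpr hrab
    have htop2 : a * b / r * r ≤ a * b := Nat.div_mul_le_self _ _
    obtain ⟨u, S, h1, h2, h3⟩ := H (a * b / r) htop1 htop2
    obtain ⟨hb1, hb2⟩ := bound u S h1 h2
    rw [h3] at hb1
    have h4 : u * ℓ ≤ B * ℓ := Nat.mul_le_mul_right ℓ hb2
    have h5 := Nat.div_add_mod (a * b) r
    have h6 := Nat.mod_lt (a * b) (show 0 < r by omega)
    have h7 : r * (a * b / r) ≤ r * (b * A + B * ℓ) := Nat.mul_le_mul_left r (by omega)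
    have h8 : r * (b * A + B * ℓ) = r * (A * b) + r * (B * ℓ) := by ring
    have h9 : k * ℓ = ℓ * k := Nat.mul_comm _ _
    omega
  have gap : 1 ≤ B → 1 ≤ ℓ → ℓ ≤ A * k + 1 := by
    intro hB1 hℓ1
    obtain ⟨B', hB'⟩ : ∃ B', B = B' + 1 := ⟨B - 1, by omega⟩
    have e2 : r * (B * ℓ) = r * (B' * ℓ) + r * ℓ := by rw [hB']; ring
    have e3 : r * 1 ≤ r * ℓ := Nat.mul_le_mul_left r hℓ1
    have hm1 : (B' * ℓ + b * A + 1) * r ≤ a * b := by
      have e1 : (B' * ℓ + b * A + 1) * r = r * (B' * ℓ) + r * (A * b) + r := by ring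
      omega
    obtain ⟨u, S, h1, h2, h3⟩ := H (B' * ℓ + b * A + 1) (by omega) hm1
    obtain ⟨hb1, hb2⟩ := bound u S h1 h2
    rw [h3] at hb1
    have hu : u = B := by
      by_contra hne
      have h4 : u ≤ B' := by omega
      have h5 : u * ℓ ≤ B' * ℓ := Nat.mul_le_mul_right ℓ h4
      omega
    rw [hu] at h3
    have e4 : B * a = r * B * A + B' * ℓ + ℓ := by
      rw [hA, hB']; ring
    have e5 : b * A = r * B * A + A * k := by
      rw [hB]; ring
    omega
  refine ⟨hra, ?_⟩
  by_cases hℓ0 : ℓ = 0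
  · left; exact hℓ0
  · right
    by_cases hk0 : k = 0
    · left
      refine ⟨hk0, ?_⟩
      have hB1 : 1 ≤ B := by
        by_contra h
        have hB0 : B = 0 := by omega
        rw [hB0, hk0] at hB
        omega
      have hg := gap hB1 (by omega)
      rw [hk0] at hg
      omega
    · right
      refine ⟨hℓ0, hk0, C1, ?_⟩
      by_cases hbr : b < r
      · left; exact hbr
      · right
        have hB1 : 1 ≤ B := by
          by_contra h
          have hB0 : B = 0 := by omega
          rw [hB0] at hB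
          omega
        have hg := gap hB1 (by omega)
        have e1 : (k + r) * ℓ = k * ℓ + r * ℓ := by ring
        have e2 : k * a = k * ℓ + r * (A * k) := by rw [hA]; ring
        have e3 : r * ℓ ≤ r * (A * k + 1) := Nat.mul_le_mul_left r hg
        have e4 : r * (A * k + 1) = r * (A * k) + r := by ring
        omega

theorem factorial_dvd (a : ℕ) (ha : 1 ≤ a) :
    ∀ b : ℕ, a.factorial ^ b * b.factorial ∣ (a * b).factorial
  | 0 => by simp
  | b + 1 => by
    obtain ⟨q, hq⟩ := factorial_dvd a ha b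
    obtain ⟨a', rfl⟩ : ∃ a', a = a' + 1 := ⟨a - 1, by omega⟩
    have h1 : ((a' + 1) * b + a' + 1) * Nat.choose ((a' + 1) * b + a') a' =
        Nat.choose ((a' + 1) * b + a' + 1) (a' + 1) * (a' + 1) := Nat.add_one_mul_choose_eq _ _
    have h2 : (b + 1) * Nat.choose ((a' + 1) * b + a') a' =
        Nat.choose ((a' + 1) * b + a' + 1) (a' + 1) := by
      apply Nat.eq_of_mul_eq_mul_right (show 0 < a' + 1 by omega)
      rw [← h1]; ring
    have h3 : Nat.choose ((a' + 1) * b + (a' + 1)) (a' + 1) * ((a' + 1) * b).factorial *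
        (a' + 1).factorial = ((a' + 1) * b + (a' + 1)).factorial :=
      Nat.add_choose_mul_factorial_mul_factorial ((a' + 1) * b) (a' + 1)
    refine ⟨Nat.choose ((a' + 1) * b + a') a' * q, ?_⟩
    have h4 : (a' + 1) * (b + 1) = (a' + 1) * b + (a' + 1) := by ring
    have h5 : (a' + 1) * b + a' + 1 = (a' + 1) * b + (a' + 1) := by ring
    rw [h5] at h2
    rw [h4, ← h3, ← h2, hq, Nat.factorial_succ b, pow_succ]
    ring

theorem le_of_dvd (a b r : ℕ) (hr : r.Prime) (ha : 1 ≤ a)
    (hrd : r ∣ (a * b).factorial / (a.factorial ^ b * b.factorial)) : r ≤ a * b := by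
  have h1 := factorial_dvd a ha b
  have h2 : r ∣ (a * b).factorial := by
    rw [← Nat.mul_div_cancel' h1]
    exact Dvd.dvd.mul_left hrd _
  exact (Nat.Prime.dvd_factorial hr).mp h2

end Cfsg.Agent.H63.UPart
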