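import Mathlib
import Cfsg.Agent.H63.KSubsets
import Cfsg.Agent.H63.UPartArith

set_option autoImplicit false

namespace Cfsg.Agent.H63.UPart

open Equiv

theorem exists_perm (n c r : ℕ) (hr : r.Prime) (h : c * r ≤ n) :
    ∃ g : Perm (Fin n), g ^ r = 1 ∧ g.support.card = c * r := by
  have hex : ∃ g : Perm (Fin n), g.cycleType = Multiset.replicate c r := by
    rw [Equiv.Perm.exists_with_cycleType_iff]
    refine ⟨?_, ?_⟩
    · rw [Multiset.sum_replicate, smul_eq_mul, Fintype.card_fin]; exact h
    · intro x hx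
      rw [Multiset.eq_of_mem_replicate hx]; exact hr.two_le
  obtain ⟨g, hg⟩ := hex
  refine ⟨g, ?_, ?_⟩
  · apply orderOf_dvd_iff_pow_eq_one.mp
    rw [← Equiv.Perm.lcm_cycleType, hg]
    apply Multiset.lcm_dvd.mpr
    intro x hx
    rw [Multiset.eq_of_mem_replicate hx]
  · rw [← Equiv.Perm.sum_cycleType, hg, Multiset.sum_replicate, smul_eq_mul]

theorem dvd_card_support {α : Type*} [Fintype α] [DecidableEq α] (r : ℕ) (hr : r.Prime)
    (g : Perm α) (hg : g ^ r = 1) : r ∣ g.support.card := by
  have : Fact r.Prime := ⟨hr⟩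
  by_cases h1 : g = 1
  · rw [h1, Equiv.Perm.support_one, Finset.card_empty]; exact dvd_zero r
  · have hord : orderOf g = r := orderOf_eq_prime hg h1
    obtain ⟨j, hj⟩ := Equiv.Perm.cycleType_prime_order (σ := g) (by rw [hord]; exact hr)
    rw [← Equiv.Perm.sum_cycleType, hj, Multiset.sum_replicate, smul_eq_mul, hord]
    exact Dvd.intro_left _ rfl

theorem dvd_card_filter {α : Type*} [Fintype α] [DecidableEq α] (r : ℕ) (hr : r.Prime)
    (σ : Perm α) (hσ : σ ^ r = 1) (F : Finset α) (hF : ∀ x ∈ F, σ x ∈ F) :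
    r ∣ (F.filter (fun x => σ x ≠ x)).card := by
  have himg := KSubsets.image_eq_of_maps σ F hF
  have hinv : ∀ x, σ x ∈ F ↔ x ∈ F := by
    intro x
    constructor
    · intro hx
      rw [← himg] at hx
      obtain ⟨y, hy, hyx⟩ := Finset.mem_image.mp hx
      rwa [← σ.injective hyx]
    · exact hF x
  set τ : Perm {x // x ∈ F} := σ.subtypePerm hinv with hτ
  have hτr : τ ^ r = 1 := by
    rw [hτ, Equiv.Perm.subtypePerm_pow]
    ext x
    simp [hσ]
  have h1 := dvd_card_support r hr τ hτr
  have h2 : τ.support.card = (F.filter (fun x => σ x ≠ x)).card := by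
    rw [← Finset.card_map (Function.Embedding.subtype _)]
    congr 1
    ext x
    simp only [Finset.mem_map, Equiv.Perm.mem_support, Function.Embedding.coe_subtype,
      Finset.mem_filter]
    constructor
    · rintro ⟨y, hy, rfl⟩
      refine ⟨y.2, ?_⟩
      intro h
      apply hy
      apply Subtype.ext
      simpa [hτ] using h
    · rintro ⟨hx, hne⟩
      refine ⟨⟨x, hx⟩, ?_, rfl⟩
      intro h
      apply hne
      have := congrArg Subtype.val h
      simpa [hτ] using this
  rw [← h2]; exact h1

theorem exists_distrib {ι : Type*} [DecidableEq ι] (A : ℕ) (T : Finset ι) :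
    ∀ S : ℕ, S ≤ T.card * A →
    ∃ c : ι → ℕ, (∀ j, c j ≤ A) ∧ (∀ j, j ∉ T → c j = 0) ∧ ∑ j ∈ T, c j = S := by
  induction T using Finset.induction_on with
  | empty =>
    intro S hS
    refine ⟨fun _ => 0, fun _ => Nat.zero_le _, fun _ _ => rfl, ?_⟩
    simp at hS
    simp [hS]
  | insert j₀ T hj₀ ih =>
    intro S hS
    rw [Finset.card_insert_of_notMem hj₀] at hS
    have hS' : S - min S A ≤ T.card * A := by
      have : (T.card + 1) * A = T.card * A + A := by ring
      rcases le_total S A with h | h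
      · rw [min_eq_left h]; omega
      · rw [min_eq_right h]; omega
    obtain ⟨c', hc1, hc2, hc3⟩ := ih (S - min S A) hS'
    refine ⟨Function.update c' j₀ (min S A), ?_, ?_, ?_⟩
    · intro j
      by_cases hj : j = j₀
      · rw [hj, Function.update_self]; exact min_le_right _ _
      · rw [Function.update_of_ne hj]; exact hc1 j
    · intro j hj
      rw [Finset.mem_insert, not_or] at hj
      rw [Function.update_of_ne hj.1]; exact hc2 j hj.2
    · rw [Finset.sum_insert hj₀, Function.update_self]
      have : ∑ j ∈ T, Function.update c' j₀ (min S A) j = ∑ j ∈ T, c' j := by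
        apply Finset.sum_congr rfl
        intro j hj
        rw [Function.update_of_ne]
        rintro rfl
        exact hj₀ hj
      rw [this, hc3]
      have := min_le_left S A
      omega

theorem exists_model (a b r A m : ℕ) (hr : r.Prime) (hAr : A * r ≤ a) (hc : Cover a b r A m) :
    ∃ (σ₀ : Perm (Fin b × Fin a)) (π : Perm (Fin b)), σ₀ ^ r = 1 ∧ σ₀.support.card = m * r ∧
      ∀ p, (σ₀ p).1 = π p.1 := by
  classical
  obtain ⟨u, S, hu, hS, hm⟩ := hc
  obtain ⟨π, hπr, hπs⟩ := exists_perm b u r hr hu
  have hT : (π.supportᶜ).card = b - u * r := by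
    rw [Finset.card_compl, Fintype.card_fin, hπs]
  obtain ⟨c, hc1, hc2, hc3⟩ := exists_distrib A π.supportᶜ S (by rw [hT]; exact hS)
  have hc2' : ∀ j, π j ≠ j → c j = 0 := by
    intro j hj
    apply hc2
    rw [Finset.mem_compl, not_not, Equiv.Perm.mem_support]
    exact hj
  have hcsum : ∑ j, c j = S := by
    rw [← hc3]
    symm
    apply Finset.sum_subset (Finset.subset_univ _)
    intro j _ hj
    exact hc2 j hj
  have hex : ∀ j : Fin b, ∃ g : Perm (Fin a), g ^ r = 1 ∧ g.support.card = c j * r := by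
    intro j
    apply exists_perm a (c j) r hr
    calc c j * r ≤ A * r := Nat.mul_le_mul_right r (hc1 j)
      _ ≤ a := hAr
  choose τ hτr hτs using hex
  have hτ1 : ∀ j, π j ≠ j → τ j = 1 := by
    intro j hj
    rw [← Equiv.Perm.card_support_eq_zero, hτs, hc2' j hj, Nat.zero_mul]
  set σ₀ : Perm (Fin b × Fin a) := Equiv.prodShear π τ with hσ₀
  have happ : ∀ p : Fin b × Fin a, σ₀ p = (π p.1, τ p.1 p.2) := fun p => rfl
  refine ⟨σ₀, π, ?_, ?_, ?_⟩
  · have hpow : ∀ n : ℕ, ∀ p : Fin b × Fin a, (σ₀ ^ n) p =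
        if π p.1 = p.1 then (p.1, (τ p.1 ^ n) p.2) else ((π ^ n) p.1, p.2) := by
      intro n
      induction n with
      | zero => intro p; simp
      | succ n ih =>
        intro p
        rw [pow_succ, Equiv.Perm.mul_apply, ih, happ]
        by_cases hp : π p.1 = p.1
        · simp only [hp, if_true]
          rw [pow_succ, Equiv.Perm.mul_apply]
        · have hp' : π (π p.1) ≠ π p.1 := fun h => hp (π.injective h)
          simp only
          rw [if_neg hp', if_neg hp, hτ1 _ hp, pow_succ, Equiv.Perm.mul_apply]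
          simp
    apply Equiv.Perm.ext
    intro p
    rw [hpow r p]
    by_cases hp : π p.1 = p.1
    · rw [if_pos hp, hτr]; simp
    · rw [if_neg hp, hπr]; simp
  · have h1 : σ₀.support.card =
        ∑ j : Fin b, (if π j = j then (τ j).support.card else a) := by
      have hs : σ₀.support =
          Finset.univ.filter (fun p : Fin b × Fin a => π p.1 ≠ p.1 ∨ τ p.1 p.2 ≠ p.2) := by
        ext p
        simp only [Equiv.Perm.mem_support, happ, Finset.mem_filter,
          Finset.mem_univ, true_and, ne_eq]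
        rw [Prod.ext_iff, not_and_or]
      rw [hs, Finset.card_filter, Fintype.sum_prod_type]
      apply Finset.sum_congr rfl
      intro j _
      by_cases hj : π j = j
      · rw [if_pos hj]
        have hs2 : (τ j).support = Finset.univ.filter (fun x => τ j x ≠ x) := by
          ext x; simp
        rw [hs2, Finset.card_filter]
        apply Finset.sum_congr rfl
        intro x _
        simp [hj]
      · rw [if_neg hj]
        simp [hj]
    rw [h1]
    have h2 : ∀ j : Fin b, (if π j = j then (τ j).support.card else a) =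
        c j * r + (if j ∈ π.support then a else 0) := by
      intro j
      by_cases hj : π j = j
      · rw [if_pos hj, if_neg (by rw [Equiv.Perm.mem_support]; exact not_not.mpr hj), hτs,
          Nat.add_zero]
      · rw [if_neg hj, if_pos (Equiv.Perm.mem_support.mpr hj), hc2' j hj]; simp
    rw [Finset.sum_congr rfl (fun j _ => h2 j), Finset.sum_add_distrib, ← Finset.sum_mul, hcsum,
      Finset.sum_ite_mem, Finset.univ_inter, Finset.sum_const, smul_eq_mul, hπs, ← hm]
    ring
  · intro p; rfl

theorem invariant_of_cover (a b r A : ℕ) (hr : r.Prime) (hAr : A * r ≤ a)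
    (σ : Perm (Fin (a * b))) (hσ : orderOf σ = r)
    (hc : Cover a b r A (σ.support.card / r)) :
    ∃ f : Fin (a * b) → Fin b, (∀ j : Fin b, Nat.card {x : Fin (a * b) // f x = j} = a) ∧
      ∃ π : Perm (Fin b), ∀ x : Fin (a * b), f (σ x) = π (f x) := by
  classical
  have : Fact r.Prime := ⟨hr⟩
  obtain ⟨j, hj⟩ := Equiv.Perm.cycleType_prime_order (σ := σ) (by rw [hσ]; exact hr)
  rw [hσ] at hj
  have hsupp : σ.support.card = (j + 1) * r := by
    rw [← Equiv.Perm.sum_cycleType, hj, Multiset.sum_replicate, smul_eq_mul]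
  rw [hsupp, Nat.mul_div_cancel _ hr.pos] at hc
  obtain ⟨σ₀, π, h1, h2, h3⟩ := exists_model a b r A (j + 1) hr hAr hc
  let e : Fin b × Fin a ≃ Fin (a * b) := Fintype.equivFinOfCardEq (by simp [Nat.mul_comm])
  let σ₁ : Perm (Fin (a * b)) := e.permCongrHom σ₀
  have hσ₁app : ∀ x, σ₁ x = e (σ₀ (e.symm x)) := fun x => rfl
  have hσ₁r : σ₁ ^ r = 1 := by
    show (e.permCongrHom σ₀) ^ r = 1
    rw [← map_pow, h1, map_one]
  have hσ₁s : σ₁.support.card = (j + 1) * r := by
    rw [← h2, ← Finset.card_map e.toEmbedding]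
    congr 1
    ext x
    rw [Finset.mem_map_equiv, Equiv.Perm.mem_support, Equiv.Perm.mem_support, hσ₁app]
    constructor
    · intro h h'
      apply h
      rw [h', Equiv.apply_symm_apply]
    · intro h h'
      apply h
      have h'' := congrArg e.symm h'
      rw [Equiv.symm_apply_apply] at h''
      exact h''
  have hσ₁ne : σ₁ ≠ 1 := by
    intro h
    rw [h, Equiv.Perm.support_one, Finset.card_empty] at hσ₁s
    have : 0 < (j + 1) * r := Nat.mul_pos (Nat.succ_pos j) hr.pos
    omega
  have hord₁ : orderOf σ₁ = r := orderOf_eq_prime hσ₁r hσ₁ne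
  obtain ⟨j', hj'⟩ := Equiv.Perm.cycleType_prime_order (σ := σ₁) (by rw [hord₁]; exact hr)
  rw [hord₁] at hj'
  have hjj : j' = j := by
    have h4 : σ₁.support.card = (j' + 1) * r := by
      rw [← Equiv.Perm.sum_cycleType, hj', Multiset.sum_replicate, smul_eq_mul]
    rw [hσ₁s] at h4
    have := Nat.eq_of_mul_eq_mul_right hr.pos h4
    omega
  have hconj : IsConj σ₁ σ := by
    rw [Equiv.Perm.isConj_iff_cycleType_eq, hj, hj', hjj]
  obtain ⟨g, hg⟩ := isConj_iff.mp hconj
  have key : ∀ x, g⁻¹ (σ x) = σ₁ (g⁻¹ x) := by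
    intro x
    rw [← hg]
    simp
  refine ⟨fun x => (e.symm (g⁻¹ x)).1, ?_, π, ?_⟩
  · intro i
    have eq : {x : Fin (a * b) // (e.symm (g⁻¹ x)).1 = i} ≃ Fin a :=
      { toFun := fun x => (e.symm (g⁻¹ x.1)).2
        invFun := fun y => ⟨g (e (i, y)), by simp⟩
        left_inv := by
          rintro ⟨x, hx⟩
          apply Subtype.ext
          show g (e (i, (e.symm (g⁻¹ x)).2)) = x
          have h5 : (i, (e.symm (g⁻¹ x)).2) = e.symm (g⁻¹ x) := Prod.ext hx.symm rfl
          rw [h5, Equiv.apply_symm_apply]; simp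
        right_inv := by
          intro y
          simp }
    rw [Nat.card_congr eq, Nat.card_fin]
  · intro x
    show (e.symm (g⁻¹ (σ x))).1 = π (e.symm (g⁻¹ x)).1
    rw [key, hσ₁app, Equiv.symm_apply_apply, h3]

theorem cover_of_invariant (a b r : ℕ) (hr : r.Prime) (ha : 1 ≤ a)
    (σ : Perm (Fin (a * b))) (hσ : σ ^ r = 1)
    (f : Fin (a * b) → Fin b) (hf : ∀ j : Fin b, Nat.card {x : Fin (a * b) // f x = j} = a)
    (π : Perm (Fin b)) (hπ : ∀ x, f (σ x) = π (f x)) :
    Cover a b r (a / r) (σ.support.card / r) := by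
  classical
  have hfib : ∀ j : Fin b, (Finset.univ.filter (fun x => f x = j)).card = a := by
    intro j
    have h0 := hf j
    rw [Nat.card_eq_fintype_card, Fintype.card_subtype] at h0
    exact h0
  have hsurj : Function.Surjective f := by
    intro j
    have h0 : 0 < (Finset.univ.filter (fun x => f x = j)).card := by rw [hfib j]; exact ha
    obtain ⟨x, hx⟩ := Finset.card_pos.mp h0
    exact ⟨x, (Finset.mem_filter.mp hx).2⟩
  have hpow : ∀ n : ℕ, ∀ x, f ((σ ^ n) x) = (π ^ n) (f x) := by
    intro n
    induction n with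
    | zero => intro x; simp
    | succ n ih =>
      intro x
      rw [pow_succ, pow_succ, Equiv.Perm.mul_apply, Equiv.Perm.mul_apply, ih, hπ]
  have hπr : π ^ r = 1 := by
    apply Equiv.Perm.ext
    intro j
    obtain ⟨x, rfl⟩ := hsurj j
    rw [← hpow, hσ]; simp
  obtain ⟨u, hu⟩ := dvd_card_support r hr π hπr
  have hsj : ∀ j : Fin b, ∃ cj, cj ≤ a / r ∧ (π j = j →
      ((Finset.univ.filter (fun x => f x = j)).filter (fun x => σ x ≠ x)).card = cj * r) := by
    intro j
    by_cases hj : π j = j
    · have hd := dvd_card_filter r hr σ hσ (Finset.univ.filter (fun x => f x = j)) (by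
        intro x hx
        rw [Finset.mem_filter] at hx ⊢
        refine ⟨Finset.mem_univ _, ?_⟩
        rw [hπ, hx.2, hj])
      obtain ⟨cj, hcj⟩ := hd
      refine ⟨cj, ?_, fun _ => by rw [hcj, Nat.mul_comm]⟩
      have hle : ((Finset.univ.filter (fun x => f x = j)).filter (fun x => σ x ≠ x)).card ≤ a := by
        exact le_trans (Finset.card_le_card (Finset.filter_subset _ _)) (le_of_eq (hfib j))
      rw [Nat.le_div_iff_mul_le hr.pos]
      rw [hcj] at hle
      rw [Nat.mul_comm]; exact hle
    · exact ⟨0, Nat.zero_le _, fun h => absurd h hj⟩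
  choose c hc1 hc2 using hsj
  have hcount : σ.support.card = ∑ j : Fin b, (σ.support.filter (fun x => f x = j)).card :=
    Finset.card_eq_sum_card_fiberwise (by intro x _; simp)
  have hterm : ∀ j : Fin b, (σ.support.filter (fun x => f x = j)).card =
      if j ∈ π.support then a else c j * r := by
    intro j
    by_cases hj : j ∈ π.support
    · rw [if_pos hj]
      refine Eq.trans ?_ (hfib j)
      congr 1
      ext x
      simp only [Finset.mem_filter, Finset.mem_univ, true_and, Equiv.Perm.mem_support]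
      constructor
      · exact fun h => h.2
      · intro hx
        refine ⟨?_, hx⟩
        intro hfix
        rw [Equiv.Perm.mem_support] at hj
        apply hj
        rw [← hx, ← hπ, hfix]
    · rw [if_neg hj]
      rw [Equiv.Perm.mem_support, not_not] at hj
      rw [← hc2 j hj]
      congr 1
      ext x
      simp only [Finset.mem_filter, Finset.mem_univ, true_and, Equiv.Perm.mem_support]
      exact and_comm
  have hA1 : ∑ j ∈ π.support, (if j ∈ π.support then a else c j * r) = π.support.card * a := by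
    rw [← smul_eq_mul, ← Finset.sum_const]
    exact Finset.sum_congr rfl (fun j hj => if_pos hj)
  have hA2 : ∑ j ∈ π.supportᶜ, (if j ∈ π.support then a else c j * r) =
      (∑ j ∈ π.supportᶜ, c j) * r := by
    rw [Finset.sum_mul]
    exact Finset.sum_congr rfl (fun j hj => if_neg (Finset.mem_compl.mp hj))
  rw [Finset.sum_congr rfl (fun j _ => hterm j), ← Finset.sum_add_sum_compl π.support, hA1, hA2,
    hu] at hcount
  refine ⟨u, ∑ j ∈ π.supportᶜ, c j, ?_, ?_, ?_⟩
  · have h5 := Finset.card_le_univ π.support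
    rw [hu, Fintype.card_fin] at h5
    rw [Nat.mul_comm]; exact h5
  · have h6 : ∑ j ∈ π.supportᶜ, c j ≤ (π.supportᶜ).card • (a / r) :=
      Finset.sum_le_card_nsmul _ _ _ (fun j _ => hc1 j)
    rw [smul_eq_mul, Finset.card_compl, Fintype.card_fin, hu] at h6
    rw [Nat.mul_comm u r]; exact h6
  · rw [hcount]
    have h7 : r * u * a + (∑ j ∈ π.supportᶜ, c j) * r = (u * a + ∑ j ∈ π.supportᶜ, c j) * r := by
      ring
    rw [h7, Nat.mul_div_cancel _ hr.pos]

end Cfsg.Agent.H63.UPart
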